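import Cfsg.Agent.PLocal.Ct9
import Cfsg.Agent.PLocal.Ct6

/-! The local `C*(G,T)`-theorem: the intersection of an overgroup `M` of `C*(G,T)` with a subnormal linear block (`CM.lin`,
`CM.lin_cl`). -/

set_option linter.unusedSectionVars false

namespace Cfsg.Agent.PLocal.PU
open Subgroup Cfsg Cfsg.Agent.Loc Cfsg.Agent.PLocal.FF Cfsg.Agent.Classical Matrix
open scoped commutatorElement MatrixGroups
local notation:max "C[" H "]" => Subgroup.centralizer (SetLike.coe H)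
local notation:max "N[" H "]" => Subgroup.normalizer (SetLike.coe H)

theorem sl_gen {F : Type} [Field F] {K : Subgroup SL(2, F)} {x y : Fin 2 → F} (h : om x y ≠ 0) (hx : ∀ m : SL(2, F), m • x = x → m ∈ K)
    (hy : ∀ m : SL(2, F), m • y = y → m ∈ K) : K = ⊤ := by
  let c : SL(2, F) := ⟨!![x 0, y 0 / om x y; x 1, y 1 / om x y], by rw [det_fin_two_of]; field_simp; rw [om]; ring⟩
  have e0 : c • ![(1 : F), 0] = x := by rw [sl_smul]; ext i; fin_cases i <;> simp [c, mulVec, dotProduct, Fin.sum_univ_two]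
  have e1 : c • ![(0 : F), om x y] = y := by rw [sl_smul]; ext i; fin_cases i <;> simp [c, mulVec, dotProduct, Fin.sum_univ_two, h]
  have : K.comap (MulAut.conj c).toMonoidHom = ⊤ := sl_eq_top_of_uSL_lSL (fun b => hx _ (by rw [← e0]; simp [mul_smul, uSL_smul]))
    fun b => hy _ (by generalize om x y = d at e1; rw [← e1]; simp [mul_smul, lSL_smul])
  exact top_unique fun g _ => by simpa [mul_assoc] using this.ge (mem_top (c⁻¹ * g * c))

theorem sl_small {F : Type} [Field F] [Finite F] (q : ¬ 3 < Nat.card F) {x : Fin 2 → F} (x0 : x ≠ 0) {a m : SL(2, F)} (ha : a • x = x)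
    (a1 : a ≠ 1) (hm : m • x = x) : m ∈ zpowers a := by
  obtain ⟨c, -, rfl⟩ := comm_trans (F := F) (x := ![1, 0]) (by simp) x0
  have k : ∀ g : SL(2, F), g • c • ![(1 : F), 0] = c • ![(1 : F), 0] → ∃ t, g = c * uSL t * c⁻¹ := fun g hg => by
    obtain ⟨t, ht⟩ := sl_fix (A := c⁻¹ * g * c) one_ne_zero (by rw [← sl_smul, mul_smul, mul_smul, hg, inv_smul_smul])
    exact ⟨t, by rw [← ht]; group⟩
  obtain ⟨t, rfl⟩ := k a ha
  obtain ⟨s, rfl⟩ := k m hm
  have : s = 0 ∨ s = t ∨ s = -t := by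
    rcases small_cases q t with rfl | rfl | rfl
    · simp at a1
    · exact small_cases q s
    · simpa [or_comm] using small_cases q s
  rcases this with rfl | rfl | rfl
  · simp
  · exact mem_zpowers _
  · rw [← uSL_inv, ← conj_inv]; exact inv_mem (mem_zpowers _)

universe u
variable {G : Type u} [Group G] {p : ℕ} [Finite G] [Fact p.Prime] {B T M E X A : Subgroup G} {f d : G}

section gen
variable {R V : Type*} [Group R] [AddCommGroup V] [DistribMulAction R V] {R₁ : Subgroup R} {V₀ : AddSubgroup V} {θ : G → R} {ψ : G → V}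

/-- Preimage of a subgroup of the acting group. -/
def Sc.pre {U U₀ : Subgroup G} (h : Sc R₁ V₀ θ ψ E U U₀) (Y : Subgroup R) : Subgroup G where
  carrier := {g | g ∈ E ∧ θ g ∈ Y}
  mul_mem' := fun ha hb => ⟨mul_mem ha.1 hb.1, h.mul _ ha.1 _ hb.1 ▸ mul_mem ha.2 hb.2⟩
  one_mem' := ⟨one_mem _, h.rho_one ▸ one_mem _⟩
  inv_mem' := fun ha => ⟨inv_mem ha.1, h.rho_inv ha.1 ▸ inv_mem ha.2⟩

theorem HN_le (T E : Subgroup G) : E ⊔ T ⊓ N[E] ≤ N[E] := sup_le le_normalizer inf_le_right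

namespace SB
variable (sb : SB p E) (c : CT p T)
include sb

theorem QP : pCoreOf p E ≤ pCore p G := (pCoreOf_eq_inf_of_subnIn sb.sub).le.trans (inf_le_left.trans (pCoreOf_top p G).le)

include c

theorem sy : SylIn p (T ⊓ N[E]) (E ⊔ T ⊓ N[E]) := by
  have sy := (c.syl.inf_subnIn sb.sub).sup_of_normal (sylIn_self (c.syl.pg.to_le (inf_le_left (b := N[E])))) inf_le_right
    (c.syl.pg.to_le (sup_le inf_le_left inf_le_left))
  rwa [sup_eq_right.2 (inf_le_inf_left _ le_normalizer)] at sy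

theorem KT : KE p E ⊓ (E ⊔ T ⊓ N[E]) ≤ T :=
  have b := sb.blk c
  (le_pCoreOf inf_le_right (le_normalizer_inf ((HN_le T E).trans (norm_KE E)) le_normalizer)
    (isPGroup_of_pResidualOf_le (isPGroup_pCoreOf p E) (b.le_core ((pResidualOf_mono inf_le_right).trans
      (res_sup b.res (c.syl.pg.to_le inf_le_left) inf_le_right).le) (commutator_le_of_le_centralizer' ((pResidualOf_le p _).trans
        (inf_le_left.trans inf_le_right)) _)))).trans ((sb.sy c).pCoreOf_le.trans inf_le_left)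

variable (s : Sc R₁ V₀ θ ψ N[E] (VV p E) (ZE p E))
include s

theorem memM (hT : T ≤ M) (hf : f ∈ E ⊔ T ⊓ N[E]) (hd : d ∈ M ⊓ (E ⊔ T ⊓ N[E])) (e : ∀ v ∈ V₀, θ d • v = θ f • v) : f ∈ M := by
  have nf := HN_le T E hf
  have nd := HN_le T E hd.2
  have := hT (sb.KT c (mem_inf.2 ⟨(sb.blk c).mem_KE s (mul_mem (inv_mem nd) nf) fun v hv => by
    rw [s.mul _ (inv_mem nd) _ nf, s.rho_inv nd, mul_smul, ← e v hv, inv_smul_smul], mul_mem (inv_mem hd.2) hf⟩))
  exact (Subgroup.mul_mem_cancel_left _ (inv_mem hd.1)).1 this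

theorem pg (hX : X ≤ E ⊔ T ⊓ N[E]) (h : ∀ g ∈ X, ∃ k, ∀ v ∈ V₀, θ g ^ p ^ k • v = v) : IsPGroup p X := isPGroup_of_forall_pow fun g hg => by
  obtain ⟨k, hk⟩ := h g hg
  have ng := HN_le T E (hX hg)
  obtain ⟨j, hj⟩ := exists_pow_of_isPGroup c.syl.pg (sb.KT c (mem_inf.2 ⟨(sb.blk c).mem_KE s (pow_mem ng _) fun v hv => by
    rw [s.rho_pow ng, hk v hv], pow_mem (hX hg) _⟩))
  exact ⟨k + j, by rw [pow_add, pow_mul, hj]⟩

end SB
end gen

/-- The self-normalizing property of `M ∩ E`. -/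
def SN (p : ℕ) (T M E : Subgroup G) : Prop :=
  ∀ A ∈ eaMax p T, ¬ A ≤ C[WE p E] → ∀ e ∈ E, cj e A ≤ M → cj e (M ⊓ E) ≤ M → e ∈ M

theorem Blk.exists_A (b : Blk p T E) (c : CT p T) : ∃ A ∈ eaMax p T, ¬ A ≤ C[WE p E] :=
  by_contra fun e => b.not_J c (J_le_iff.2 fun A hA => by_contra fun f => e ⟨A, hA, f⟩)

section lin
variable {F : Type} [Field F] [Finite F] {ρ : G → SL(2, F)} {ψ : G → Fin 2 → F} {θ : G → AA F} {R₁ : Subgroup (AA F)}

/-- The elements of `SL₂` induced by `D`. -/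
def slK {N U U₀ : Subgroup G} (s : Sc R₁ (⊤ : AddSubgroup (Fin 2 → F)) θ ψ N U U₀) (D : Subgroup G) : Subgroup SL(2, F) where
  carrier := {m | ∃ d ∈ D ⊓ N, ∀ v : Fin 2 → F, θ d • v = m • v}
  mul_mem' := fun ⟨a, ha, hm⟩ ⟨b, hb, hn⟩ => ⟨a * b, mul_mem ha hb, fun v => by rw [s.mul _ ha.2 _ hb.2, mul_smul, mul_smul, hn, hm]⟩
  one_mem' := ⟨1, one_mem _, fun v => by rw [s.rho_one, one_smul, one_smul]⟩
  inv_mem' := fun ⟨a, ha, hm⟩ => ⟨a⁻¹, inv_mem ha, fun v => by rw [s.rho_inv ha.2, inv_smul_eq_iff, hm, smul_inv_smul]⟩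

theorem CM.lin (c : CM p T M) (sb : SB p E) (n : ¬ E ≤ M) (l : Lin p B E F ρ ψ) : ∃ x : Fin 2 → F, x ≠ 0 ∧
    (∀ e ∈ E, e ∈ M ↔ ∃ a : F, ρ e • x = a • x) ∧ SN p T M E ∧ (3 < Nat.card F → M ⊓ E = E ⊓ N[(T ⊓ E : Subgroup G)]) := by
  haveI := l.ch
  have b := sb.blk c.ct
  obtain ⟨θ, R₁, s, hs⟩ := l.sc.ext_lin (norm_VV E) (norm_ZE E)
  obtain ⟨x, x0, hx⟩ := b.toBk.unip l.ch s hs c.ct.syl.pg (b.WT c.ct) b.nB
  have ae : ∀ e ∈ E, ∀ v : Fin 2 → F, θ e • v = ρ e • v := fun e he v => l.sc.act_eq s he (le_normalizer he) trivial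
  have pB := c.ct.syl.pg.to_le (BB_le p T)
  have BH : E ⊔ BB p T ≤ E ⊔ T ⊓ N[E] := sup_le_sup_left (le_inf (BB_le p T) b.nB) _
  have sl : E ⊔ BB p T ≤ slS s := sup_le (fun e he => ⟨le_normalizer he, ρ e, ae e he⟩) fun g hg =>
    ⟨b.nB hg, (unip_elt s x0 (b.nB hg) (s.pow_of pB hg (b.nB hg)).choose_spec (hx g hg).1 (hx g hg).2).1⟩
  obtain ⟨U, mU⟩ : ∃ U : Subgroup G, ∀ g, g ∈ U ↔ g ∈ E ⊔ BB p T ∧ θ g • x = x := ⟨(E ⊔ BB p T) ⊓ s.pre (MulAction.stabilizer _ x), fun g =>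
    and_congr_right fun h => and_iff_right (sl h).1⟩
  have pU : IsPGroup p U := sb.pg c.ct s (fun g hg => BH ((mU g).1 hg).1) fun g hg => ⟨1, fun v _ => by
    obtain ⟨h1, h2⟩ := (mU g).1 hg
    obtain ⟨-, m, hm⟩ := sl h1
    have : ∀ n : ℕ, ∀ v : Fin 2 → F, θ g ^ n • v = m ^ n • v := fun n => by
      induction n with
      | zero => simp
      | succ n ih => intro v; rw [pow_succ, pow_succ, mul_smul, mul_smul, hm, ih]
    rw [this, pow_one, sl_pow_of_fix x0 (hm x ▸ h2), one_smul]⟩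
  have nU : ∀ e ∈ E, (∃ a : F, ρ e • x = a • x) → e ∈ N[U] := fun e he ⟨a, ha⟩ => inv_mem_iff.1 (mem_normalizer_of_cj_le
    (cj_le_iff_forall.2 fun g hg => by
      obtain ⟨h1, h2⟩ := (mU g).1 hg
      obtain ⟨ng, m, hm⟩ := sl h1
      have ne := le_normalizer he
      refine (mU _).2 ⟨mul_mem (mul_mem (inv_mem (mem_sup_left he)) h1) (inv_mem (inv_mem (mem_sup_left he))), ?_⟩
      rw [s.rho_conj (inv_mem ne) ng, s.rho_inv ne, inv_inv, mul_smul, mul_smul, inv_smul_eq_iff, ae e he, ha, hm, sl_smul_smul, ← hm, h2]))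
  have aM : ∀ e ∈ E, (∃ a : F, ρ e • x = a • x) → e ∈ M := fun e he h => c.nB (BB_eq_of_pgrp c.ct.syl pU (fun g hg =>
    (mU g).2 ⟨mem_sup_right hg, (hx g hg).1⟩) ▸ norm_le_BB p U (nU e he h))
  have key : ∀ D ≤ M ⊓ (E ⊔ T ⊓ N[E]), (∀ m : SL(2, F), m • x = x → m ∈ slK s D) → ∀ e ∈ E, cj e D ≤ M → ∃ a : F, ρ e • x = a • x :=
    fun D hD h e he h1 => eq_smul_of_om x0 (by_contra fun o => n fun g hg => by
      have ne := le_normalizer he
      obtain ⟨d, hd, k⟩ := (sl_gen (K := slK s (M ⊓ (E ⊔ T ⊓ N[E]))) o (fun m hm => let ⟨d, hd, k⟩ := h m hm; ⟨d, ⟨hD hd.1, hd.2⟩, k⟩)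
        fun m hm => by
          obtain ⟨d, hd, k⟩ := h ((ρ e)⁻¹ * m * ρ e) (by rw [mul_smul, mul_smul, hm, inv_smul_smul])
          refine ⟨e * d * e⁻¹, mem_inf.2 ⟨mem_inf.2 ⟨h1 (conj_mem_cj hd.1), mul_mem (mul_mem (mem_sup_left he) (hD hd.1).2)
            (inv_mem (mem_sup_left he))⟩, mul_mem (mul_mem ne hd.2) (inv_mem ne)⟩, fun v => ?_⟩
          rw [s.rho_conj ne hd.2, ← s.rho_inv ne, mul_smul, mul_smul, ae e he, k, ae _ (inv_mem he), l.sc.rho_inv he]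
          simp only [mul_smul, smul_inv_smul]).ge (mem_top (ρ g))
      exact sb.memM c.ct s c.TM (mem_sup_left hg) hd.1 fun v _ => by rw [k, ae g hg])
  have big : 3 < Nat.card F → ∀ m : SL(2, F), m • x = x → ∃ g ∈ E, ρ g = m ∧ θ g • x = x := fun q m hm => by
    obtain ⟨g, hg, rfl⟩ := (l.sc.rng m).1 (by rw [commutator_SL2 q]; trivial)
    exact ⟨g, hg, rfl, (ae g hg x).trans hm⟩
  have sn : ∀ A ∈ eaMax p T, ¬ A ≤ C[WE p E] → ∀ e ∈ E, cj e A ≤ M → cj e (M ⊓ E) ≤ M → ∃ a : F, ρ e • x = a • x := fun A hA nA e he h1 h2 => by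
    have AB := (le_J hA).trans (JJ_le_BB p T)
    refine key (M ⊓ E ⊔ A) (sup_le (inf_le_inf_left _ le_sup_left) (le_inf (hA.1.trans c.TM) (AB.trans (le_sup_right.trans BH))))
      (fun m hm => ?_) e he (by rw [cj_sup]; exact sup_le h2 h1)
    by_cases q : 3 < Nat.card F
    · obtain ⟨g, hg, rfl, -⟩ := big q m hm
      exact ⟨g, ⟨mem_sup_left ⟨aM g hg ⟨1, by rw [hm, one_smul]⟩, hg⟩, le_normalizer hg⟩, ae g hg⟩
    obtain ⟨a, ha, na⟩ := SetLike.not_le_iff_exists.1 nA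
    obtain ⟨h3, k, hk⟩ := sl (mem_sup_right (AB ha))
    exact zpowers_le.2 (show k ∈ slK s _ from ⟨a, ⟨mem_sup_right ha, h3⟩, hk⟩) (sl_small q x0 (hk x ▸ (hx a (AB ha)).1)
      (fun z => na (b.mem_KE s h3 fun v _ => by rw [hk, z, one_smul]).2) hm)
  obtain ⟨A, hA, nA⟩ := b.exists_A c.ct
  have im : ∀ e ∈ E, e ∈ M → ∃ a : F, ρ e • x = a • x := fun e he h =>
    sn A hA nA e he (cj_le_of_mem h (hA.1.trans c.TM)) (cj_le_of_mem h inf_le_left)
  refine ⟨x, x0, fun e he => ⟨im e he, aM e he⟩, fun A hA nA e he h1 h2 => aM e he (sn A hA nA e he h1 h2), fun q => ?_⟩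
  have UE : U ⊓ E = T ⊓ E := (c.ct.syl.inf_subnIn sb.sub).max _ inf_le_right (pU.to_le inf_le_left) fun t ht => ⟨(mU t).2 ⟨mem_sup_left ht.2, by
    obtain ⟨a, ha⟩ := im t ht.2 (c.TM ht.1)
    obtain ⟨k, hk⟩ := exists_pow_of_isPGroup c.ct.syl.pg ht.1
    have : ∀ n : ℕ, ρ t ^ n • x = a ^ n • x := fun n => by
      induction n with
      | zero => simp
      | succ n ih => rw [pow_succ, mul_smul, ha, sl_smul_smul, ih, smul_smul, pow_succ']
    have e := this (p ^ k)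
    rw [← l.sc.rho_pow ht.2, hk, l.sc.rho_one, one_smul] at e
    have e1 : a ^ p ^ k = 1 := smul_left_injective F x0 (e.symm.trans (one_smul F x).symm)
    rw [ae t ht.2, ha, sub_eq_zero.1 (pow_eq_zero_iff (pow_ne_zero k (Fact.out : p.Prime).ne_zero) |>.1 (by
      rw [sub_pow_char_pow, e1, one_pow, sub_self] : (a - 1) ^ p ^ k = 0)), one_smul]⟩, ht.2⟩
  refine le_antisymm (fun e he => ⟨he.2, UE ▸ le_normalizer_inf (L := N[U] ⊓ E) inf_le_left (inf_le_right.trans le_normalizer)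
    ⟨nU e he.2 (im e he.2 he.1), he.2⟩⟩) fun e he => ⟨aM e he.1 (key (T ⊓ E) (le_inf (inf_le_left.trans c.TM) (inf_le_right.trans le_sup_left))
      (fun m hm => ?_) e he.1 ((cj_le_of_mem_normalizer he.2 le_rfl).trans (inf_le_left.trans c.TM))), he.1⟩
  obtain ⟨g, hg, rfl, h⟩ := big q m hm
  exact ⟨g, ⟨UE.le ⟨(mU g).2 ⟨mem_sup_left hg, h⟩, hg⟩, le_normalizer hg⟩, ae g hg⟩

theorem Lin.a3 (l : Lin p B E F ρ ψ) (q2 : Nat.card F = 2) (h3 : ∀ g ∈ commutator SL(2, F), g ^ 3 = 1) :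
    Nonempty (E ⧸ pCore p E ≃* alternatingGroup (Fin (2 * 1 + 1))) := by
  obtain ⟨e⟩ := l.sc.quot l.ker
  haveI := Fintype.ofFinite F
  haveI := Fact.mk Nat.prime_three
  have d := (commutator SL(2, F)).card_subgroup_dvd_card
  rw [card_SL2, q2] at d
  obtain ⟨k, hk⟩ := IsPGroup.iff_card.1 (show IsPGroup 3 (commutator SL(2, F)) from fun g => ⟨1, Subtype.ext (h3 g g.2)⟩)
  have k3 : Nat.card (commutator SL(2, F)) = 3 := by
    rw [hk] at d ⊢
    rcases k with _ | _ | k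
    · obtain ⟨g, hg, h⟩ := comm_trans (F := F) (x := ![1, 0]) (y := ![0, 1]) (by simp) (by simp)
      rw [mem_bot.1 ((eq_bot_of_card_eq _ hk).le hg)] at h
      simpa using congrFun h 0
    · rfl
    · exact absurd ((pow_dvd_pow 3 (by omega : 2 ≤ k + 2)).trans d) (by decide)
  exact ⟨e.trans (mulEquivOfPrimeCardEq k3 (by rw [nat_card_alternatingGroup]; simp; rfl))⟩

end lin

/-- The three types of blocks, relative to `M`. -/
def BCl (p : ℕ) (T M E : Subgroup G) : Prop :=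
  (∃ (F : Type) (_ : Field F) (_ : Fintype F) (m : ℕ), 3 < p ^ m ∧ Fintype.card F = p ^ m ∧
    Nonempty (E ⧸ pCore p E ≃* SL(2, F)) ∧ M ⊓ E = E ⊓ N[(T ⊓ E : Subgroup G)]) ∨
  (p = 2 ∧ ∃ m : ℕ, Nonempty (E ⧸ pCore p E ≃* alternatingGroup (Fin (2 * m + 1))) ∧
    Nonempty (((M ⊓ E).subgroupOf E).map (QuotientGroup.mk' (pCore p E)) ≃* alternatingGroup (Fin (2 * m)))) ∨
  (p = 3 ∧ Nonempty (E ⧸ pCore p E ≃* commutator SL(2, ZMod 3)) ∧
    ((M ⊓ E).subgroupOf E).map (QuotientGroup.mk' (pCore p E)) = center (E ⧸ pCore p E))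

theorem Sc.kr {R V : Type*} [Group R] [AddCommGroup V] [DistribMulAction R V] {R₁ : Subgroup R} {V₀ : AddSubgroup V} {θ : G → R} {ψ : G → V}
    {U U₀ : Subgroup G} (s : Sc R₁ V₀ θ ψ E U U₀) (hk : ∀ e ∈ E, θ e = 1 ↔ e ∈ pCoreOf p E) : s.hom.ker = pCore p E :=
  Subgroup.ext fun e => (hk e e.2).trans (by rw [← pCoreOf_subgroupOf, mem_subgroupOf])

theorem mem_img (hQ : pCoreOf p E ≤ M) (y : E) :
    (y : E ⧸ pCore p E) ∈ ((M ⊓ E).subgroupOf E).map (QuotientGroup.mk' (pCore p E)) ↔ (y : G) ∈ M := by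
  refine (mem_comap (f := QuotientGroup.mk' _)).symm.trans ?_
  rw [comap_map_eq_self (by rw [QuotientGroup.ker_mk', ← pCoreOf_subgroupOf]; exact comap_mono (le_inf hQ (pCoreOf_le p E))), mem_subgroupOf]
  exact and_iff_left y.2

theorem CM.lin_cl {F : Type} [Field F] [Finite F] {ρ ψ} (c : CM p T M) (sb : SB p E) (n : ¬ E ≤ M) (l : Lin p B E F ρ ψ) : BCl p T M E := by
  haveI := l.ch
  haveI := Fintype.ofFinite F
  obtain ⟨x, x0, im, -, big⟩ := c.lin sb n l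
  obtain ⟨e⟩ := l.sc.quot l.ker
  have mi := mem_img (sb.QP.trans (c.ct.QT.trans c.TM))
  by_cases q : 3 < Nat.card F
  · obtain ⟨m, -, hm⟩ := FiniteField.card F p
    exact .inl ⟨F, _, _, m, by rwa [← hm, ← Nat.card_eq_fintype_card], hm,
      ⟨(e.trans (MulEquiv.subgroupCongr (commutator_SL2 q))).trans topEquiv⟩, big q⟩
  have a0 : ∀ {g : SL(2, F)} {a : F}, g • x = a • x → a = 1 ∨ a = -1 := fun {g a} h => (small_cases q a).resolve_left fun z => x0 (by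
    rwa [z, zero_smul, smul_eq_zero_iff_eq] at h)
  obtain ⟨rfl, q2, h3⟩ | ⟨rfl, q3, h3⟩ := small_sl (p := p) q
  · refine .inr (.inl ⟨rfl, 1, l.a3 q2 h3, ?_⟩)
    rw [show Subgroup.map _ _ = ⊥ from eq_bot_iff.2 fun z => QuotientGroup.induction_on z fun y hy => ?_]
    · haveI := (Nat.card_eq_one_iff_unique.1 (show Nat.card (alternatingGroup (Fin (2 * 1))) = 1 by rw [nat_card_alternatingGroup]; simp)).1
      haveI := uniqueOfSubsingleton (1 : alternatingGroup (Fin (2 * 1)))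
      exact ⟨MulEquiv.ofUnique⟩
    obtain ⟨a, ha⟩ := (im y y.2).1 ((mi y).1 hy)
    have := sl_pow_of_fix (p := 2) x0 (ha.trans (by rw [(a0 ha).elim id fun z => z.trans (CharTwo.neg_eq 1), one_smul]))
    refine mem_bot.2 ((QuotientGroup.eq_one_iff y).2 ((l.sc.kr l.ker).le (show ρ y = 1 from ?_)))
    rw [← h3 _ (l.sc.mem_rng y.2), pow_succ, this, one_mul]
  have kr := l.sc.kr l.ker
  let f := slCongr (ι := Fin 2) (ZMod.ringEquivOfPrime F Nat.prime_three (Nat.card_eq_fintype_card.symm.trans q3)).symm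
  refine .inr (.inr ⟨rfl, ⟨e.trans ((f.subgroupMap _).trans (MulEquiv.subgroupCongr (by
    rw [map_commutator_eq, (MonoidHom.range_eq_top (f := (f : SL(2, F) →* SL(2, ZMod 3)))).2 f.surjective]; rfl)))⟩, Subgroup.ext fun z => QuotientGroup.induction_on z fun y => ?_⟩)
  rw [mi, im y y.2, mem_center_iff]
  refine ⟨fun ⟨a, ha⟩ z => QuotientGroup.induction_on z fun z => lift_inj kr (by
    rw [map_mul, map_mul]
    show ρ z * ρ y = ρ y * ρ z
    rcases h3 _ (l.sc.mem_rng y.2) with h | h | h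
    · rw [h, mul_one, one_mul]
    · rw [h, mul_neg, neg_mul, mul_one, one_mul]
    have : (ρ y * ρ y) • x = x := by rw [mul_smul, ha, sl_smul_smul, ha, smul_smul]; rcases a0 ha with rfl | rfl <;> simp
    have t := sl_pow_of_fix (p := 3) x0 this
    rw [h, show (-1 : SL(2, F)) ^ 3 = -1 from Odd.neg_one_pow (by decide)] at t
    have : (-1 : F) = 1 := congrArg (fun g : SL(2, F) => g.1 0 0) t
    exact absurd (CharP.cast_eq_zero_iff F 3 2 |>.1 (by linear_combination -this)) (by decide)), fun h => ?_⟩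
  obtain ⟨d, hd⟩ := commutant_sl (DistribMulAction.toAddMonoidHom (Fin 2 → F) (ρ y)) (commutant_three
      (DistribMulAction.toAddMonoidHom (Fin 2 → F) (ρ y)) fun g hg v => by
    obtain ⟨z, hz, rfl⟩ := (l.sc.rng g).1 hg
    have := congrArg (QuotientGroup.lift _ _ kr.ge) (h (⟨z, hz⟩ : E))
    rw [map_mul, map_mul] at this
    show ρ y • ρ z • v = ρ z • ρ y • v
    rw [← mul_smul, ← mul_smul]; exact congrArg (· • v) this.symm)
  exact ⟨d, hd x⟩

end Cfsg.Agent.PLocal.PU
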