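import Cfsg.Agent.PLocal.Ct10

/-! The local `C*(G,T)`-theorem: the intersection of `M` with a subnormal symmetric block (`CM.sym`) and the block structure
(`cstar_struct`). -/

set_option linter.unusedSectionVars false

namespace Cfsg.Agent.PLocal.PU
open Subgroup Cfsg Cfsg.Agent.Loc Cfsg.Agent.PLocal.FF Cfsg.Agent.Classical Equiv Cfsg.Agent.Pres
open scoped commutatorElement MatrixGroups
local notation:max "C[" H "]" => Subgroup.centralizer (SetLike.coe H)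
local notation:max "N[" H "]" => Subgroup.normalizer (SetLike.coe H)

section perm
variable {n : ℕ} {P : Subgroup (Perm (Fin n))} {x y z u v i d : Fin n} {σ : Perm (Fin n)}

theorem swap_uniq (hP : IsPGroup 2 P) (h1 : swap x y ∈ P) (h2 : swap x z ∈ P) (xy : x ≠ y) (xz : x ≠ z) : y = z := by_contra fun f => by
  have t := Perm.isThreeCycle_swap_mul_swap_same xy xz f
  exact t.ne_one (eq_one_of_cop (p := 2) (by rw [t.orderOf]; decide) hP (mul_mem h1 h2))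

theorem swap_self_mem (x : Fin n) : swap x x ∈ P := by rw [swap_self]; exact one_mem P

theorem swap_symm (h : swap x y ∈ P) : swap y x ∈ P := swap_comm x y ▸ h

theorem swap_trans (h1 : swap x y ∈ P) (h2 : swap y z ∈ P) : swap x z ∈ P := by
  by_cases a : z = x; · exact a ▸ swap_self_mem _
  by_cases b : z = y; · exact b ▸ h1
  have := swap_conj_mem h1 h2
  rwa [swap_apply_right, swap_apply_of_ne_of_ne a b] at this

theorem syl_pairs (ho : Odd n) (hP : SylIn 2 P ⊤) : ∃ k, ∀ x ≠ k, ∃ y ≠ k, x ≠ y ∧ swap x y ∈ P := by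
  obtain ⟨m, rfl⟩ := ho
  have e : Option (Fin m × Bool) ≃ Fin (2 * m + 1) := Fintype.equivOfCardEq (by simp [mul_comm])
  obtain ⟨g, -, hg⟩ := hP.exists_conj_le le_top (pg_closure (S := Set.range fun i => swap (e (some (i, false))) (e (some (i, true)))) (by
    rintro _ ⟨i, rfl⟩ _ ⟨j, rfl⟩
    by_cases z : i = j
    · rw [z]
    · exact (Perm.disjoint_swap_swap (by simp [z, Ne.symm z])).commute) (by rintro _ ⟨i, rfl⟩; rw [sq, swap_mul_self]))
  refine ⟨g (e none), fun x hx => ?_⟩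
  obtain ⟨y, rfl⟩ := (e.trans g).surjective x
  obtain _ | ⟨i, b⟩ := y
  · exact absurd rfl hx
  have := hg (conj_mem_cj (subset_closure ⟨i, rfl⟩))
  rw [← swap_apply_apply] at this
  cases b
  · exact ⟨_, by simp, by simp, this⟩
  · exact ⟨_, by simp, by simp, swap_symm this⟩

/-- The permutations preserving the pairs of `P`. -/
def PP (P : Subgroup (Perm (Fin n))) : Subgroup (Perm (Fin n)) where
  carrier := {σ | ∀ x, swap x (σ x) ∈ P}
  mul_mem' := fun {_ b} ha hb x => swap_trans (hb x) (ha (b x))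
  one_mem' := swap_self_mem
  inv_mem' := fun {a} ha x => by simpa using swap_symm (ha (a⁻¹ x))

theorem PP_pg (hP : IsPGroup 2 P) : IsPGroup 2 (PP P) := isPGroup_of_forall_pow fun σ h => ⟨1, Equiv.ext fun x => by
  by_cases e : σ x = x
  · simp [sq, e]
  · exact (swap_uniq hP (swap_symm (h x)) (h (σ x)) e fun f => e (σ.injective f).symm).symm⟩

theorem swap_mem_PP (h : swap x y ∈ P) : swap x y ∈ PP P := fun z => by
  by_cases a : z = x; · rw [a, swap_apply_left]; exact h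
  by_cases b : z = y; · rw [b, swap_apply_right]; exact swap_symm h
  rw [swap_apply_of_ne_of_ne a b]; exact swap_self_mem _

theorem PP_e2 (hP : IsPGroup 2 P) (h : σ ∈ PP P) (hs : swap x y ∈ P) (xy : x ≠ y) : σ • e2 x y = e2 x y := by
  have k : ∀ {x y}, swap x y ∈ P → x ≠ y → σ x = x ∨ σ x = y := fun {x y} hs xy =>
    or_iff_not_imp_left.2 fun e => swap_uniq hP (h x) hs (Ne.symm e) xy
  rw [smul_e2]
  rcases k hs xy with a | a <;> rcases k (swap_symm hs) xy.symm with b | b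
  · rw [a, b]
  · exact absurd (σ.injective (a.trans b.symm)) xy
  · exact absurd (σ.injective (a.trans b.symm)) xy
  · rw [a, b, e2_comm]

theorem tau_norm (hP : IsPGroup 2 P) (h1 : swap u v ∈ P) (h2 : swap i d ∈ P) (nd : [u, v, i, d].Nodup) : swap i u * swap v d ∈ N[PP P] := by
  simp only [List.nodup_cons, List.mem_cons, not_or, List.not_mem_nil, not_false_eq_true, and_true, List.nodup_nil] at nd
  obtain ⟨⟨uv, ui, ud⟩, ⟨vi, vd⟩, id⟩ := nd
  have k : ∀ x y, x ≠ y → swap x y ∈ P → (x = u ∨ x = v ∨ x = i ∨ x = d) →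
      swap ((swap i u * swap v d) x) ((swap i u * swap v d) y) ∈ P := by
    rintro x y xy h (rfl | rfl | rfl | rfl)
    · rw [swap_uniq hP h h1 xy uv]; simpa [swap_apply_of_ne_of_ne, uv, ud, Ne.symm ud, Ne.symm id] using h2
    · rw [swap_uniq hP h (swap_symm h1) xy (Ne.symm uv)]; simpa [swap_apply_of_ne_of_ne, uv, ud, Ne.symm ud, Ne.symm id] using swap_symm h2
    · rw [swap_uniq hP h h2 xy id]; simpa [swap_apply_of_ne_of_ne, id, vi, Ne.symm vi, Ne.symm uv] using h1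
    · rw [swap_uniq hP h (swap_symm h2) xy (Ne.symm id)]; simpa [swap_apply_of_ne_of_ne, id, vi, Ne.symm vi, Ne.symm uv] using swap_symm h1
  refine mem_normalizer_of_cj_le (cj_le_iff_forall.2 fun σ h x => ?_)
  obtain ⟨y, rfl⟩ := (swap i u * swap v d).surjective x
  rw [Perm.mul_apply _ _⁻¹, show (swap i u * swap v d)⁻¹ ((swap i u * swap v d) y) = y from symm_apply_apply _ y, Perm.mul_apply _ σ]
  have := h y
  generalize σ y = z at this
  by_cases e : y = z; · exact e ▸ swap_self_mem _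
  by_cases a : y = u ∨ y = v ∨ y = i ∨ y = d; · exact k y z e this a
  by_cases b : z = u ∨ z = v ∨ z = i ∨ z = d; · exact swap_symm (k z y (Ne.symm e) (swap_symm this) b)
  push Not at a b
  simpa [swap_apply_of_ne_of_ne, a, b] using this

theorem c3_v4 (nd : [u, v, i, d].Nodup) : (c3 i u v)⁻¹ * (swap u v * swap i d) * c3 i u v = swap i u * swap v d ∧
    (c3 i u v)⁻¹ * (swap i u * swap v d) * c3 i u v = swap i u * swap v d * (swap u v * swap i d) := by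
  simp only [List.nodup_cons, List.mem_cons, not_or, List.not_mem_nil, not_false_eq_true, and_true, List.nodup_nil] at nd
  obtain ⟨⟨uv, ui, ud⟩, ⟨vi, vd⟩, id⟩ := nd
  have := Ne.symm uv; have := Ne.symm ui; have := Ne.symm ud; have := Ne.symm vi; have := Ne.symm vd; have := Ne.symm id
  constructor <;> ext x <;> by_cases a : x = u <;> by_cases b : x = v <;> by_cases c : x = i <;> by_cases e : x = d <;>
    simp_all [c3, swap_apply_of_ne_of_ne]

end perm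

universe u
variable {G : Type u} [Group G] [Finite G] {T M E A : Subgroup G}

section sym
variable {n : ℕ} {ρ θ : G → Perm (Fin n)} {ψ : G → Fin n → ZMod 2} {R₁ : Subgroup (Perm (Fin n))} {P : Subgroup (Perm (Fin n))}
  (c : CM 2 T M) (sb : SB 2 E) (l : Sym 2 E n ρ ψ) (s : Sc R₁ (evw n) θ ψ N[E] (VV 2 E) (ZE 2 E)) (hθ : ∀ e ∈ E, θ e = ρ e)
include c sb l s hθ

theorem CM.c3_M (hP : IsPGroup 2 P) (hB : ∀ b ∈ BB 2 T, θ b ∈ PP P) {u v i d : Fin n} (h1 : swap u v ∈ P) (h2 : swap i d ∈ P)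
    (nd : [u, v, i, d].Nodup) {e : G} (he : e ∈ E) (ee : θ e = c3 i u v) : e ∈ M := by
  have b := sb.blk c.ct
  have pY := IsPGroup.to_sup_of_normal_right' (isPGroup_zpowers_of_pow (p := 2) (k := 1) (x := swap i u * swap v d) (by
    rw [pow_one, sq, mul_assoc, ← mul_assoc (swap v d), ← (Perm.disjoint_swap_swap (by
      revert nd; simp +contextual [eq_comm])).commute.eq]; simp [mul_assoc])) (PP_pg hP) (zpowers_le.2 (tau_norm hP h1 h2 nd))
  obtain ⟨v1, v2⟩ := c3_v4 nd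
  have t1 : swap u v * swap i d ∈ zpowers (swap i u * swap v d) ⊔ PP P := mem_sup_right (mul_mem (swap_mem_PP h1) (swap_mem_PP h2))
  have t2 : swap i u * swap v d ∈ zpowers (swap i u * swap v d) ⊔ PP P := mem_sup_left (mem_zpowers _)
  have BY : ∀ b ∈ BB 2 T, θ b ∈ zpowers (swap i u * swap v d) ⊔ PP P := fun b hb => mem_sup_right (hB b hb)
  generalize zpowers (swap i u * swap v d) ⊔ PP P = Y at pY t1 t2 BY
  simp only [List.nodup_cons, List.mem_cons, not_or, List.not_mem_nil, not_false_eq_true, and_true, List.nodup_nil] at nd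
  obtain ⟨⟨uv, ui, ud⟩, ⟨vi, vd⟩, id⟩ := nd
  obtain ⟨S, hS, lS⟩ := exists_sylIn_ge le_top (sb.pg c.ct s (X := (E ⊔ T ⊓ N[E]) ⊓ s.pre Y) inf_le_left fun g hg =>
    let ⟨k, hk⟩ := exists_pow_of_isPGroup pY hg.2.2; ⟨k, fun v _ => by rw [hk, one_smul]⟩)
  have c' := c.of_BB hS (BB_eq_of_pgrp c.ct.syl hS.pg fun g hg => lS
    ⟨mem_sup_right (mem_inf.2 ⟨BB_le 2 T hg, b.nB hg⟩), b.nB hg, BY g hg⟩)
  refine c'.hZ fun z hz => ?_
  have zV := c'.ct.ZV hz
  have hw : ⁅e, z⁆ ∈ WE 2 E := comm_inv_mem (b.comm_V c.ct ▸ commutator_mem_commutator zV he)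
  have wV := WE_le E hw
  have ne := le_normalizer he
  have fx : ∀ σ ∈ alternatingGroup (Fin n), σ ∈ Y → (c3 i u v)⁻¹ * σ * c3 i u v ∈ Y → ∀ x, ψ ⁅e, z⁆ (σ x) = ψ ⁅e, z⁆ x := fun σ h0 h1 h2 x => by
    obtain ⟨f, hf, rfl⟩ := (l.sc.rng σ).1 h0
    rw [← hθ f hf] at h1 h2 ⊢
    have nf := le_normalizer hf
    have a1 := OZ_le_centralizer 2 S hz f (lS ⟨mem_sup_left hf, nf, h1⟩)
    have hf' := mul_mem (mul_mem (inv_mem he) hf) he
    have a2 := OZ_le_centralizer 2 S hz _ (lS ⟨mem_sup_left hf', le_normalizer hf', by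
      rwa [s.mul _ (mul_mem (inv_mem ne) nf) _ ne, s.mul _ (inv_mem ne) _ nf, s.rho_inv ne, ee]⟩)
    have : f * ⁅e, z⁆ * f⁻¹ = ⁅e, z⁆ := by
      calc f * ⁅e, z⁆ * f⁻¹ = e * (e⁻¹ * f * e * z) * e⁻¹ * (f * z)⁻¹ := by rw [commutatorElement_def]; group
        _ = ⁅e, z⁆ := by rw [a2, a1, commutatorElement_def]; group
    have := congrFun ((s.act f nf _ wV).symm.trans (congrArg ψ this)) (θ f x)
    rw [perm_smul] at this
    simpa using this.symm
  have f1 := fx _ (Perm.mul_mem_alternatingGroup_of_isSwap ⟨_, _, uv, rfl⟩ ⟨_, _, id, rfl⟩) t1 (v1 ▸ t2) u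
  have f2 := fx _ (Perm.mul_mem_alternatingGroup_of_isSwap ⟨_, _, Ne.symm ui, rfl⟩ ⟨_, _, vd, rfl⟩) t2 (v2 ▸ mul_mem t2 t1) u
  rw [Perm.mul_apply, swap_apply_of_ne_of_ne ui ud, swap_apply_left] at f1
  rw [Perm.mul_apply, swap_apply_of_ne_of_ne uv ud, swap_apply_right] at f2
  have k : θ e • ψ ⁅e, z⁆ = ψ ⁅e, z⁆ := funext fun x => by
    rw [perm_smul, ee, c3, mul_inv_rev, swap_inv, swap_inv, Perm.mul_apply, apply_swap_eq_self f1.symm, apply_swap_eq_self f2]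
  have e3 : e ^ 3 * z = z * e ^ 3 := (OZ_le_centralizer 2 _ zV _ (sb.QP ((l.ker _ (pow_mem he 3)).1 (by
    rw [l.sc.rho_pow he, ← hθ e he, ee, c3_pow_three (Ne.symm ui) (Ne.symm vi) uv]))))
  have id3 : e * (e * ⁅e, z⁆ * e⁻¹) * e⁻¹ * (e * ⁅e, z⁆ * e⁻¹) * ⁅e, z⁆ = 1 := by
    calc _ = e ^ 3 * z * (e ^ 3)⁻¹ * z⁻¹ := by rw [commutatorElement_def, pow_three]; group
      _ = 1 := by rw [e3]; group
  have ez : z * e = ⁅e, z⁆⁻¹ * e * z := by rw [commutatorElement_def]; group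
  generalize ⁅e, z⁆ = w at *
  have w1 := s.conj_mem ne wV
  have w2 := s.conj_mem ne w1
  have := congrArg ψ id3
  rw [s.add _ (mul_mem w2 w1) _ wV, s.add _ w2 _ w1, s.act e ne _ w1, s.act e ne _ wV, k, k, add_self_vec, zero_add, s.zero (one_mem _)] at this
  have cw : e * w * e⁻¹ = w := by rw [((s.ker w wV).1 this).2 e he, mul_inv_cancel_right]
  rw [cw, cw, ← sq, VV_pow wV, one_mul] at id3
  rw [ez, id3, inv_one, one_mul]

theorem CM.sym' (nM : ¬ E ≤ M) : ∃ k, (∀ e ∈ E, ρ e k = k → e ∈ M) ∧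
    ∀ A ∈ eaMax 2 T, ¬ A ≤ C[WE 2 E] → ∀ e ∈ E, cj e A ≤ M → cj e (M ⊓ E) ≤ M → ρ e k = k := by
  have b := sb.blk c.ct
  have WT := b.WT c.ct
  have nT : T ⊓ N[E] ≤ N[E] := inf_le_right
  have HN := HN_le T E
  have nJ := (JJ_le_BB 2 T).trans b.nB
  have sw : ∀ A ∈ eaMax 2 T, ¬ A ≤ C[WE 2 E] → ∃ a ∈ A, ∃ i j, i ≠ j ∧ θ a = swap i j := fun A hA nA => by
    have AN := (le_J hA).trans nJ
    obtain ⟨a₀, ha₀, i, ij⟩ : ∃ a ∈ A, ∃ i, θ a i ≠ i := by
      by_contra! e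
      exact nA fun a ha => (b.mem_KE s (AN ha) fun v _ => by rw [show θ a = 1 from Equiv.ext (e a ha), one_smul]).2
    obtain ⟨a, ha, e⟩ := l.swaps b.toBk s hA WT AN a₀ ha₀ i ij
    exact ⟨a, ha, _, _, ij.symm, e⟩
  have sP := ((sb.sy c.ct).subgroupOf HN).map s.hom
  rw [show ((E ⊔ T ⊓ N[E]).subgroupOf N[E]).map s.hom = ⊤ from top_unique fun σ _ => (s.mem_im' HN).2 (by
    obtain ⟨A, hA, nA⟩ := b.exists_A c.ct
    obtain ⟨a, ha, i, j, ij, e⟩ := sw A hA nA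
    have aT : a ∈ T ⊓ N[E] := ⟨hA.1 ha, nJ (le_J hA ha)⟩
    rcases Int.units_eq_one_or (Perm.sign σ) with h | h
    · obtain ⟨g, hg, f⟩ := (l.sc.rng σ).1 h; exact ⟨g, mem_sup_left hg, (hθ g hg).trans f⟩
    · obtain ⟨g, hg, f⟩ := (l.sc.rng (σ * swap i j)).1 (by rw [Perm.mem_alternatingGroup, map_mul, h, Perm.sign_swap ij]; rfl)
      exact ⟨g * a, mul_mem_sup hg aT, by rw [s.mul _ (le_normalizer hg) _ aT.2, e, hθ g hg, f, mul_assoc, swap_mul_self, mul_one]⟩)] at sP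
  have mP : ∀ {σ}, σ ∈ ((T ⊓ N[E]).subgroupOf N[E]).map s.hom ↔ ∃ a ∈ T ⊓ N[E], θ a = σ := s.mem_im' nT
  generalize ((T ⊓ N[E]).subgroupOf N[E]).map s.hom = P at sP mP
  obtain ⟨k, hk⟩ := syl_pairs l.odd sP
  have JP : JJ 2 T ≤ s.pre (PP P) := J_le_iff.2 fun A hA a ha => ⟨nJ (le_J hA ha), fun x => by
    by_cases e : θ a x = x; · rw [e]; exact swap_self_mem _
    obtain ⟨a', h', e'⟩ := l.swaps b.toBk s hA WT ((le_J hA).trans nJ) a ha x e
    exact mP.2 ⟨a', ⟨hA.1 h', nJ (le_J hA h')⟩, e'⟩⟩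
  have B0 : ∀ g ∈ BB 2 T, ∀ x ≠ k, θ g x ≠ k ∧ swap x (θ g x) ∈ P := fun g hg x hx => by
    obtain ⟨y, yk, xy, h⟩ := hk x hx
    obtain ⟨w, hw, ew⟩ := b.lift s (e2_mem x y)
    have := b.keyJ WT nJ hg w (mem_inf.2 ⟨hw, s.nmU (WE_le E hw), fun j hj => comm_inv_mem ((s.fix_iff (nJ hj) (WE_le E hw)).1 (by
      rw [ew]; exact PP_e2 sP.pg (JP hj).2 h xy))⟩)
    have e := s.act g (b.nB hg) w (WE_le E hw)
    rw [← this, mul_inv_cancel_right, ew, smul_e2] at e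
    have e' := congrArg (· (θ g x)) (swap_eq_of_e2 xy e.symm)
    simp only [swap_apply_left] at e'
    by_cases a : θ g x = x; · rw [a]; exact ⟨hx, swap_self_mem _⟩
    rw [show θ g x = y from by_contra fun f => xy ((θ g).injective (by rw [e', swap_apply_of_ne_of_ne a f]))]
    exact ⟨yk, h⟩
  have BP : ∀ g ∈ BB 2 T, θ g ∈ PP P := fun g hg x => by
    by_cases e : x = k; swap; · exact (B0 g hg x e).2
    rw [e, show θ g k = k from by_contra fun f => (B0 _ (inv_mem hg) _ f).1 (by rw [s.rho_inv (b.nB hg)]; simp)]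
    exact swap_self_mem _
  have MH : M ⊓ (E ⊔ T ⊓ N[E]) ≤ N[E] := inf_le_right.trans HN
  have mG : ∀ {σ}, σ ∈ s.im' (M ⊓ (E ⊔ T ⊓ N[E])) ↔ ∃ a ∈ M ⊓ (E ⊔ T ⊓ N[E]), θ a = σ := s.mem_im' MH
  have inM : ∀ e ∈ E, θ e ∈ s.im' (M ⊓ (E ⊔ T ⊓ N[E])) → e ∈ M := fun e he h =>
    let ⟨d, hd, f⟩ := mG.1 h; sb.memM c.ct s c.TM (mem_sup_left he) hd fun v _ => by rw [f]
  obtain ⟨u, uk, -⟩ := exists_third l.ge k k
  obtain ⟨v, vk, uv, huv⟩ := hk u uk
  have aM : ∀ e ∈ E, ρ e k = k → e ∈ M := fun e he h => inM e he (altOn_le (S := Finset.univ.erase k) uv (fun i hi iu iv => by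
    obtain ⟨d, -, id, hid⟩ := hk i (by simpa using hi)
    obtain ⟨g, hg, f⟩ := (l.sc.rng (c3 i u v)).1 (Pres.c3_mem (S := Finset.univ) iu uv (by simp) (by simp) (by simp)).1
    rw [← hθ g hg] at f
    have ud : u ≠ d := fun z => iv (swap_uniq sP.pg (z ▸ swap_symm hid) huv (Ne.symm iu) uv)
    have vd : v ≠ d := fun z => iu (swap_uniq sP.pg (z ▸ swap_symm hid) (swap_symm huv) (Ne.symm iv) (Ne.symm uv))
    exact mG.2 ⟨g, ⟨c.c3_M sb l s hθ sP.pg BP huv hid (by simp [uv, ud, vd, id, Ne.symm iu, Ne.symm iv]) hg f, mem_sup_left hg⟩, f⟩)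
      ⟨hθ e he ▸ l.sc.mem_rng he, fun x hx => by rw [show x = k by simpa using hx, hθ e he, h]⟩)
  refine ⟨k, aM, fun A hA nA e he h1 h2 => by_contra fun ek => nM fun g hg => inM g hg ?_⟩
  obtain ⟨a, ha, i, j, ij, ea⟩ := sw A hA nA
  have na := nJ (le_J hA ha)
  have ne := le_normalizer he
  have hs := mP.2 ⟨a, ⟨hA.1 ha, na⟩, ea⟩
  have p3 : ∀ {y}, swap y k ∈ P → y = k := fun {y} h => by_contra fun z =>
    let ⟨_, yk, xy, h'⟩ := hk y z; yk (swap_uniq sP.pg h' h xy z)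
  have ik : k ≠ i := fun z => ij (z.symm.trans (p3 (z ▸ swap_symm hs)).symm)
  have jk : k ≠ j := fun z => ij ((p3 (z ▸ hs)).trans z)
  have sD : ∀ x ≠ k, ∀ y ≠ k, x ≠ y → ∃ f ∈ M ⊓ E, θ (f * a) = swap x y := fun x hx y hy xy => by
    obtain ⟨f, hf, ef⟩ := (l.sc.rng _).1 (Perm.mul_mem_alternatingGroup_of_isSwap ⟨x, y, xy, rfl⟩ ⟨i, j, ij, rfl⟩)
    exact ⟨f, ⟨aM f hf (by rw [ef, Perm.mul_apply, swap_apply_of_ne_of_ne ik jk, swap_apply_of_ne_of_ne hx.symm hy.symm]), hf⟩, by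
      rw [s.mul _ (le_normalizer hf) _ na, hθ f hf, ef, ea, mul_assoc, swap_mul_self, mul_one]⟩
  have aH : a ∈ E ⊔ T ⊓ N[E] := mem_sup_right (mem_inf.2 ⟨hA.1 ha, na⟩)
  have s1 : ∀ x ≠ k, ∀ y ≠ k, swap x y ∈ s.im' (M ⊓ (E ⊔ T ⊓ N[E])) := fun x hx y hy => by
    by_cases xy : x = y; · exact xy ▸ swap_self_mem _
    obtain ⟨f, hf, ef⟩ := sD x hx y hy xy
    exact mG.2 ⟨_, mul_mem (mem_inf.2 ⟨hf.1, mem_sup_left hf.2⟩) (mem_inf.2 ⟨c.TM (hA.1 ha), aH⟩), ef⟩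
  rw [← hθ e he] at ek
  obtain ⟨x, rfl⟩ := (θ e).surjective k
  have xk : x ≠ θ e x := fun z => ek (congrArg (θ e) z).symm
  obtain ⟨y, yx, yk⟩ := exists_third l.ge x (θ e x)
  obtain ⟨f, hf, ef⟩ := sD x xk y yk yx.symm
  have s2 : swap (θ e x) (θ e y) ∈ s.im' (M ⊓ (E ⊔ T ⊓ N[E])) := mG.2 ⟨e * (f * a) * e⁻¹, mem_inf.2 ⟨by
    rw [← conj_mul]; exact mul_mem (h2 (conj_mem_cj hf)) (h1 (conj_mem_cj ha)), mul_mem (mul_mem (mem_sup_left he)
      (mul_mem (mem_sup_left hf.2) aH)) (inv_mem (mem_sup_left he))⟩, by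
    rw [s.rho_conj ne (mul_mem (le_normalizer hf.2) na), ef, swap_apply_apply]⟩
  have s3 : ∀ z, swap (θ e x) z ∈ s.im' (M ⊓ (E ⊔ T ⊓ N[E])) := fun z => by
    by_cases h : z = θ e x; · exact h ▸ swap_self_mem _
    exact swap_trans s2 (s1 _ (fun t => yx ((θ e).injective t)) z h)
  induction θ g using Perm.swap_induction_on with
  | one => exact one_mem _
  | swap_mul f x y _ h => exact mul_mem (swap_trans (swap_symm (s3 x)) (s3 y)) h

end sym

variable {p : ℕ} [Fact p.Prime]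

theorem CM.per (c : CM p T M) (sb : SB p E) (nM : ¬ E ≤ M) : SN p T M E ∧ BCl p T M E := by
  have b := sb.blk c.ct
  rcases b.ty with ⟨F, _, _, ρ, ψ, l⟩ | ⟨n, ρ, ψ, l⟩
  · exact ⟨(c.lin sb nM l).choose_spec.2.2.1, c.lin_cl sb nM l⟩
  obtain rfl := l.p2
  obtain ⟨θ, R₁, s, hθ⟩ := l.sc.ext_sym l.ge l.odd (norm_VV E) (norm_ZE E)
  obtain ⟨k, h1, h2⟩ := c.sym' sb l s hθ nM
  obtain ⟨m, rfl⟩ := l.odd
  refine ⟨fun A hA nA e he a1 a2 => h1 e he (h2 A hA nA e he a1 a2), .inr (.inl ⟨rfl, m, l.sc.quot l.ker, ?_⟩)⟩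
  obtain ⟨A, hA, nA⟩ := b.exists_A c.ct
  have kr := l.sc.kr l.ker
  have : (((M ⊓ E).subgroupOf E).map (QuotientGroup.mk' _)).map (QuotientGroup.lift _ _ kr.ge) = AltOn (Finset.univ.erase k) :=
    le_antisymm (by
      rintro _ ⟨_, ⟨g, hg, rfl⟩, rfl⟩
      exact ⟨l.sc.mem_rng g.2, fun x hx => by
        rw [show x = k by simpa using hx]
        exact h2 A hA nA g g.2 (cj_le_of_mem hg.1 (hA.1.trans c.TM)) (cj_le_of_mem hg.1 inf_le_left)⟩) fun σ h => by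
      obtain ⟨g, hg, rfl⟩ := (l.sc.rng σ).1 h.1
      exact ⟨_, ⟨⟨g, hg⟩, ⟨h1 g hg (h.2 k (by simp)), hg⟩, rfl⟩, rfl⟩
  exact ⟨((equivMapOfInjective _ _ (lift_inj kr)).trans (MulEquiv.subgroupCongr this)).trans (altOn_equiv k (Fintype.card_fin _)).some⟩

theorem SB.exists_A (sb : SB p E) (c : CT p T) : ∃ A ∈ eaMax p T, ¬ A ≤ C[WE p E] ∧ ∀ F, SB p F → F ≠ E → A ≤ C[WE p F] := by
  have b := sb.blk c
  have key : ∀ S : Set (Subgroup G), ∃ A ∈ eaMax p T, ¬ A ≤ C[WE p E] ∧ ∀ F ∈ S, SB p F → F ≠ E → A ≤ C[WE p F] := fun S => by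
    induction S, Set.toFinite S using Set.Finite.induction_on with
    | empty => exact let ⟨A, h1, h2⟩ := b.exists_A c; ⟨A, h1, h2, fun _ h => h.elim⟩
    | @insert F S _ _ ih =>
      obtain ⟨A, hA, nA, h⟩ := ih
      by_cases k : SB p F ∧ F ≠ E; swap
      · exact ⟨A, hA, nA, fun F' h' s n => h'.elim (fun e => absurd (e ▸ ⟨s, n⟩) k) fun e => h F' e s n⟩
      have b' := k.1.blk c
      have AN := ((le_J hA).trans (JJ_le_BB p T)).trans b'.nB
      have hA' := repl_mem hA b'.ea_WE (b'.WT c) le_rfl ((b'.no AN hA.2.1).trans (by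
        rw [← inf_relIndex_left, ← inf_relIndex_left _ C[A]]; exact relIndex_le_of_le_left (b'.cent_le_ker AN) (relIndex_ne _ _)))
      refine ⟨_, hA', fun e => nA (b.triv (((le_J hA).trans (JJ_le_BB p T)).trans b.nB) (commutator_le.2 fun w hw a ha => ?_)),
        fun F' h' s n => sup_le (k.1.WV.trans ((OZ_le_centralizer p _).trans (centralizer_le (s.WV.trans (OZ_le p _)))))
          (h'.elim (fun e => e ▸ inf_le_right) fun e => inf_le_left.trans (h F' e s n))⟩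
      obtain ⟨u, hu, x, hx, rfl⟩ := (mem_sup_of_le_normalizer_left (inf_le_right.trans (centralizer_le_normalizer _))).1
        (ea_le_of_mem_eaMax hA' (b.WT c) (le_centralizer_iff.1 e) (fun _ h => VV_pow (WE_le E h)) hw)
      have : ⁅u * x, a⁆ = ⁅u, a⁆ := by
        rw [commutatorElement_def, mul_assoc u, ← (isElementaryAbelian_iff.1 hA.2.1).1 hx.1 a ha, commutatorElement_def]; group
      rw [this]
      exact (k.1.eq_or sb).resolve_left k.2 (WE_le' F (comm_inv_mem (mul_mem (conj_mem_of_mem_normalizer (norm_WE F (AN ha)) hu) (inv_mem hu))))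
  exact let ⟨A, h1, h2, h3⟩ := key Set.univ; ⟨A, h1, h2, fun F => h3 F trivial⟩

theorem CM.inf_sSup (c : CM p T M) : M ⊓ sSup {E | SB p E ∧ ¬ E ≤ M} ≤ ⨆ E ∈ {E | SB p E ∧ ¬ E ≤ M}, M ⊓ E := by
  have key : ∀ S : Set (Subgroup G), S ⊆ {E | SB p E ∧ ¬ E ≤ M} → M ⊓ sSup S ≤ ⨆ E ∈ {E | SB p E ∧ ¬ E ≤ M}, M ⊓ E := fun S => by
    induction S, Set.toFinite S using Set.Finite.induction_on with
    | empty => intro _; simp
    | @insert E S hE _ ih =>
      intro hS g ⟨hM, hg⟩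
      have hE' := hS (Set.mem_insert _ _)
      have hS' := (Set.subset_insert E S).trans hS
      obtain ⟨A, hA, nA, h⟩ := hE'.1.exists_A c.ct
      have a : sSup S ≤ C[E] ⊓ commKer (pCore p G) A := sSup_le fun F hF =>
        have n : F ≠ E := fun e => hE (e ▸ hF)
        have s := (hS' hF).1
        le_inf ((s.eq_or hE'.1).resolve_left n) (le_commKer_iff.2 ⟨le_normalizer_of_normal, ((s.blk c.ct).comm_le'
          (((le_J hA).trans (JJ_le_BB p T)).trans (s.nB c.ct)) (h F s n)).trans s.QP⟩)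
      rw [sSup_insert] at hg
      obtain ⟨e, he, x, hx, rfl⟩ := (mem_sup_of_le_normalizer_left (le_normalizer_of_le_centralizer (a.trans inf_le_left))).1 hg
      have eM := (c.per hE'.1 hE'.2).1 A hA nA e he (cj_le_iff_forall.2 fun y hy => by
        have : e * y * e⁻¹ = e * x * (⁅x⁻¹, y⁆ * y) * (e * x)⁻¹ := by rw [commutatorElement_def]; group
        rw [this]
        exact mul_mem (mul_mem hM (mul_mem (c.TM (c.ct.QT ((inv_mem (a hx).2 : x⁻¹ ∈ commKer _ A).2 y hy))) (c.TM (hA.1 hy)))) (inv_mem hM))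
        (cj_le_iff_forall.2 fun y hy => by
          have : e * y * e⁻¹ = e * x * y * (e * x)⁻¹ := by rw [mul_assoc e x, ← (a hx).1 y hy.2]; group
          rw [this]; exact mul_mem (mul_mem hM hy.1) (inv_mem hM))
      exact mul_mem (le_iSup₂ (f := fun E (_ : E ∈ {E | SB p E ∧ ¬ E ≤ M}) => M ⊓ E) E hE' ⟨eM, he⟩)
        (ih hS' ⟨(Subgroup.mul_mem_cancel_left _ eM).1 hM, hx⟩)
  exact key _ le_rfl

theorem CM.nle_cj (c : CM p T M) (s : SB p E) (n : ¬ E ≤ M) (g : G) : ¬ cj g E ≤ M := fun l => by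
  obtain ⟨k, hk, e'⟩ := BB_conj c.ct.syl (s.nB c.ct) (g := g⁻¹) (cj_BB g⁻¹ T ▸ s.nB (c.ct.cj g⁻¹))
  have m : g * k ∈ M := c.nB (mem_normalizer_iff_cj.2 (by rw [← cj_cj, e', cj_cj_inv]))
  rw [← cj_eq_of_mem_normalizer hk, cj_cj, cj_le_iff, cj_eq_of_mem (inv_mem m)] at l
  exact n l

theorem cm_cstar (c : CT p T) (h1 : cStarOf p T ≤ M) (h : M ≠ ⊤) : CM p T M :=
  ⟨c, le_sup_left.trans h1, fun K a b d => le_trans (le_sup_of_le_right (le_iSup (fun C : {C : Subgroup G // C ≤ BB p T ∧ C ≠ ⊥ ∧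
    (C.subgroupOf (BB p T)).Characteristic} => N[(C : Subgroup G)]) ⟨K, a, b, d⟩)) h1, h⟩

theorem CM.cstar_le (c : CM p T M) : cStarOf p T ≤ M := sup_le c.hZ (iSup_le fun ⟨K, a, b, d⟩ => c.hB K a b d)

theorem cstar_struct (ct : CT p T) (h : cStarOf p T ≠ ⊤) : HasBaumannBlockStructure p T {E | SB p E ∧ ¬ E ≤ cStarOf p T} :=
  have c := cm_cstar ct le_rfl h
  ⟨fun _ s => blk_iff.2 (s.1.blk ct), fun _ s g => ⟨s.1.conj g, c.nle_cj s.1 s.2 g⟩,
    fun _ s _ s' n => commutator_eq_bot_iff_le_centralizer.2 ((s.1.eq_or s'.1).resolve_left n),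
    by_contra fun n => let ⟨_, s, l⟩ := thA_all _ _ (cm_cstar ct le_sup_left n)
      l (le_sup_of_le_right (le_sSup ⟨s, fun e => l (e.trans le_sup_left)⟩)),
    fun _ b n => let ⟨F, s, l⟩ := c.thB (ih_all _) (blk_iff.1 b).toBk n; ⟨F, ⟨s, fun e => n (l.trans e)⟩, l⟩,
    le_antisymm c.inf_sSup (iSup₂_le fun _ hE => inf_le_inf_left _ (le_sSup hE)), fun _ s => (c.per s.1 s.2).2⟩

theorem CM.deg' (c : CM p T M) (hM : ∀ K ≤ T, K ≠ ⊥ → (K.subgroupOf T).Characteristic → N[K] ≤ M) (sb : SB p E) {m : ℕ}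
    (e : E ⧸ pCore p E ≃* alternatingGroup (Fin (2 * m + 1))) : ∃ n : ℕ, 2 * m + 1 = 2 ^ n + 1 := by
  rcases (sb.blk c.ct).ty with ⟨F, _, _, ρ, ψ, l⟩ | ⟨n, ρ, ψ, l⟩
  · haveI := l.ch
    by_cases q : 2 < Nat.card F
    · exact deg_lin (p := p) q ((l.sc.quot l.ker).some.symm.trans e)
    obtain ⟨-, q2, h3⟩ | ⟨-, q3, -⟩ := small_sl (p := p) (F := F) (by omega)
    · exact ⟨1, deg_sym (n := 2 * 1 + 1) le_rfl ((l.a3 q2 h3).some.symm.trans e)⟩
    · omega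
  obtain rfl := l.p2
  obtain ⟨k, -, rfl⟩ := c.deg hM sb l
  exact ⟨k, deg_sym l.ge ((l.sc.quot l.ker).some.symm.trans e)⟩

end Cfsg.Agent.PLocal.PU
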