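import Cfsg.Agent.PLocal.Ct9

/-! `C_G(W_E)` normalizes every `B(T)`-block `E` of a group of characteristic `p` (`Blk.cw_all`); the exceptional case runs through
minimal counterexamples `XN`. -/

namespace Cfsg.Agent.PLocal.PU
open Subgroup Cfsg Cfsg.Agent.Loc Cfsg.Agent.PLocal.FF Cfsg.Agent.Classical Matrix
open Cfsg.Agent.BG (AbV)
open scoped commutatorElement MatrixGroups
local notation:max "C[" H "]" => Subgroup.centralizer (SetLike.coe H)
local notation:max "N[" H "]" => Subgroup.normalizer (SetLike.coe H)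
local notation:max "Q[" H "]" => pCoreOf 3 H
local notation:max "W[" H "]" => WE 3 H
local notation:max "V[" H "]" => VV 3 H
local notation:max "Z[" H "]" => ZE 3 H

universe u
variable {G : Type u} [Group G] [Finite G] {B T T' M E F F' H D X A L S K : Subgroup G} {s t g h v w x y z : G}
local notation "P₀" => pCore 3 G
local notation "V₀" => OZ 3 (pCore 3 G)
local notation:max "R[" H "]" => normalClosure (SetLike.coe (pCoreOf 3 H))

theorem Blk.mutual {p : ℕ} [Fact p.Prime] (b : Blk p T F) (c : CT p T) (hg : g ∈ C[WE p F]) (h1 : cj g F ≤ N[F])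
    (h2 : F ≤ N[cj g F]) : cj g F = F := by
  have b' := b.cj g
  have c' := c.cj g
  have eW : WE p (cj g F) = WE p F := (cj_WE g F).symm.trans (cj_eq_of_mem_centralizer hg)
  have n1 : F ⊔ cj g F ≤ N[F] := sup_le le_normalizer h1
  have n2 : F ⊔ cj g F ≤ N[cj g F] := sup_le h2 le_normalizer
  have nR : F ⊔ cj g F ≤ N[(pCoreOf p F ⊔ pCoreOf p (cj g F) : Subgroup G)] :=
    le_normalizer_sup (n1.trans (norm_QE F)) (n2.trans (norm_QE _))
  have pY : IsPGroup p ((F ⊔ cj g F) ⊓ C[WE p F] : Subgroup G) := c.pgrp fun x hx hc => by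
    have m := mem_pResidualOf hx hc
    have l := pResidualOf_le p ((F ⊔ cj g F) ⊓ C[WE p F] : Subgroup G)
    have a1 := b.cent_of c (pResidualOf_pResidualOf p _) (l.trans (inf_le_left.trans n1)) (l.trans inf_le_right) m
    have a2 := b'.cent_of c' (pResidualOf_pResidualOf p _) (l.trans (inf_le_left.trans n2)) (l.trans (eW ▸ inf_le_right)) m
    refine cent_step hc (X := pCoreOf p F ⊔ pCoreOf p (cj g F)) ((isPGroup_pCoreOf p F).to_sup_of_normal_left'
      (isPGroup_pCoreOf p _) ((pCoreOf_le p _).trans (h1.trans (norm_QE F)))) ?_ ((commutator_mono le_rfl (zpowers_le.2 hx.1)).trans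
        (commutator_sup_right_le (le_sup_left.trans nR) (le_sup_right.trans nR) ((b.comm_Q c).trans le_sup_left)
          ((b'.comm_Q c').trans le_sup_right)))
    rw [centralizer_sup']
    exact ⟨centralizer_anti (pCoreOf_le p _) a1, centralizer_anti (pCoreOf_le p _) a2⟩
  have l : F ≤ cj g F ⊔ (F ⊔ cj g F) ⊓ C[WE p F] := fun f hf => by
    have m : g * f * g⁻¹ ∈ cj g F := mem_cj_iff_exists.2 ⟨f, hf, rfl⟩
    have k : (g * f * g⁻¹)⁻¹ * f ∈ C[WE p F] := by
      rw [show (g * f * g⁻¹)⁻¹ * f = g * (f⁻¹ * g⁻¹ * f⁻¹⁻¹) by group]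
      exact mul_mem hg (conj_mem_of_mem_normalizer (le_normalizer_centralizer (le_normalizer.trans (norm_WE F)) (inv_mem hf)) (inv_mem hg))
    have := mul_mem_sup m (mem_inf.2 ⟨mul_mem (inv_mem (mem_sup_right m)) (mem_sup_left hf), k⟩)
    rwa [mul_inv_cancel_left] at this
  exact (eq_of_le_of_card_ge (b.res.ge.trans (pResidualOf_le_of_le_sup pY (inf_le_left.trans n2) l)) (card_cj g F).le).symm

/-- A minimal counterexample to `C_G(W_F) ≤ N_G(F)`. -/
structure XN (T F : Subgroup G) : Prop extends XB T F where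
  nrm : ∀ H, H ≠ ⊤ → P₀ ≤ H → BB 3 T ≤ H → F ≤ H → H ≤ N[F]
  hn : ¬ C[W[F]] ≤ N[F]

namespace XN
variable (b : XN T F)
include b

theorem res_le [K.Normal] (hF : F ≤ K) : pResidual 3 G ≤ K := by
  by_cases e : K ⊔ P₀ ⊔ BB 3 T = ⊤
  · exact (pResidualOf_top 3 G).ge.trans (pResidualOf_le_of_le_sup b.ct.syl.pg le_normalizer_of_normal (e.ge.trans
      (sup_le (sup_le le_sup_left (b.ct.QT.trans le_sup_right)) ((BB_le 3 T).trans le_sup_right))))
  have l : K ≤ N[F] := (le_sup_of_le_left le_sup_left).trans (b.nrm _ e (le_sup_of_le_left le_sup_right) le_sup_right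
    (hF.trans (le_sup_of_le_left le_sup_left)))
  exact absurd (fun g hg => mem_normalizer_iff_cj.2 (b.toBlk.mutual b.ct hg (((cj_mono g hF).trans (cj_eq_of_normal g K).le).trans l)
    (hF.trans ((cj_eq_of_normal g K).ge.trans ((cj_mono g l).trans (cj_normalizer g F).le))))) b.hn

theorem res_comm {R : Subgroup G} [K.Normal] [R.Normal] (h1 : ⁅F, K⁆ ≤ R) : ⁅pResidual 3 G, K⁆ ≤ R :=
  (le_commKer_iff.1 (b.res_le (le_commKer_iff.2 ⟨le_normalizer_of_normal, h1⟩))).2

theorem delta [D.Normal] (h1 : D ≤ C[W[F]]) (h2 : D ≤ N[F]) : D ≤ P₀ := by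
  refine le_pCore inferInstance (isPGroup_of_pResidualOf_eq_bot ?_)
  haveI : (pResidualOf 3 D).Normal := normal_of_top_le_normalizer (le_normalizer_of_normal.trans (normalizer_le_normalizer_pResidualOf 3 _))
  have h1 := b.cent_of b.ct (pResidualOf_pResidualOf 3 _) ((pResidualOf_le 3 D).trans h2) ((pResidualOf_le 3 D).trans h1)
  have h2 : pResidualOf 3 D ≤ C[pResidualOf 3 D] := (pResidualOf_le_pResidual 3 _).trans (b.res_le (le_centralizer_iff.1 h1))
  have h3 := cent_of_res (E := pResidualOf 3 D) (F := P₀) (pResidualOf_pResidualOf 3 _) (isPGroup_pCore 3 G).to_inf_left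
    (inf_le_right.trans h2) (commutator_le_inf _ _)
  exact (pResidualOf_pResidualOf 3 _).symm.trans (pResidualOf_eq_bot_of_isPGroup ((isPGroup_pCore 3 G).to_le (h3.trans b.ct.chp)))

theorem core_le : Q[F] ≤ P₀ := by_contra fun n => b.hn (b.cw_norm b.ct
  ((b.comm_comm (isPGroup_pCore 3 G) le_normalizer_of_normal).ge.trans (commutator_mono
    ((b.irrY (b.comm_Q b.ct) (le_normalizer_commutator le_normalizer_of_normal le_normalizer)).resolve_right fun e => n
      (b.cQ.ge.trans ((commutator_mono e le_rfl).trans (commutator_sup_left_le le_normalizer_of_normal le_normalizer_of_normal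
        ((commutator_mono (commutator_le_left _ _) le_rfl).trans (commutator_le_left _ _)) ((b.WE_le_V b.ct).trans (OZ_le 3 _)))))) le_rfl)))

variable [W[F].Normal]

theorem top [D.Normal] (h1 : D ≤ C[W[F]]) (h2 : ¬ D ≤ P₀) : D ⊔ P₀ ⊔ F ⊔ BB 3 T = ⊤ := by_contra fun e => h2 (b.delta h1
  ((le_sup_of_le_left (le_sup_of_le_left le_sup_left)).trans (b.nrm _ e (le_sup_of_le_left (le_sup_of_le_left le_sup_right)) le_sup_right
    (le_sup_of_le_left le_sup_right))))

theorem ZV : Z[F] ≤ V₀ := le_OZ' ((ZE_le F).trans b.core_le) (le_centralizer_iff.1 (b.cZ' b.QP)) fun _ h => VV_pow h.1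

theorem VV0 : V[F] ≤ V₀ := b.VWZ.trans (sup_le (b.WE_le_V b.ct) b.ZV)

theorem cV (h1 : x ∈ C[W[F]]) (hc : (orderOf x).Coprime 3) : x ∈ C[V₀] :=
  cent_step hc ((pgrp_VV F).to_le (WE_le F)) h1 ((commutator_comm _ _).le.trans ((commutator_mono (zpowers_le.2
    (pResidualOf_le_pResidual 3 ⊤ (mem_pResidualOf (mem_top _) hc))) le_rfl).trans (b.res_comm
      ((commutator_comm _ _).le.trans (b.comm_V b.ct).le))))

theorem ts (ht : Iv F t) (g : G) : t * (g * t * g⁻¹) ∈ C[W[F]] := fun w hw => by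
  have e := b.invW ht (Normal.conj_mem inferInstance _ hw g⁻¹)
  have e' := b.invW ht (inv_mem hw)
  symm
  calc _ = t * (g * (t * (g⁻¹ * w * g⁻¹⁻¹) * t⁻¹) * g⁻¹) * (g * t * g⁻¹) := by group
    _ = t * w⁻¹ * t⁻¹ * (t * (g * t * g⁻¹)) := by rw [e]; group
    _ = _ := by rw [e', inv_inv]

theorem nV : V[F].Normal := by
  haveI : (pResidualOf 3 C[W[F]]).Normal := normal_of_top_le_normalizer (le_normalizer_of_normal.trans (normalizer_le_normalizer_pResidualOf 3 _))
  have e := b.top (pResidualOf_le 3 C[W[F]]) fun e => b.hn ((le_pCore inferInstance (isPGroup_of_pResidualOf_eq_bot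
    ((pResidualOf_pResidualOf 3 _).symm.trans (pResidualOf_eq_bot_of_isPGroup ((isPGroup_pCore 3 G).to_le e))))).trans (b.nQ b.ct))
  exact normal_of_top_le_normalizer (e.ge.trans (sup_le (sup_le (sup_le ((pResidualOf_le_iff.2 fun x hx hc => b.cV hx hc).trans
    ((centralizer_anti b.VV0).trans (centralizer_le_normalizer _))) ((b.nQ b.ct).trans (norm_VV F))) (le_normalizer.trans (norm_VV F)))
      (b.nB.trans (norm_VV F))))

theorem RP : R[F] ≤ P₀ := normalClosure_le_normal b.core_le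

theorem ker : C[W[F]] ⊓ commKer V[F] R[F] ≤ P₀ := by
  haveI := b.nV
  refine le_pCore inferInstance (b.ct.pgrp fun x hx hc => cent_step hc ((isPGroup_pCore 3 G).to_le b.RP) (cent_step hc (pgrp_VV F)
    (centralizer_anti b.VV0 (b.cV hx.1 hc)) ((commutator_comm _ _).le.trans (le_commKer_iff.1 (zpowers_le.2 hx.2)).2))
    ((commutator_comm _ _).le.trans ((commutator_mono (zpowers_le.2 (pResidualOf_le_pResidual 3 ⊤ (mem_pResidualOf (mem_top _) hc))) le_rfl).trans
      (b.res_comm ((commutator_comm _ _).le.trans ((b.comm_Q b.ct).trans le_normalClosure))))))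

theorem central (ht : Iv F t) (hc : ∀ g : G, ⁅g, t⁆ ∈ P₀) : False := by
  haveI := b.nV
  haveI : Q[F].Normal := ⟨fun y hy g => b.memQ ht (Normal.conj_mem inferInstance _ (b.core_le hy) g) (by
    have := Normal.conj_mem inferInstance _ (mul_mem (comm_inv_mem (b.QP (commutator_mem_commutator (conj_mem_of_mem_normalizer
      (le_normalizer_pCoreOf 3 F ht.mem) hy) (hc g⁻¹)))) (b.invQ ht hy)) g
    convert this using 1
    simp only [commutatorElement_def]; group)⟩
  have k := b.ker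
  rw [normalClosure_eq_self] at k
  have nF : ∀ {X : Subgroup G}, ⁅F, X⁆ ≤ P₀ → X ≤ N[F] := fun e => by
    rw [← res_sup b.res (isPGroup_pCore 3 G) (b.nQ b.ct)]
    exact (le_normalizer_of_commutator_le' (commutator_sup_left_le (le_normalizer_of_le le_sup_left) (le_normalizer_of_le le_sup_right)
      (e.trans le_sup_right) ((commutator_le_left _ _).trans le_sup_right))).trans (normalizer_le_normalizer_pResidualOf 3 _)
  have n1 : ∀ g, g ∈ N[V[F]] := fun g => le_normalizer_of_normal (mem_top g)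
  have od : ∀ z ∈ C[W[F]], z * z = 1 → z = 1 := fun z hz h2 => by
    have nQ : z ∈ N[Q[F]] := le_normalizer_of_normal (mem_top z)
    have pm := b.beta nQ h2 (centralizer_anti b.ZV (b.cV hz (cop_of_sq h2)))
    have := b.cinv (nF (commutator_zpowers_right_le (le_normalizer_of_normal (mem_top z)) fun f hf => k
      ⟨Subgroup.mul_mem _ (Normal.conj_mem inferInstance _ hz f) (inv_mem hz), n1 _, fun _ => b.pm_comm nQ pm hf⟩) (mem_zpowers z)) h2 hz
    exact eq_one_of_cop (cop_of_sq h2) (isPGroup_pCore 3 G) (k ⟨hz, n1 _, fun y hy => by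
      rw [commutatorElement_eq_one_iff_mul_comm.2 (this y (pCoreOf_le 3 F hy)).symm]; exact one_mem _⟩)
  have oc : (Nat.card C[W[F]]).Coprime 2 := (Nat.coprime_comm.1 ((Nat.Prime.coprime_iff_not_dvd Nat.prime_two).2 fun d => by
    obtain ⟨z, hz⟩ := exists_prime_orderOf_dvd_card' 2 d
    have := od z z.2 (by rw [← sq, ← hz]; exact congrArg Subtype.val (pow_orderOf_eq_one z))
    rw [show z = 1 from Subtype.ext this, orderOf_one] at hz; omega))
  set f := QuotientGroup.mk' V[F]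
  haveI : (Q[F].map f).Normal := Normal.map inferInstance f (QuotientGroup.mk'_surjective _)
  haveI : (C[W[F]].map f).Normal := Normal.map inferInstance f (QuotientGroup.mk'_surjective _)
  have pB := (b.ct.syl.pg.to_le (BB_le 3 T)).map f
  have st := stableOn_of_abelian_two (p := 3) (H := C[W[F]].map f ⊔ (BB 3 T).map f) (by decide) (two_comm (Solv.coprime_card_sup
    le_normalizer_of_normal (oc.coprime_dvd_left (card_map_dvd _ _)) (let ⟨k, hk⟩ := pB.exists_card_eq; hk ▸ Nat.Coprime.pow_left k (by norm_num))))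
    ((isPGroup_pCoreOf 3 F).map f) le_normalizer_of_normal
  set O := opMod 3 (C[W[F]].map f ⊔ (BB 3 T).map f) C[Q[F].map f]
  have nO : C[W[F]].map f ≤ N[O] := le_sup_left.trans (le_normalizer_opMod le_normalizer le_normalizer_of_normal)
  have l : C[W[F]] ⊓ O.comap f ≤ P₀ := (le_pCoreOf inf_le_left (le_normalizer_inf le_normalizer ((map_le_iff_le_comap.1 nO).trans
    (le_normalizer_comap f))) fun x => by
      obtain ⟨i, hi⟩ := exists_pow_mem_of_mem_opMod le_normalizer_of_normal x.2.2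
      obtain ⟨j, hj⟩ := exists_pow_of_isPGroup (isPGroup_pCore 3 G) (k ⟨pow_mem x.2.1 (3 ^ i), n1 _, fun y hy =>
        commute_mk.1 (by rw [map_pow]; exact (hi _ ⟨y, hy, rfl⟩).symm)⟩)
      exact ⟨i + j, Subtype.ext (by rw [pow_add, pow_mul]; exact hj)⟩).trans (pCoreOf_le_pCore_of_normal _)
  have l2 : BB 3 T ≤ commKer P₀ C[W[F]] := fun g hg => ⟨le_normalizer_of_normal (mem_top g), fun c hc => by
    have s := st (f g) (mem_sup_right ⟨g, hg, rfl⟩) (by
      rw [← MonoidHom.map_zpowers, ← map_commutator]; exact commutator_le_iff_map_mk.1 (b.qY hg))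
    refine l (mem_inf.2 ⟨Subgroup.mul_mem _ (Normal.conj_mem inferInstance _ hc g) (inv_mem hc), ?_⟩)
    rw [mem_comap, map_commutatorElement]
    exact comm_inv_mem (mul_mem (conj_mem_of_mem_normalizer (nO ⟨c, hc, rfl⟩) s) (inv_mem s))⟩
  exact b.hn (nF (le_commKer_iff.1 (b.cB.ge.trans ((commutator_mono le_rfl l2).trans (commutator_le_right _ _)))).2)

theorem noncentral : False := by
  haveI := b.nV
  obtain ⟨i, hi, ht⟩ := b.exists_iv
  set t := i * i with hti
  have n0 : ∀ g, g ∈ N[P₀] := fun g => le_normalizer_of_normal (mem_top g)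
  have NH : N[F] ≤ cK P₀ t := fun g hg => ⟨n0 g, b.core_le (b.comm_t ht hg)⟩
  have HT : cK P₀ t ≠ ⊤ := fun e => b.central ht fun g => (e.ge (mem_top g)).2
  have HN := b.nrm _ HT ((b.nQ b.ct).trans NH) (b.nB.trans NH) (le_normalizer.trans NH)
  obtain ⟨N, -, n1, n2, n3⟩ := zs (mem_top t) ht.sq ht.ne fun g _ e => by
    have b' := b.toXB.conj g
    have hs := ht.cj g
    have c := b.ts ht g
    have eV : V[cj g F] = V[F] := (map_VV (MulAut.conj g).injective F).symm.trans (cj_eq_of_normal g _)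
    generalize g * t * g⁻¹ = s at *
    have h2 : t * s * (t * s) = 1 := by rw [mul_assoc, ← mul_assoc s, ← e.eq, mul_assoc t, hs.sq, mul_one, ht.sq]
    have cF := b.cinv (HN ⟨n0 _, by
      rw [commutatorElement_eq_one_iff_mul_comm.2 (by rw [mul_assoc, ← e.eq])]; exact one_mem _⟩) h2 c
    have eQ : Q[F] = Q[cj g F] := eq_of_le_of_card_ge (fun y hy => b'.memQ hs (b.core_le hy) (by
      have := b.invQ ht hy
      rw [eV, show s * y * s⁻¹ = t⁻¹ * (t * s * y * (t * s)⁻¹) * t by group, conj_eq_of_comm (cF y (pCoreOf_le 3 F hy)).symm]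
      rwa [inv_of_sq ht.sq] at this ⊢)) (by rw [← cj_pCoreOf, card_cj])
    have m : t * s ∈ commKer Q[F] P₀ := mul_mem ⟨le_normalizer_pCoreOf 3 F ht.mem, fun y hy => comm_inv_mem (b.comm_Q b.ct
      (commutator_mem_commutator hy ht.mem))⟩ (eQ ▸ ⟨le_normalizer_pCoreOf 3 _ hs.mem, fun y hy => comm_inv_mem (b'.comm_Q b'.ct
      (commutator_mem_commutator hy hs.mem))⟩)
    have := eq_one_of_cop (cop_of_sq h2) (isPGroup_pCore 3 G) (b.ct.chp (cent_step (cop_of_sq h2) (isPGroup_pCoreOf 3 F)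
      (centralizer_anti (pCoreOf_le 3 F) cF) ((commutator_comm _ _).le.trans (le_commKer_iff.1 (zpowers_le.2 m)).2)))
    rw [← inv_of_sq ht.sq, inv_mul_eq_one] at this
    exact this.symm
  haveI := normal_of_top_le_normalizer n1
  have ct : ∀ g, ⁅t, g⁆ ∈ C[W[F]] := fun g => by
    have := b.ts ht g
    rwa [commutatorElement_def, inv_of_sq ht.sq, mul_assoc, mul_assoc, ← mul_assoc g]
  obtain ⟨A, a1, a2, a3, a4⟩ := exists_ab (P := P₀) (D := N ⊓ C[W[F]]) (PF.Feit_Thompson (Nat.coprime_two_right.1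
    (n2.coprime_dvd_left (card_dvd_of_le inf_le_left)))) fun e => HT (top_unique fun g _ => ⟨n0 g, comm_inv_mem (e ⟨n3 g trivial, ct g⟩)⟩)
  set f := QuotientGroup.mk' V[F]
  haveI : (Subgroup.map f P₀).Normal := Normal.map inferInstance f (QuotientGroup.mk'_surjective _)
  haveI : (OZ 3 (Subgroup.map f P₀)).Normal := normal_of_top_le_normalizer (le_normalizer_of_normal.trans (normalizer_le_normalizer_OZ 3 _))
  obtain ⟨ρ, σ⟩ := exists_setup (ea_OZ 3 (Subgroup.map f P₀))
  set φ := (QuotientGroup.mk' C[OZ 3 (Subgroup.map f P₀)]).comp f with hφ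
  have act : ∀ g, Act ρ (f g) (φ g) := fun g => σ.act _
  have kP : ∀ g ∈ P₀, φ g = 1 := fun g hg => ((act g).eq_one_iff σ.inj).2 (le_centralizer_OZ 3 _ ⟨g, hg, rfl⟩)
  have ab : A.map φ ≤ C[A.map φ] := by
    rintro _ ⟨x, hx, rfl⟩ _ ⟨y, hy, rfl⟩
    exact commutatorElement_eq_one_iff_mul_comm.1 ((map_commutatorElement φ y x).symm.trans (kP _ (a4 (commutator_mem_commutator hy hx))))
  have key := lemE (ρ := ρ) (I := ivS (φ t) (A.map φ) ab) (i := φ i) (map_mul φ i i).symm (by rw [← map_mul, ht.sq, map_one])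
    (fun x hx y hy => ab hy.1 x hx.1) (fun x hx => ⟨by
      obtain ⟨y, hy, rfl⟩ := hx.1; exact ⟨_, a2.conj_mem y hy i, by simp⟩, by rw [conj_inv, ← hx.2, hti, map_mul]; group⟩)
    (fun _ hx => hx.2) (fun u hu => ?_) (fun _ ⟨⟨x, hx, e⟩, _⟩ => e ▸ (n2.coprime_dvd_left (N.orderOf_dvd_natCard (a1 hx).1)).coprime_dvd_left
      (orderOf_map_dvd φ x)) fun _ ⟨⟨x, hx, e⟩, _⟩ => ?_
  · refine HT (top_unique ((b.top (a1.trans inf_le_right) a3).ge.trans (sup_le (sup_le (sup_le (fun a ha => ⟨n0 a, comm_inv_mem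
      (b.ker ⟨ct a, le_normalizer_of_normal (mem_top _), fun y hy => commute_mk.1 ?_⟩)⟩) ((b.nQ b.ct).trans NH)) (le_normalizer.trans NH)) (b.nB.trans NH))))
    have m : R[F] ≤ (OZ 3 (Subgroup.map f P₀)).comap f := normalClosure_le_normal fun y hy => le_OZ' (X := Q[F].map f) (map_mono b.core_le)
      (commutator_eq_bot_iff_le_centralizer.1 (commutator_le_iff_map_mk.1 b.QP)) (by
        rintro _ ⟨y, hy, rfl⟩; rw [← map_pow]; exact (QuotientGroup.eq_one_iff _).2 (b.pw hy).1) ⟨y, hy, rfl⟩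
    exact (act _).fix.1 (key (φ ⁅t, a⁆) ⟨⟨_, mul_mem (a2.conj_mem a ha t) (inv_mem ha), rfl⟩, by
      rw [← map_inv, ← map_inv, ← map_mul, ← map_mul, conj_comm_inv ht.sq]⟩ (AbV.mk _ _ (m hy)))
  · obtain ⟨y, hy, e⟩ := OZ_le 3 _ u.val_mem
    have e1 := (act i).dl u
    have e2 : ρ (φ t) (dl ρ (φ i) u) = dl ρ (φ i) u := by rw [← dl_comm (by rw [← map_mul, ← map_mul, hti, mul_assoc]), hu]
    have e3 := (QuotientGroup.eq_one_iff _).2 (b.invQ ht (comm_inv_mem (b.comm_Q b.ct (commutator_mem_commutator hy hi))))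
    rw [(act t).fix, e1, ← e, ← map_commutatorElement] at e2
    change f _ = 1 at e3
    rw [map_mul, map_mul, map_mul, e2, map_inv, mul_inv_cancel_right] at e3
    rw [← dl_eq_zero, ← AbV.val_inj, e1, ← e, ← map_commutatorElement]
    exact eq_one_of_inv (eq_inv_of_mul_eq_one_left e3) (by
      rw [← map_pow]; exact (QuotientGroup.eq_one_iff _).2 (b.pw (comm_inv_mem (b.comm_Q b.ct (commutator_mem_commutator hy hi)))).1)
  · have h0 := (orderOf_pos x).ne'
    have p1 : IsPGroup 3 (zpowers (x ^ ordCompl[3] (orderOf x))) := isPGroup_zpowers_of_pow (k := (orderOf x).factorization 3) (by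
      rw [← pow_mul, mul_comm, Nat.ordProj_mul_ordCompl_eq_self, pow_orderOf_eq_one])
    have l : zpowers (x ^ ordCompl[3] (orderOf x)) ⊔ ⁅A, A⁆ ≤ A := sup_le (zpowers_le.2 (pow_mem hx _)) (commutator_le_left _ _)
    have := kP _ ((le_pCoreOf l (le_normalizer_of_commutator_le' ((commutator_mono l le_rfl).trans le_sup_right))
      (p1.to_sup_of_normal_right ((isPGroup_pCore 3 G).to_le a4))).trans (pCoreOf_le_pCore_of_normal A) (mem_sup_left (mem_zpowers _)))
    rw [map_pow, e] at this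
    exact ((Nat.coprime_ordCompl Nat.prime_three h0).symm).coprime_dvd_left (orderOf_dvd_of_pow_eq_one this)

end XN

theorem XB.cw_aux (n : ℕ) : ∀ (G : Type u) [Group G] [Finite G], Nat.card G < n → ∀ T F : Subgroup G, XB T F → C[W[F]] ≤ N[F] := by
  induction n with
  | zero => exact fun _ _ _ h => absurd h (Nat.not_lt_zero _)
  | succ n ih =>
  intro G _ _ hG T F b
  have sub : ∀ H : Subgroup G, H ≠ ⊤ → pCore 3 G ≤ H → BB 3 T ≤ H → F ≤ H → H ≤ N[W[F]] → H ⊓ C[W[F]] ≤ N[F] := fun H hH hP hB hF hW x hx => by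
    obtain ⟨S, hS, l⟩ := exists_sylIn_ge hB (b.ct.syl.pg.to_le (BB_le 3 T))
    have e := BB_eq_of_pgrp b.ct.syl hS.pg l
    have f := H.subtype_injective
    have m := map_subgroupOf_eq_of_le hF
    have k : Blk 3 S F := ⟨e ▸ b.toBk, fun c => inf_centralizer_ne_bot ((pgrp_VV F).to_le (WE_le F)) hS.pg (hS.le.trans hW)
      (fun e => b.hc (by rw [e, centralizer_bot']; exact le_top)) (eq_bot_iff.2 fun w hw => b.z0 hw.1 (le_centralizer_iff.1 c
        (le_OZ' (X := W[F] ⊓ C[S]) (inf_le_left.trans ((b.WE_le_V b.ct).trans ((OZ_le 3 _).trans ((le_pCoreOf hP le_normalizer_of_normal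
          (isPGroup_pCore 3 G)).trans hS.pCoreOf_le)))) inf_le_right (fun _ h => VV_pow (WE_le F h.1)) hw)))⟩
    have := ih H (lt_of_lt_of_le (card_lt_of_ne_top hH) (Nat.lt_succ_iff.1 hG)) (S.subgroupOf H) (F.subgroupOf H)
      ⟨(blk_map f).1 (by rwa [map_subgroupOf_eq_of_le hS.le, m]), b.ct.sub hP hS, fun e => b.ne (by
        rw [← m, ← map_VV f, ← e, pCoreOf_map_of_injective f])⟩
      (x := ⟨x, hx.1⟩) ((mem_cent_map f).1 (by rw [map_WE f, m]; exact hx.2))
    exact m ▸ le_normalizer_map _ ⟨_, this, rfl⟩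
  have hP : pCore 3 G ≤ C[W[F]] := (le_centralizer_OZ 3 _).trans (centralizer_anti (b.WE_le_V b.ct))
  have nF : F ⊔ BB 3 T ≤ N[F] := sup_le le_normalizer b.nB
  have nW : C[W[F]] ⊔ (F ⊔ BB 3 T) ≤ N[W[F]] := sup_le (centralizer_le_normalizer _) (nF.trans (norm_WE F))
  by_cases e : C[W[F]] ⊔ (F ⊔ BB 3 T) = ⊤
  · haveI := normal_of_top_le_normalizer (e.ge.trans nW)
    refine by_contra fun hn => XN.noncentral ⟨b, fun H h1 h2 h3 h4 x hx => ?_, hn⟩
    obtain ⟨k, hk, u, hu, rfl⟩ := (mem_sup_of_le_normalizer_left le_normalizer_of_normal).1 (e.ge (mem_top x))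
    exact mul_mem (sub H h1 h2 h3 h4 le_normalizer_of_normal ⟨(Subgroup.mul_mem_cancel_right _ (sup_le h4 h3 hu)).1 hx, hk⟩) (nF hu)
  · exact (le_inf le_sup_left le_rfl).trans (sub _ e (hP.trans le_sup_left) (le_sup_of_le_right le_sup_right)
      (le_sup_of_le_right le_sup_left) nW)

theorem Blk.cw_all {p : ℕ} [Fact p.Prime] (k : Blk p T E) (c : CT p T) : C[WE p E] ≤ N[E] := by
  by_cases e : pCoreOf p E = VV p E
  · exact k.cw_norm c (k.comm_W c e).2
  obtain rfl : p = 3 := let ⟨_, _, _, _, _, _, m⟩ := (k.tx c).resolve_left e; m.exc.p3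
  exact XB.cw_aux _ G (Nat.lt_succ_self _) T E ⟨k, c, e⟩

end Cfsg.Agent.PLocal.PU
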