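import Cfsg.Agent.PLocal.Ct6
import Cfsg.Agent.Block.ZStar

/-! Exceptional blocks (`XB`): involutions, the sign lemma `XB.beta`, `XB.gam`; a lemma on cyclic groups of order four acting on
abelian groups (`lemE`); the `Z*`-theorem for subgroups (`zs`). -/

namespace Cfsg.Agent.PLocal.PU
open Subgroup Cfsg Cfsg.Agent.Loc Cfsg.Agent.PLocal.FF Cfsg.Agent.Classical Matrix
open scoped commutatorElement MatrixGroups
local notation:max "C[" H "]" => Subgroup.centralizer (SetLike.coe H)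
local notation:max "N[" H "]" => Subgroup.normalizer (SetLike.coe H)
local notation:max "Q[" H "]" => pCoreOf 3 H
local notation:max "W[" H "]" => WE 3 H
local notation:max "V[" H "]" => VV 3 H
local notation:max "Z[" H "]" => ZE 3 H

universe u

theorem lemE {Γ U : Type*} [Group Γ] [Finite Γ] [AddCommGroup U] [Module (ZMod 3) U] [Finite U] {ρ : Representation (ZMod 3) Γ U}
    {I : Subgroup Γ} {t i : Γ} (hi : i * i = t) (ht : t * t = 1) (hc : ∀ a ∈ I, ∀ b ∈ I, a * b = b * a)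
    (hn : ∀ a ∈ I, i * a * i⁻¹ ∈ I) (hv : ∀ a ∈ I, t * a * t⁻¹ = a⁻¹) (h0 : ∀ u, ρ t u = u → ρ i u = u)
    (o2 : ∀ a ∈ I, (orderOf a).Coprime 2) (o3 : ∀ a ∈ I, (orderOf a).Coprime 3) : ∀ a ∈ I, ∀ u, ρ a u = u := by
  have h2 : ∀ a ∈ I, ∀ u, ρ (a * a) u = u → ρ a u = u := fun a ha u h =>
    mem_of_pow_mem_of_coprime (N := stab ρ u) (n := 2) (by rw [sq]; exact h) (o2 a ha)
  have h3 : ∀ a ∈ I, ∀ u, ρ a (dl ρ a u) = dl ρ a u → dl ρ a u = 0 := fun a ha u => dl_eq_zero_of_coprime (o3 a ha)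
  have ti : ∀ a ∈ I, ∀ u, ρ t (ρ a u) = ρ a⁻¹ (ρ t u) := fun a ha u => by rw [← hv a ha, rho_mul, rho_mul, rho_inv_apply]
  have dd : ∀ a ∈ I, ∀ b ∈ I, ∀ u, dl ρ a (dl ρ b u) = dl ρ b (dl ρ a u) := fun a ha b hb u => by
    simp only [dl_apply, map_sub, ← rho_mul, hc a ha b hb]; abel
  have key : ∀ a ∈ I, ∀ u, dl ρ (a⁻¹ * (i * a * i⁻¹)) (dl ρ (a⁻¹ * (i * a * i⁻¹)⁻¹) u) = 0 := fun a ha => by
    have hb := hn a ha
    have k0 : ∀ u, ρ t u = u → dl ρ (a⁻¹ * (i * a * i⁻¹)) (dl ρ (a⁻¹ * (i * a * i⁻¹)⁻¹) u) = 0 := fun u hu => by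
      have e := h0 (ρ a u + ρ a⁻¹ u) (by rw [map_add, ti a ha, ti _ (inv_mem ha), hu, inv_inv, add_comm])
      have f : ∀ c, ρ i (ρ c u) = ρ (i * c * i⁻¹) u := fun c => by
        conv_rhs => rw [← h0 u hu, rho_mul, rho_mul, rho_inv_apply]
      rw [map_add, f, f, conj_inv.symm] at e
      generalize i * a * i⁻¹ = b at *
      have m : a⁻¹ * b * (a⁻¹ * b⁻¹) = a⁻¹ * a⁻¹ := by rw [mul_assoc, ← mul_assoc b, hc b hb _ (inv_mem ha)]; group
      have := congrArg (ρ a⁻¹) e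
      rw [map_add, map_add, rho_inv_apply] at this
      simp only [← rho_mul] at this
      simp only [dl_apply, map_sub, ← rho_mul, m]
      linear_combination (norm := abel) -this
    have hb' := mul_mem (inv_mem ha) hb
    have hc' := mul_mem (inv_mem ha) (inv_mem hb)
    generalize a⁻¹ * (i * a * i⁻¹) = b at *
    generalize a⁻¹ * (i * a * i⁻¹)⁻¹ = c at *
    intro u
    have tt : ρ t (ρ t u) = u := by rw [← rho_mul, ht, map_one]; rfl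
    have k1 : dl ρ b (dl ρ c (u - ρ t u)) = 0 := h3 b hb' _ (h2 b hb' _ (by
      have := k0 (ρ b (u - ρ t u) - ρ b⁻¹ (u - ρ t u)) (by
        rw [map_sub, ti b hb', ti _ (inv_mem hb'), inv_inv, map_sub (ρ t), tt]; simp only [map_sub]; abel)
      rw [map_sub, map_sub, dl_comm (hc c hc' b hb'), dl_comm (hc c hc' _ (inv_mem hb')), dl_comm rfl,
        dl_comm (hc b hb' _ (inv_mem hb')), sub_eq_zero] at this
      rw [rho_mul, this, rho_apply_inv]))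
    have k2 := k0 (u + ρ t u) (by rw [map_add, tt, add_comm])
    have e : u = -(u + ρ t u) - (u - ρ t u) := by
      have : (3 : ZMod 3) • u = 0 := by rw [show (3 : ZMod 3) = 0 from rfl, zero_smul]
      rw [show (3 : ZMod 3) = 1 + 1 + 1 from rfl, add_smul, add_smul, one_smul] at this
      linear_combination (norm := abel) this
    rw [e, map_sub, map_sub, map_neg, map_neg, k1, k2]; simp
  have k3 : ∀ a ∈ I, ∀ u, ρ (i * a * i⁻¹) u = ρ a u := fun a ha u => by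
    have hb := hn a ha
    have e := key _ (mul_mem ha hb)
    have e1 := key a ha
    rw [← conj_mul, show i * (i * a * i⁻¹) * i⁻¹ = t * a * t⁻¹ by rw [← hi]; group, hv a ha] at e
    generalize i * a * i⁻¹ = b at *
    have hb' := mul_mem (inv_mem ha) hb
    have m1 : (a * b)⁻¹ * (b * a⁻¹) = (a * a)⁻¹ := by rw [hc a ha b hb]; group
    have m2 : (a * b)⁻¹ * (b * a⁻¹)⁻¹ = b⁻¹ * b⁻¹ := by group
    rw [m1, m2] at e
    set y := dl ρ (a⁻¹ * b) u with hy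
    have s1 : a⁻¹ * b⁻¹ ∈ stab ρ y := dl_eq_zero.1 (by rw [hy, dd _ (mul_mem (inv_mem ha) (inv_mem hb)) _ hb']; exact e1 u)
    have s2 : ρ (b⁻¹ * b⁻¹) y = ρ (a * a) y := by
      have : b⁻¹ * b⁻¹ = a * a * (a⁻¹ * b⁻¹ * (a⁻¹ * b⁻¹)) := by
        rw [mul_assoc a⁻¹, ← mul_assoc b⁻¹, hc _ (inv_mem hb) _ (inv_mem ha)]; group
      rw [this, rho_mul, mem_stab.1 (mul_mem s1 s1)]
    have s3 : a ∈ stab ρ y := h2 a ha y (dl_eq_zero.1 (h3 _ (mul_mem ha ha) y (by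
      have := e y
      rw [dl_apply (b⁻¹ * b⁻¹), s2, ← dl_apply, dl_eq_zero] at this
      exact (inv_mem_iff (H := stab ρ _)).1 this)))
    have s4 : a⁻¹ * b ∈ stab ρ y := mul_mem (inv_mem s3) (by simpa using inv_mem (mul_mem s3 s1))
    have := dl_eq_zero.1 (h3 _ hb' u s4)
    conv_rhs => rw [← this, ← rho_mul, mul_inv_cancel_left]
  intro a ha u
  have e := (k3 _ (hn a ha) u).trans (k3 a ha u)
  rw [show i * (i * a * i⁻¹) * i⁻¹ = t * a * t⁻¹ by rw [← hi]; group, hv a ha] at e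
  exact h2 a ha u (by rw [rho_mul, ← e, rho_apply_inv])

variable {G : Type u} [Group G] [Finite G] {B T E F H U U₀ X : Subgroup G} {s t g : G}

theorem zs (ht : t ∈ H) (h2 : t * t = 1) (h1 : t ≠ 1) (iso : ∀ g ∈ H, Commute t (g * t * g⁻¹) → g * t * g⁻¹ = t) :
    ∃ N ≤ H, H ≤ N[N] ∧ (Nat.card N).Coprime 2 ∧ ∀ g ∈ H, ⁅t, g⁆ ∈ N :=
  ⟨(pPrimeCore 2 H).map H.subtype, map_subtype_le _, normal_map_subtype inferInstance,
    by rw [card_map_of_injective H.subtype_injective]; exact Solv.coprime_card_pPrimeCore 2 H, fun g hg =>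
    ⟨_, Block.zstar (u := (⟨t, ht⟩ : H)) ⟨orderOf_eq_prime (Subtype.ext (by rw [sq]; exact h2)) fun e => h1 (congrArg Subtype.val e),
      fun g e => Subtype.ext (iso g g.2 (congrArg Subtype.val e))⟩ ⟨g, hg⟩, rfl⟩⟩

/-- An involution of `E`. -/
structure Iv (E : Subgroup G) (t : G) : Prop where
  mem : t ∈ E
  sq : t * t = 1
  ne : t ≠ 1

omit [Finite G] in
theorem inv_of_sq (h : t * t = 1) : t⁻¹ = t := inv_eq_of_mul_eq_one_right h

omit [Finite G] in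
theorem cop_of_sq (h : t * t = 1) : (orderOf t).Coprime 3 :=
  Nat.Coprime.coprime_dvd_left (orderOf_dvd_of_pow_eq_one (n := 2) (by rw [sq, h])) (by norm_num)

omit [Finite G] in
theorem Iv.cj (h : Iv E t) (g : G) : Iv (cj g E) (g * t * g⁻¹) :=
  ⟨conj_mem_cj h.mem, by rw [conj_mul, h.sq]; simp, fun e => h.ne (by simpa using e)⟩

omit [Finite G] in
theorem Iv.conj (h : Iv E t) (hg : g ∈ N[E]) : Iv E (g * t * g⁻¹) := cj_eq_of_mem_normalizer hg ▸ h.cj g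

omit [Finite G] in
theorem conj_comm_inv (h : s * s = 1) (y : G) : s * ⁅s, y⁆ * s⁻¹ = ⁅s, y⁆⁻¹ := by
  rw [commutatorElement_inv, commutatorElement_def, commutatorElement_def, inv_of_sq h, ← mul_assoc, ← mul_assoc, ← mul_assoc, h, one_mul]

omit [Finite G] in
theorem eq_one_of_inv {z : G} (h : z = z⁻¹) (h3 : z ^ 3 = 1) : z = 1 := by
  rw [pow_three', mul_eq_one_iff_eq_inv.2 h, one_mul] at h3; exact h3

omit [Finite G] in
theorem mem_of_sq3 {z : G} (h : z * z ∈ H) (h3 : z ^ 3 = 1) : z ∈ H := by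
  have := mul_mem h h
  rwa [← mul_assoc, ← pow_three', h3, one_mul] at this

/-- The elements of an abelian subgroup inverted by `t`. -/
def ivS (t : G) (U : Subgroup G) (h : U ≤ C[U]) : Subgroup G where
  carrier := {u | u ∈ U ∧ t * u * t⁻¹ = u⁻¹}
  one_mem' := ⟨one_mem _, by simp⟩
  mul_mem' := fun {a b} ha hb => ⟨mul_mem ha.1 hb.1, by rw [← conj_mul, ha.2, hb.2, ← _root_.mul_inv_rev, h ha.1 b hb.1]⟩
  inv_mem' := fun {a} ha => ⟨inv_mem ha.1, by rw [← conj_inv, ha.2]⟩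

section lin
variable {K : Type} [Field K] [CharP K 3] {ρ : G → SL(2, K)} {ψ : G → Fin 2 → K}

theorem two_ne3 : (2 : K) ≠ 0 := fun e => one_ne_zero (α := K) (by linear_combination (CharP.cast_eq_zero K 3 : (3 : K) = 0) - e)

theorem Sc.neg (s : Sc (commutator SL(2, K)) ⊤ ρ ψ E U U₀) (hk : ∀ e ∈ E, ρ e = 1 ↔ e ∈ Q[E]) (h : Iv E t) : ρ t = -1 :=
  (sl_eq_of_mul_self_eq_one two_ne3 (by rw [← s.mul _ h.mem _ h.mem, h.sq, s.rho_one])).resolve_left fun e =>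
    h.ne (eq_one_of_cop (cop_of_sq h.sq) (isPGroup_pCoreOf 3 E) ((hk t h.mem).1 e))

theorem Sc.inv3 (s : Sc (commutator SL(2, K)) ⊤ ρ ψ E U U₀) (hk : ∀ e ∈ E, ρ e = 1 ↔ e ∈ Q[E]) (h : Iv E t) {u : G} (hu : u ∈ U) :
    t * u * t⁻¹ * u ∈ U₀ := (s.ker _ (mul_mem (s.conj_mem h.mem hu) hu)).1 (by
  rw [s.add _ (s.conj_mem h.mem hu) _ hu, s.act t h.mem u hu, s.neg hk h, sl_smul]; simp [neg_mulVec])

omit [CharP K 3] in
theorem Lin.uniq (l : Lin 3 B E K ρ ψ) (h : Iv E t) (h' : Iv E s) : t⁻¹ * s ∈ Q[E] := by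
  haveI := l.ch
  exact (l.ker _ (mul_mem (inv_mem h.mem) h'.mem)).1 (by
    rw [l.sc.mul _ (inv_mem h.mem) _ h'.mem, l.sc.rho_inv h.mem, l.sc.neg l.ker h, l.sc.neg l.ker h', inv_mul_cancel])

omit [CharP K 3] in
theorem Lin.invW (l : Lin 3 B E K ρ ψ) (b : Bk 3 T E) (h : Iv E t) {w : G} (hw : w ∈ W[E]) : t * w * t⁻¹ = w⁻¹ := by
  haveI := l.ch
  refine (b.WE_le_of (U := ivS t V[E] (VV_comm E)) (fun _ h => h.1) (le_normalizer_of_cj_le fun f hf => cj_le_iff_forall.2 fun u hu =>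
    ⟨l.sc.conj_mem hf hu.1, ?_⟩) (fun e => ?_) hw).2
  · have := OZ_le_centralizer 3 _ hu.1 _ (l.uniq h (h.conj (le_normalizer (inv_mem hf))))
    calc _ = f * (t * (t⁻¹ * (f⁻¹ * t * f⁻¹⁻¹) * u) * (t⁻¹ * (f⁻¹ * t * f⁻¹⁻¹))⁻¹ * t⁻¹) * f⁻¹ := by group
      _ = _ := by rw [this, mul_assoc t, mul_inv_cancel_right, hu.2]; group
  · have := (l.sc.rho_eq_one irF_sl h.mem).2 fun u hu => ⟨l.sc.comm_mem h.mem hu, e ⟨l.sc.comm_mem h.mem hu, conj_comm_inv h.sq u⟩⟩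
    exact h.ne (eq_one_of_cop (cop_of_sq h.sq) (isPGroup_pCoreOf 3 E) ((l.ker t h.mem).1 this))

omit [CharP K 3] in
theorem Lin.exists_iv (l : Lin 3 B E K ρ ψ) : ∃ i ∈ E, Iv E (i * i) := by
  haveI := l.ch
  obtain ⟨e, he, h⟩ := (l.sc.rng _).1 (commutator_mem_commutator (mem_top (uSL (1 : K))) (mem_top (lSL (1 : K))))
  have h2 : ρ (e ^ 2) = -1 := by
    rw [l.sc.rho_pow he, h, sq]; exact sl_mul_self_eq_neg_one_of_trace (by rw [w3_eq]; simp [trace_fin_two])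
  obtain ⟨k, hk⟩ := exists_pow_of_isPGroup (isPGroup_pCoreOf 3 E) ((l.ker _ (pow_mem (pow_mem he 2) 2)).1 (by
    rw [l.sc.rho_pow (pow_mem he 2), h2]; simp))
  refine ⟨e ^ 3 ^ k, pow_mem he _, mul_mem (pow_mem he _) (pow_mem he _), by rw [← hk]; group, fun z => ?_⟩
  have := congrArg ρ z
  rw [show e ^ 3 ^ k * e ^ 3 ^ k = (e ^ 2) ^ 3 ^ k by group, l.sc.rho_pow (pow_mem he 2), h2, l.sc.rho_one,
    Odd.neg_one_pow (Odd.pow (by decide))] at this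
  exact two_ne3 (K := K) (by have := congrArg (fun A : SL(2, K) => A.1 0 0) this; simp at this; linear_combination -this)

omit [CharP K 3] in
theorem Exc.cZ (x : Exc 3 B E K) (h1 : ⁅Q[E], X⁆ ≤ V[E]) : X ≤ C[Z[E]] := by
  have a : ⁅⁅Q[E], X⁆, Q[E]⁆ ≤ ⊥ := commutator_le_of_le_centralizer (h1.trans (OZ_le_centralizer 3 _)) _
  exact commutator_eq_bot_iff'.1 (le_bot_iff.1 (x.der ▸ three_subgroups (le_normalizer_bot _) (le_normalizer_bot _)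
    (le_normalizer_bot _) a (by rwa [commutator_comm X])))

end lin

/-- An exceptional block. -/
structure XB (T F : Subgroup G) : Prop extends Blk 3 T F where
  ct : CT 3 T
  ne : Q[F] ≠ V[F]

/-- `s` centralizes or inverts `O₃(F) / Ω₁Z(O₃(F))`. -/
def Pm (F : Subgroup G) (s : G) : Prop := (∀ y ∈ Q[F], ⁅s, y⁆ ∈ V[F]) ∨ ∀ y ∈ Q[F], s * y * s⁻¹ * y ∈ V[F]

namespace XB
variable (b : XB T F) {v w x y z : G}
include b

theorem conj (g : G) : XB (cj g T) (cj g F) := ⟨b.toBlk.cj g, b.ct.cj g, fun e => b.ne (cj_injective g (by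
  rw [cj_pCoreOf, e]; exact (map_VV (MulAut.conj g).injective F).symm))⟩

theorem data : ∃ (K : Type) (_ : Field K) (_ : Finite K) (_ : CharP K 3), ∃ ρ ψ ρ' ψ', Lin 3 (BB 3 T) F K ρ ψ ∧ MbX 3 (BB 3 T) F K ρ' ψ' ∧
    ∀ e ∈ F, ρ' e = 1 ↔ e ∈ Q[F] :=
  let ⟨K, _, _, ⟨ρ, ψ, l⟩, ρ', ψ', m⟩ := (b.tx b.ct).resolve_left b.ne
  ⟨K, _, inferInstance, l.ch, ρ, ψ, ρ', ψ', l, m, fun _ => m.sc.ker_eq irF_sl (fun _ ha _ hu => m.sc.comm_U ha hu) (l.sc.quot l.ker)⟩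

theorem QV : ¬ Q[F] ≤ V[F] := fun e => b.ne (le_antisymm e (VV_le F))

theorem exists_iv : ∃ i ∈ F, Iv F (i * i) := let ⟨_, _, _, _, _, _, _, _, l, _⟩ := b.data; l.exists_iv

theorem invW (h : Iv F t) (hw : w ∈ W[F]) : t * w * t⁻¹ = w⁻¹ := let ⟨_, _, _, _, _, _, _, _, l, _⟩ := b.data; l.invW b.toBk h hw

theorem uniq (h : Iv F t) (h' : Iv F s) : t⁻¹ * s ∈ Q[F] := let ⟨_, _, _, _, _, _, _, _, l, _⟩ := b.data; l.uniq h h'

theorem comm_t (h : Iv F t) (hg : g ∈ N[F]) : ⁅g, t⁆ ∈ Q[F] := by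
  have := b.uniq (h.conj hg) h
  rwa [commutatorElement_def, inv_of_sq h.sq, ← inv_of_sq (h.conj hg).sq]

theorem invQ (h : Iv F t) (hy : y ∈ Q[F]) : t * y * t⁻¹ * y ∈ V[F] := let ⟨_, _, _, _, _, _, _, _, _, m, k⟩ := b.data; m.sc.inv3 k h hy

theorem kerQ (hg : g ∈ F) (h : ∀ y ∈ Q[F], ⁅g, y⁆ ∈ V[F]) : g ∈ Q[F] :=
  let ⟨_, _, _, _, _, _, _, _, _, m, k⟩ := b.data; (k g hg).1 ((m.sc.rho_eq_one irF_sl hg).2 h)

theorem der : ⁅Q[F], Q[F]⁆ = Z[F] := let ⟨_, _, _, _, _, _, _, _, _, m, _⟩ := b.data; m.exc.der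

theorem pw (hy : y ∈ Q[F]) : y ^ 3 ∈ Z[F] := let ⟨_, _, _, _, _, _, _, _, _, m, _⟩ := b.data; m.exc.pw y hy

theorem qY (hg : g ∈ BB 3 T) : ⁅⁅Q[F], zpowers g⁆, zpowers g⁆ ≤ V[F] := let ⟨_, _, _, _, _, _, _, _, _, m, _⟩ := b.data; m.qY g hg

theorem cZ' (h1 : ⁅Q[F], X⁆ ≤ V[F]) : X ≤ C[Z[F]] := let ⟨_, _, _, _, _, _, _, _, _, m, _⟩ := b.data; m.exc.cZ h1

theorem QP : ⁅Q[F], pCore 3 G⁆ ≤ V[F] :=
  let ⟨_, _, _, _, _, _, _, _, _, m, _⟩ := b.data; m.exc.comm_pgrp (isPGroup_pCore 3 G) (b.nQ b.ct) le_normalizer_of_normal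

theorem VWZ : V[F] ≤ W[F] ⊔ Z[F] := b.VV_le b.hc

theorem z0 (hw : w ∈ W[F]) (h : w ∈ C[F]) : w = 1 :=
  let ⟨_, _, k⟩ := b.exists_iv; eq_one_of_inv ((conj_eq_of_comm (h _ k.mem)).symm.trans (b.invW k hw)) (VV_pow (WE_le F hw))

theorem memW (h : Iv F t) (hv : v ∈ OZ 3 (pCore 3 G)) (e : t * v * t⁻¹ = v⁻¹) : v ∈ W[F] :=
  mem_of_sq3 (by
    have := (b.comm_V b.ct).le (commutator_mem_commutator hv h.mem)
    rwa [commutatorElement_def, mul_assoc v, mul_assoc v, ← conj_inv, e, inv_inv] at this) ((ea_OZ 3 _).2 v hv)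

theorem normW (h : Iv F t) (e : s * t = t * s) : s ∈ N[W[F]] := mem_normalizer_of_cj_le (cj_le_iff_forall.2 fun w hw =>
  b.memW h (Normal.conj_mem inferInstance _ (b.WE_le_V b.ct hw) s) (by
    rw [conj_inv, ← b.invW h hw, ← mul_assoc, ← mul_assoc, ← e, mul_assoc (s * t * w), ← _root_.mul_inv_rev, ← e]; group))

theorem cinv (h1 : s ∈ N[F]) (h2 : s * s = 1) (h3 : s ∈ C[W[F]]) : s ∈ C[F] := b.cc b.ct (mem_pResidualOf ⟨h1, h3⟩ (cop_of_sq h2))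

theorem BZ : BB 3 T ≤ C[Z[F]] := fun g hg => by
  obtain ⟨K, _, _, _, ρ, ψ, ρ', ψ', l, m, k⟩ := b.data
  by_cases q : 3 < Nat.card K
  · obtain ⟨A, hA⟩ := m.lin g hg
    obtain ⟨f, hf, rfl⟩ := (m.sc.rng A).1 (by rw [commutator_SL2 q]; trivial)
    have n := mul_mem (le_normalizer (inv_mem hf)) (b.nB hg)
    rw [← mul_inv_cancel_left f g]
    refine mul_mem (le_centralizer_iff.1 inf_le_right hf) (b.cZ' (commutator_zpowers_right_le (norm_VV F n) fun y hy =>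
      comm_inv_mem ((m.sc.eq_iff (conj_mem_of_mem_normalizer (norm_QE F n) hy) hy).1 ?_)) (mem_zpowers _))
    rw [show f⁻¹ * g * y * (f⁻¹ * g)⁻¹ = f⁻¹ * (g * y * g⁻¹) * f⁻¹⁻¹ by group, m.sc.act _ (inv_mem hf) _
      (conj_mem_of_mem_normalizer (norm_QE F (b.nB hg)) hy), hA y hy, m.sc.rho_inv hf, inv_smul_smul]
  have c3 : Nat.card Z[F] = 3 := m.exc.card.trans ((small_sl (p := 3) q).resolve_left fun e => absurd e.1 (by decide)).2.1
  have h0 := inf_centralizer_ne_bot ((pgrp_VV F).to_le inf_le_left) (b.ct.syl.pg.to_le (BB_le 3 T)) (b.nB.trans (norm_ZE F))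
    fun e => by have := (congrArg (fun X : Subgroup G => Nat.card X) e).symm.trans c3; simp at this
  have := eq_of_le_of_card_ge (inf_le_left : Z[F] ⊓ C[BB 3 T] ≤ _) (c3.le.trans
    (((Nat.dvd_prime Nat.prime_three).1 ((card_dvd_of_le inf_le_left).trans c3.dvd)).resolve_left (mt (eq_bot_of_card_eq _) h0)).ge)
  exact le_centralizer_iff.1 (this.ge.trans inf_le_right) hg

theorem beta (hs : s ∈ N[Q[F]]) (h2 : s * s = 1) (hz : s ∈ C[Z[F]]) : Pm F s := by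
  obtain ⟨K, _, _, _, ρ, ψ, ρ', ψ', l, m, k⟩ := b.data
  have σ := m.sc
  have cs := fun {y} (hy : y ∈ Q[F]) => conj_mem_of_mem_normalizer hs hy
  have cZ : ∀ {x y}, x ∈ Q[F] → y ∈ Q[F] → ⁅x, y⁆ ∈ Z[F] := fun hx hy => b.der.le (commutator_mem_commutator hx hy)
  have cV : ∀ {v y}, v ∈ V[F] → y ∈ Q[F] → v * y = y * v := fun hv hy => (OZ_le_centralizer 3 _ hv _ hy).symm
  have surj : ∀ x ∈ Q[F], x ∉ V[F] → Nat.card K ≤ C[zpowers x].relIndex Q[F] := fun x hx n => by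
    let f : Q[F] →* G := MonoidHom.mk' (fun y => ⁅x, (y : G)⁆) fun a c => by
      rw [Subgroup.coe_mul, comm_mul_right', conj_eq_of_comm ((cZ hx c.2).2 _ (pCoreOf_le 3 F a.2))]
    have e : f.ker = C[zpowers x].subgroupOf Q[F] := Subgroup.ext fun y =>
      commutatorElement_eq_one_iff_mul_comm.trans mem_cent_zp.symm
    rw [relIndex, ← e, index_ker, ← m.exc.card, ← b.der]
    refine card_le_of_le (commutator_le.2 fun a ha c hc => ?_)
    by_cases h0 : a ∈ V[F]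
    · rw [commutatorElement_eq_one_iff_mul_comm.2 (cV h0 hc)]; exact one_mem _
    obtain ⟨A, hA, e⟩ := comm_trans (mt (σ.ker a ha).1 h0) (mt (σ.ker x hx).1 n)
    obtain ⟨g, hg, rfl⟩ := (σ.rng A).1 hA
    rw [← σ.act g hg a ha, σ.eq_iff (σ.conj_mem hg ha) hx] at e
    refine ⟨⟨_, σ.conj_mem hg hc⟩, ?_⟩
    rw [← conj_eq_of_comm ((cZ ha hc).2 g hg), conj_comm, show g * a * g⁻¹ = g * a * g⁻¹ * x⁻¹ * x by group,
      comm_mul_left (cV e hx) (cV e (σ.conj_mem hg hc))]; rfl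
  have idx : V[F].relIndex Q[F] = Nat.card K ^ 2 := by
    rw [relIndex, show V[F].subgroupOf Q[F] = σ.homU.ker from Subgroup.ext fun u => (σ.ker u u.2).symm, index_ker,
      MonoidHom.range_eq_top.2 fun v => let ⟨u, hu, e⟩ := (σ.im v.toAdd).1 trivial; ⟨⟨u, hu⟩, congrArg Multiplicative.ofAdd e⟩,
      Subgroup.card_top, Nat.card_congr Multiplicative.toAdd, Nat.card_fun]; simp
  have nV : Q[F] ≤ N[V[F]] := σ.nmU
  have cm : ∀ {y}, y ∈ Q[F] → ⁅s, y⁆ ∈ Q[F] := fun hy => mul_mem (cs hy) (inv_mem hy)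
  have pm : ∀ a ∈ Q[F] ⊓ cK V[F] s, ∀ y ∈ Q[F], a * ⁅s, y⁆ = ⁅s, y⁆ * a := fun a ha y hy => by
    have e := conj_eq_of_comm (hz _ (cZ ha.1 (cm hy))).symm
    rw [conj_comm, conj_comm_inv h2, show s * a * s⁻¹ = ⁅s, a⁆ * a by rw [commutatorElement_def]; group,
      comm_mul_left (cV (comm_inv_mem ha.2.2) ha.1) (cV (comm_inv_mem ha.2.2) (inv_mem (cm hy)))] at e
    have h1 := comm_mul_right' a ⁅s, y⁆ ⁅s, y⁆⁻¹
    rw [mul_inv_cancel, commutatorElement_one_right, e, conj_eq_of_comm ((cZ ha.1 (cm hy)).2 _ (pCoreOf_le 3 F (cm hy)))] at h1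
    exact commutatorElement_eq_one_iff_mul_comm.1 (eq_one_of_inv (eq_inv_of_mul_eq_one_left h1.symm) (VV_pow (cZ ha.1 (cm hy)).1))
  have pl : ∀ y ∈ Q[F], ψ' (s * y * s⁻¹) = ψ' y → y ∈ Q[F] ⊓ cK V[F] s := fun y hy e =>
    ⟨hy, nV hy, comm_inv_mem ((σ.eq_iff (cs hy) hy).1 e)⟩
  have ss : ∀ y, s * (s * y * s⁻¹) * s⁻¹ = y := fun y => by
    rw [← mul_assoc, ← mul_assoc, h2, mul_assoc, ← _root_.mul_inv_rev, h2]; simp
  by_contra n
  obtain ⟨⟨y, hy, n1⟩, y', hy', n2⟩ : (∃ y ∈ Q[F], ⁅s, y⁆ ∉ V[F]) ∧ ∃ y ∈ Q[F], s * y * s⁻¹ * y ∉ V[F] := by simpa [Pm] using n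
  have ha := pl _ (mul_mem (cs hy') hy') (by
    rw [← conj_mul, ss, σ.add _ hy' _ (cs hy'), σ.add _ (cs hy') _ hy', add_comm])
  generalize s * y' * s⁻¹ * y' = a at ha n2
  have i1 := (surj a ha.1 n2).trans ((relIndex_le_of_mul (B := Q[F] ⊓ cK V[F] s) fun u hu => ⟨u * ⁅s, u⁆⁻¹, pl _ (mul_mem hu (inv_mem (cm hu))) (by
    rw [← conj_mul, ← conj_inv, conj_comm_inv h2, inv_inv, σ.add _ (cs hu) _ (cm hu), σ.add _ hu _ (inv_mem (cm hu)), σ.inv (cm hu),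
      commutatorElement_def, σ.add _ (cs hu) _ (inv_mem hu), σ.inv hu]
    ext j
    simp only [Pi.add_apply, Pi.neg_apply]
    linear_combination (ψ' (s * u * s⁻¹) j - ψ' u j) * (CharP.cast_eq_zero K 3 : (3 : K) = 0)), ⁅s, u⁆, mem_cent_zp.2 (pm a ha u hu),
    inv_mul_cancel_right _ _⟩).trans (relIndex_le_of_le_right (L := Q[F] ⊓ C[zpowers ⁅s, y⁆])
      (fun u hu => ⟨hu.1, mem_cent_zp.2 (pm u hu y hy).symm⟩) (relIndex_ne _ _)))
  have i2 := surj _ (cm hy) n1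
  have i3 := relIndex_mul_relIndex V[F] (Q[F] ⊓ C[zpowers ⁅s, y⁆]) Q[F] (fun v hv => ⟨VV_le F hv, mem_cent_zp.2 (cV hv (cm hy)).symm⟩) inf_le_left
  have i4 := relIndex_inf_mul_relIndex V[F] C[zpowers a] (Q[F] ⊓ C[zpowers ⁅s, y⁆])
  rw [inf_eq_left.2 (show V[F] ≤ C[zpowers a] from fun v hv => mem_cent_zp.2 (cV hv ha.1).symm)] at i4
  rw [inf_relIndex_left, idx, ← i4] at i3
  have i5 : V[F].relIndex (C[zpowers a] ⊓ (Q[F] ⊓ C[zpowers ⁅s, y⁆])) ≠ 1 := fun e =>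
    n2 (relIndex_eq_one.1 e ⟨mem_cent_zp.2 rfl, ha.1, mem_cent_zp.2 (pm a ha y hy).symm⟩)
  have i6 := relIndex_ne V[F] (C[zpowers a] ⊓ (Q[F] ⊓ C[zpowers ⁅s, y⁆]))
  have i7 := Nat.mul_le_mul (Nat.mul_le_mul ((Nat.two_le_iff _).2 ⟨i6, i5⟩) i1) i2
  have i8 : 0 < Nat.card K := Nat.card_pos
  rw [i3] at i7
  nlinarith

theorem pm_comm (hs : s ∈ N[Q[F]]) (h : Pm F s) (hg : g ∈ F) (hy : y ∈ Q[F]) : ⁅⁅g, s⁆, y⁆ ∈ V[F] := by
  obtain ⟨K, _, _, _, ρ, ψ, ρ', ψ', l, m, k⟩ := b.data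
  have σ := m.sc
  have cs := fun {y} (hy : y ∈ Q[F]) => conj_mem_of_mem_normalizer hs hy
  obtain ⟨ε, hε⟩ : ∃ ε : ℤ, ∀ y ∈ Q[F], ψ' (s * y * s⁻¹) = ε • ψ' y := h.elim
    (fun h => ⟨1, fun y hy => by rw [one_smul]; exact (σ.eq_iff (cs hy) hy).2 (h y hy)⟩) fun h => ⟨-1, fun y hy => by
      rw [neg_smul, one_smul, ← σ.inv hy, σ.eq_iff (cs hy) (inv_mem hy), inv_inv]; exact h y hy⟩
  have hy' := conj_mem_of_mem_normalizer (inv_mem hs) hy
  have h1 := σ.conj_mem (inv_mem hg) hy'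
  have e : ⁅g, s⁆ * y * ⁅g, s⁆⁻¹ = g * (s * (g⁻¹ * (s⁻¹ * y * s⁻¹⁻¹) * g⁻¹⁻¹) * s⁻¹) * g⁻¹ := by rw [commutatorElement_def]; group
  refine (σ.eq_iff (e ▸ σ.conj_mem hg (cs h1)) hy).1 ?_
  rw [e, σ.act g hg _ (cs h1), hε _ h1, σ.act _ (inv_mem hg) _ hy', σ.rho_inv hg, smul_comm, smul_inv_smul, ← hε _ hy']
  congr 1; group

theorem pm_le (hs : s ∈ N[F]) (h : Pm F s) : ⁅F, zpowers s⁆ ≤ Q[F] := commutator_zpowers_right_le (norm_QE F hs) fun g hg =>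
  b.kerQ (commutator_le_left_of_le_normalizer (zpowers_le.2 hs) (commutator_mem_commutator hg (mem_zpowers s)))
    fun _ => b.pm_comm (norm_QE F hs) h hg

theorem gam (hs : s ∈ N[F]) (h2 : s * s = 1) (h : ⁅F, zpowers s⁆ ≤ Q[F]) : s ∈ C[W[F]] ∨ ∀ w ∈ W[F], s * w * s⁻¹ = w⁻¹ := by
  have nK : F ≤ N[zpowers s ⊔ Q[F]] := le_normalizer_of_commutator_le' (commutator_sup_left_le
    (le_sup_left.trans le_normalizer) (le_sup_right.trans le_normalizer) ((commutator_comm _ _).le.trans (le_sup_of_le_right h))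
    (le_sup_of_le_right (commutator_le_left_of_le_normalizer (le_normalizer_pCoreOf 3 F))))
  by_cases e : W[F] ⊓ C[zpowers s ⊔ Q[F]] ≤ C[F]
  · refine .inr fun w hw => ?_
    have h1 := conj_mem_of_mem_normalizer (norm_WE (p := 3) F hs) hw
    refine eq_inv_of_mul_eq_one_left (b.z0 (mul_mem h1 hw) (e ⟨mul_mem h1 hw, le_centralizer_iff.1 (sup_le (zpowers_le.2 ?_)
      (b.core_cent.trans (centralizer_le (zpowers_le.2 (mul_mem h1 hw))))) (mem_zpowers _)⟩))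
    rw [mem_cent_zp, ← mul_assoc s, ← mul_assoc s, ← mul_assoc s, h2, VV_comm F (WE_le F hw) _ (WE_le F h1), mul_assoc,
      inv_mul_cancel_right, inv_of_sq h2, one_mul, mul_assoc]
  · exact .inl (le_centralizer_iff.1 ((b.WE_le_of (inf_le_left.trans (WE_le F)) (le_normalizer_inf (le_normalizer.trans (norm_WE F))
      (le_normalizer_centralizer nK)) e).trans (inf_le_right.trans (centralizer_anti le_sup_left))) (mem_zpowers s))

end XB

end Cfsg.Agent.PLocal.PU
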