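import Cfsg.Agent.PLocal.Ct7
import Cfsg.Agent.Frob.Zipper

/-! Exceptional blocks outside `M` in a minimal counterexample (`XM`): they are subnormal in proper overgroups (`XM.sbr`), and
`O₃(F) ≤ O₃(G)` (`XM.core_le`). -/

namespace Cfsg.Agent.PLocal.PU
open Subgroup Cfsg Cfsg.Agent.Loc Cfsg.Agent.PLocal.FF Cfsg.Agent.Classical Matrix
open scoped commutatorElement MatrixGroups
local notation:max "C[" H "]" => Subgroup.centralizer (SetLike.coe H)
local notation:max "N[" H "]" => Subgroup.normalizer (SetLike.coe H)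
local notation:max "Q[" H "]" => pCoreOf 3 H
local notation:max "W[" H "]" => WE 3 H
local notation:max "V[" H "]" => VV 3 H
local notation:max "Z[" H "]" => ZE 3 H

universe u
variable {G : Type u} [Group G] [Finite G] {B T T' M E F F' H D X : Subgroup G} {s t g h v w x y z : G}
local notation "P₀" => pCore 3 G
local notation "V₀" => OZ 3 (pCore 3 G)

theorem MC.delta {p : ℕ} [Fact p.Prime] (c : MC p T M) (k : Blk p T F) (n : ¬ F ≤ M) [D.Normal] (h1 : D ≤ C[WE p F]) (h2 : D ≤ N[F]) :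
    D ≤ pCore p G := by
  refine le_pCore inferInstance (isPGroup_of_pResidualOf_eq_bot ?_)
  haveI : (pResidualOf p D).Normal := normal_of_top_le_normalizer (le_normalizer_of_normal.trans (normalizer_le_normalizer_pResidualOf p _))
  have h1 := k.cent_of c.ct (pResidualOf_pResidualOf p _) ((pResidualOf_le p D).trans h2) ((pResidualOf_le p D).trans h1)
  have h2 : pResidualOf p D ≤ C[pResidualOf p D] := (pResidualOf_le_pResidual p _).trans (c.res_le fun e => n ((le_centralizer_iff.1 h1).trans e))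
  have h3 := cent_of_res (E := pResidualOf p D) (F := pCore p G) (pResidualOf_pResidualOf p _) (isPGroup_pCore p G).to_inf_left
    (inf_le_right.trans h2) (commutator_le_inf _ _)
  exact (pResidualOf_pResidualOf p _).symm.trans (pResidualOf_eq_bot_of_isPGroup ((isPGroup_pCore p G).to_le (h3.trans c.ct.chp)))

theorem two_comm (h : (Nat.card H).Coprime 2) : ∀ X ≤ H, IsPGroup 2 X → IsMulCommutative X := fun X l hX => ⟨⟨fun a b => by
  have k : ∀ a : X, a = 1 := fun a => Subtype.ext (eq_one_of_cop (h.coprime_dvd_left (H.orderOf_dvd_natCard (l a.2))) hX a.2)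
  rw [k a, k b]⟩⟩

/-- An exceptional block outside `M`. -/
structure XM (T M F : Subgroup G) : Prop extends XB T F where
  mc : MC 3 T M
  nle : ¬ F ≤ M

namespace XM
variable (b : XM T M F)
include b

theorem sbr (hH : H ≠ ⊤) (hP : P₀ ≤ H) (hB : BB 3 T ≤ H) (hF : F ≤ H) : SBr 3 H F := by
  obtain ⟨F', s, l⟩ := b.mc.relB b.mc.ih hH hP hB hF b.toBk b.nle
  obtain ⟨S, hS, e⟩ := b.mc.toCM.syl hB
  have k := b.mc.blk (e ▸ (s.blk hS).toBk) fun e => b.nle (l.trans e)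
  obtain ⟨K, _, _, _, ρ, ψ, -, -, l₁, -⟩ := b.data
  obtain ⟨i, -, t⟩ := b.exists_iv
  rcases k.ty with ⟨K', _, _, ρ', ψ', l'⟩ | ⟨_, _, _, l'⟩
  · obtain rfl := Blk.eq_of_lin b.toBk k.toBk b.ct l₁ l' l ((b.comm_V b.ct).ge.trans ((commutator_mono le_rfl l).trans (k.comm_V b.ct).le))
      fun u hu => ⟨u, b.memW t (k.WE_le_V b.ct hu) (l'.invW k.toBk ⟨l t.mem, t.sq, t.ne⟩ hu), 1, one_mem _, mul_one u⟩
    exact s
  · exact absurd l'.p2 (by decide)

theorem nrm (hH : H ≠ ⊤) (hP : P₀ ≤ H) (hB : BB 3 T ≤ H) (hF : F ≤ H) (hW : H ≤ N[W[F]]) : H ≤ N[F] := fun g hg =>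
  mem_normalizer_iff_cj.2 (((b.sbr hH hP hB hF).pair hg).resolve_right fun e => b.hc'
    ((cj_eq_of_mem_normalizer (hW hg)).ge.trans ((cj_mono g (WE_le' F)).trans e)))

theorem nW (h : N[W[F]] ≠ ⊤) : N[W[F]] ≤ N[F] :=
  b.nrm h ((b.nQ b.ct).trans (norm_WE F)) (b.nB.trans (norm_WE F)) (le_normalizer.trans (norm_WE F)) le_rfl

theorem delta [D.Normal] (h1 : D ≤ C[W[F]]) (h2 : D ≤ N[F]) : D ≤ P₀ := b.mc.delta b.toBlk b.nle h1 h2

end XM

/-- An exceptional block whose `3`-core is not in `O₃(G)`. -/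
structure Bad (T F : Subgroup G) : Prop extends XB T F where
  hb : ⁅P₀, F⁆ ≤ W[F]
  cv : C[V₀] ≤ P₀
  nw : N[W[F]] ≤ N[F]
  nq : ¬ Q[F] ≤ P₀

theorem XM.bad (b : XM T M F) (n : ¬ Q[F] ≤ P₀) : Bad T F := by
  have hb : ⁅P₀, F⁆ ≤ W[F] := (b.comm_comm (isPGroup_pCore 3 G) le_normalizer_of_normal).ge.trans (commutator_mono
    ((b.irrY (b.comm_Q b.ct) (le_normalizer_commutator le_normalizer_of_normal le_normalizer)).resolve_right fun e => n
      (b.cQ.ge.trans ((commutator_mono e le_rfl).trans (commutator_sup_left_le le_normalizer_of_normal le_normalizer_of_normal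
        ((commutator_mono (commutator_le_left _ _) le_rfl).trans (commutator_le_left _ _)) ((b.WE_le_V b.ct).trans (OZ_le 3 _)))))) le_rfl)
  have cw := b.cw_norm b.ct hb
  have cv := centralizer_anti (b.WE_le_V b.ct)
  refine ⟨b.toXB, hb, b.delta cv (cv.trans cw), b.nW fun e => ?_, n⟩
  haveI := normal_of_top_le_normalizer e.ge
  exact n (b.core_cent.trans (b.delta le_rfl cw))

namespace Bad
variable (b : Bad T F)
include b

theorem conj (g : G) : Bad (cj g T) (cj g F) :=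
  ⟨b.toXB.conj g, by rw [← cj_WE, ← cj_eq_of_normal g P₀, ← cj_commutator]; exact cj_mono g b.hb, b.cv,
    by rw [← cj_WE, ← cj_normalizer, ← cj_normalizer]; exact cj_mono g b.nw, by
      rw [← cj_pCoreOf, ← cj_eq_of_normal g P₀, cj_le_cj_iff]; exact b.nq⟩

theorem ZP : Z[F] ≤ C[P₀] := by
  have a : ⁅⁅P₀, Q[F]⁆, Q[F]⁆ ≤ ⊥ := commutator_le_of_le_centralizer (((commutator_mono le_rfl (pCoreOf_le 3 F)).trans b.hb).trans
    (le_centralizer_iff.1 b.core_cent)) _
  exact commutator_eq_bot_iff_le_centralizer.1 (le_bot_iff.1 (b.der ▸ three_subgroups (le_normalizer_bot _) (le_normalizer_bot _)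
    (le_normalizer_bot _) (by rwa [commutator_comm Q[F]]) a))

theorem ZV : Z[F] ≤ V₀ := le_OZ' (b.ZP.trans b.ct.chp) b.ZP fun _ h => VV_pow h.1

theorem VV0 : V[F] ≤ V₀ := b.VWZ.trans (sup_le (b.WE_le_V b.ct) b.ZV)

theorem ti (hx : x ∈ Q[F]) (n : x ∉ V[F]) : V₀ ⊓ C[zpowers x] = V₀ ⊓ C[Q[F]] := by
  refine le_antisymm (fun v hv => ⟨hv.1, le_centralizer_iff.1 (?_ : _ ≤ C[zpowers v]) (mem_zpowers v)⟩)
    (inf_le_inf_left _ (centralizer_anti (zpowers_le.2 hx)))
  refine ((b.irrY (I := Q[F] ⊓ C[zpowers v]) inf_le_left (le_normalizer_of_cj_le fun f hf => cj_le_iff_forall.2 fun y hy =>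
    have m := conj_mem_of_mem_normalizer (le_normalizer_pCoreOf 3 F hf) hy.1
    ⟨m, mem_cent_zp.2 ?_⟩)).resolve_left fun e => n (e ⟨hx, mem_cent_zp.2 (mem_cent_zp.1 hv.2).symm⟩)).trans (sup_le inf_le_right
      (b.VV0.trans ((OZ_le 3 _).trans ((le_centralizer_OZ 3 _).trans (centralizer_anti (zpowers_le.2 hv.1))))))
  have e := b.core_cent m _ ((b.comm_V b.ct).le (commutator_mem_commutator hv.1 hf))
  calc _ = ⁅v, f⁆ * (f * (v * y) * f⁻¹) := by rw [commutatorElement_def]; group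
    _ = ⁅v, f⁆ * (f * y * f⁻¹) * (f * v * f⁻¹) := by rw [mem_cent_zp.1 hy.2]; group
    _ = _ := by
      rw [e, mul_assoc, show f * v * f⁻¹ = ⁅v, f⁆⁻¹ * v by rw [commutatorElement_def]; group, mul_inv_cancel_left]

theorem fin (b' : Bad T' F') (ht : Iv F t) (hs : Iv F' s) (e : s * t = t * s) (hc : Nat.card W[F'] ≤ Nat.card W[F])
    (h : ⁅F, zpowers s⁆ ≤ Q[F]) : W[F] = W[F'] ∨ F ≤ C[F'] := by
  have n := b.nw (b.normW ht e)
  refine (b.gam n hs.sq h).symm.imp (fun i => eq_of_le_of_card_ge (fun w hw => b'.memW hs (b.WE_le_V b.ct hw) (i w hw)) hc) fun c => ?_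
  have n' : F ≤ N[W[F']] := fun f hf => b'.normW hs (b.cinv n hs.sq c f hf)
  refine b'.cent_of b'.ct b.res (n'.trans b'.nw) (commutator_eq_bot_iff'.1 (eq_bot_iff.2 (commutator_le.2 fun w hw f hf => ?_)))
  have m := (b.comm_V b.ct).le (commutator_mem_commutator (b'.WE_le_V b'.ct hw) hf)
  exact eq_one_of_inv ((conj_eq_of_comm (c _ m).symm).symm.trans (b'.invW hs (commutator_le_left_of_le_normalizer n'
    (commutator_mem_commutator hw hf)))) (VV_pow (WE_le F m))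

theorem pair (m : XM T M F) (ht : Iv F t) (e : h * t * h⁻¹ * t = t * (h * t * h⁻¹)) : cj h F = F ∨ cj h F ≤ C[F] := by
  have b' := b.conj h
  have hs := ht.cj h
  have cW : Nat.card W[cj h F] = Nat.card W[F] := by rw [← cj_WE, card_cj]
  have fn : W[F] = W[cj h F] ∨ F ≤ C[cj h F] → cj h F = F ∨ cj h F ≤ C[F] :=
    Or.imp (fun e => cj_eq_of_mem_normalizer (b.nw (mem_normalizer_iff_cj.2 ((cj_WE h F).trans e.symm)))) le_centralizer_iff.1
  have hV : cj h (V₀ ⊓ C[Q[F]]) = V₀ ⊓ C[Q[cj h F]] := by rw [cj_inf, cj_eq_of_normal, cj_centralizer, cj_pCoreOf]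
  generalize h * t * h⁻¹ = s at e hs
  have n := b.nw (b.normW ht e)
  have n' := b'.nw (b'.normW hs e.symm)
  by_cases c : s ∈ C[Z[F]]
  · exact fn (b.fin b' ht hs e cW.le (b.pm_le n (b.beta (norm_QE F n) hs.sq c)))
  by_cases c' : s ∈ C[W[F]]
  · exact fn (b.fin b' ht hs e cW.le (commutator_le_of_le_centralizer' (zpowers_le.2 (b.cinv n hs.sq c')) _))
  have ex : ∀ {U : Subgroup G}, U ≤ V₀ → s ∈ N[U] → s ∉ C[U] → ∃ y ∈ U ⊓ W[cj h F], y ≠ 1 := fun l a c => by
    obtain ⟨z, hz, e⟩ : ∃ z ∈ _, ⁅z, s⁆ ≠ 1 := by simpa [mem_cent_iff] using c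
    have k : ⁅s, z⁆ ∈ _ := mul_mem (conj_mem_of_mem_normalizer a hz) (inv_mem hz)
    exact ⟨_, ⟨k, b'.memW hs (l k) (conj_comm_inv hs.sq z)⟩, fun f => e (by rw [← commutatorElement_inv, f, inv_one])⟩
  obtain ⟨y, hy, y1⟩ := ex b.ZV (norm_ZE F n) c
  obtain ⟨d, hd, d1⟩ := ex (b.WE_le_V b.ct) (norm_WE F n) c'
  have cz : ∀ {X : Subgroup G}, y ∈ C[X] → X ≤ C[zpowers y] := fun h => le_centralizer_iff.1 (zpowers_le.2 h)
  have sb := m.sbr (H := C[zpowers y]) (fun e => y1 (b'.z0 hy.2 (le_centralizer_iff.1 (le_top.trans e.ge) (mem_zpowers y))))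
    (cz (b.ZP hy.1)) (cz (le_centralizer_iff.1 b.BZ hy.1)) (cz hy.1.2)
  have nF : Q[cj h F] ≤ N[F] := fun x hx => mem_norm_of_fix (sb.pair (cz (le_centralizer_iff.1 b'.core_cent hy.2) hx)) hd.1
    (mt (b.z0 hd.1) d1) (b'.core_cent hx d hd.2).symm
  by_cases o : ∀ x ∈ Q[cj h F], ⁅t, x⁆ ∈ V[cj h F]
  · exact fn ((b'.fin b hs ht e.symm cW.ge (b'.pm_le n' (.inl o))).imp Eq.symm le_centralizer_iff.1)
  obtain ⟨x, hx, o⟩ : ∃ x ∈ Q[cj h F], ⁅t, x⁆ ∉ V[cj h F] := by simpa using o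
  have e1 := b'.ti (mul_mem (conj_mem_of_mem_normalizer (norm_QE _ n') hx) (inv_mem hx)) o
  have e2 := b.ti (comm_inv_mem (b.comm_t ht (nF hx))) fun k => b'.nq ((le_centralizer_iff.1 (((le_inf le_rfl
    ((OZ_le 3 _).trans ((le_centralizer_OZ 3 _).trans (centralizer_anti (zpowers_le.2 (b.VV0 k)))))).trans e1.le).trans inf_le_right)).trans b.cv)
  have nV : N[F] ≤ N[V₀ ⊓ C[Q[F]]] := le_normalizer_inf le_normalizer_of_normal (le_normalizer_centralizer (norm_QE F))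
  refine (m.sbr (fun e => ?_) ((b.nQ b.ct).trans nV) (b.nB.trans nV) (le_normalizer.trans nV)).pair
    (mem_normalizer_iff_cj.2 (hV.trans (e1.symm.trans e2)))
  haveI := normal_of_top_le_normalizer e.ge
  have l : C[V₀ ⊓ C[Q[F]]] ≤ C[W[F]] := centralizer_anti (le_inf (b.WE_le_V b.ct) (le_centralizer_iff.1 b.core_cent))
  exact b.nq ((le_centralizer_iff.1 inf_le_right).trans (m.delta l (l.trans ((centralizer_le_normalizer _).trans b.nw))))

theorem false (m : XM T M F) : False := by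
  refine b.nq (Frob.le_pCore_of_forall_conj fun g => ?_)
  change IsPGroup 3 (Q[F] ⊔ cj g Q[F] : Subgroup G)
  have b' := b.conj g
  obtain ⟨i, -, ht⟩ := b.exists_iv
  generalize i * i = t at ht
  set H := F ⊔ cj g F ⊔ P₀ with hH
  have FH : F ≤ H := le_sup_of_le_left le_sup_left
  suffices ∃ K : Subgroup G, IsPGroup 3 K ∧ H ≤ N[K] ∧ Q[F] ≤ K by
    obtain ⟨K, h1, h2, h3⟩ := this
    exact (h1.to_sup_of_normal_left' ((isPGroup_pCoreOf 3 F).map _) ((cj_mono g (pCoreOf_le 3 F)).trans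
      ((le_sup_of_le_left le_sup_right).trans h2))).to_le (sup_le_sup_right h3 _)
  by_cases o : ∃ h ∈ H, cj h F ≤ C[F]
  · obtain ⟨h, hh, o⟩ := o
    have b₂ := b.conj h
    have WV := b.WE_le_V b.ct
    have WV' := b'.WE_le_V b'.ct
    have ab : IsMulCommutative V₀ := (ea_OZ 3 _).1
    have k : H ≤ commKer (W[F] ⊔ W[cj g F]) V₀ := by
      have a : ∀ {X : Subgroup G}, ⁅V₀, X⁆ ≤ W[F] ⊔ W[cj g F] → X ≤ commKer (W[F] ⊔ W[cj g F]) V₀ := fun e => le_commKer_iff.2
        ⟨le_normalizer_of_commutator_le' ((commutator_mono (sup_le WV WV') le_rfl).trans e), (commutator_comm _ _).le.trans e⟩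
      exact sup_le (sup_le (a ((b.comm_V b.ct).le.trans le_sup_left)) (a ((b'.comm_V b'.ct).le.trans le_sup_right)))
        (a (commutator_le_of_le_centralizer (OZ_le_centralizer 3 _) _))
    rw [le_commKer_iff] at k
    have l : W[cj h F] ≤ W[F] ⊔ W[cj g F] := (b₂.comm_V b₂.ct).ge.trans ((commutator_comm _ _).le.trans
      ((commutator_mono (cj_le_of_mem hh FH) le_rfl).trans k.2))
    have e : W[F] ⊔ W[cj h F] = W[F] ⊔ W[cj g F] := eq_of_le_of_card_ge (sup_le le_sup_left l) (by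
      have a1 := card_sup_mul_of_comm ab WV WV'
      have a2 := card_sup_mul_of_comm ab WV (b₂.WE_le_V b₂.ct)
      rw [show W[F] ⊓ W[cj h F] = ⊥ from eq_bot_iff.2 fun w hw => b.z0 hw.1 (o (WE_le' _ hw.2)), card_bot, mul_one, ← cj_WE h, card_cj] at a2
      rw [cj_WE] at a2
      rw [a2, ← card_cj g W[F], cj_WE] at *
      exact a1 ▸ Nat.le_mul_of_pos_right _ Nat.card_pos)
    refine ⟨H ⊓ C[W[F] ⊔ W[cj g F]], b.ct.pgrp fun x hx hc => ?_, le_normalizer_inf le_normalizer (le_normalizer_centralizer k.1),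
      le_inf ((pCoreOf_le 3 F).trans FH) (e ▸ le_centralizer_iff.1 (sup_le (le_centralizer_iff.1 b.core_cent)
        ((WE_le' _).trans (o.trans (centralizer_anti (pCoreOf_le 3 F))))))⟩
    rw [eq_one_of_cop hc (isPGroup_pCore 3 G) (b.cv (cent_step hc ((ea_isPGroup (ea_OZ 3 _)).to_le (sup_le WV WV')) hx.2
      ((commutator_comm _ _).le.trans ((commutator_mono (zpowers_le.2 hx.1) le_rfl).trans k.2))))]
    exact one_mem _
  obtain ⟨N, -, n1, n2, n3⟩ := zs (FH ht.mem) ht.sq ht.ne fun h hh e => by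
    have s := ht.conj (mem_normalizer_iff_cj.2 ((b.pair m ht e.eq.symm).resolve_right fun k => o ⟨h, hh, k⟩))
    have := eq_one_of_cop (cop_of_sq (by
      rw [inv_of_sq ht.sq, mul_assoc, ← mul_assoc (h * t * h⁻¹), ← e.eq, mul_assoc t, s.sq, mul_one, ht.sq])) (isPGroup_pCoreOf 3 F) (b.uniq ht s)
    exact (inv_mul_eq_one.1 this).symm
  have o3 : (Nat.card P₀).Coprime 2 := let ⟨k, hk⟩ := (isPGroup_pCore 3 G).exists_card_eq; hk ▸ Nat.Coprime.pow_left k (by norm_num)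
  have st := stableOn_of_abelian_two (p := 3) (H := N ⊔ P₀) (by decide) (two_comm (Solv.coprime_card_sup (le_sup_right.trans n1) n2 o3))
    (ea_isPGroup (ea_OZ 3 P₀)) le_normalizer_of_normal
  refine ⟨Q[N ⊔ P₀], isPGroup_pCoreOf 3 _, (le_normalizer_sup n1 le_normalizer_of_normal).trans (norm_QE _),
    (st.le (fun y hy => mem_of_sq (by decide) (isPGroup_pCoreOf 3 F) hy ?_) (le_bot_iff.1 (commutator_le_of_le_centralizer
      (((commutator_mono le_rfl (pCoreOf_le 3 F)).trans (b.comm_V b.ct).le).trans (le_centralizer_iff.1 b.core_cent)) _))).trans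
      (opMod_le_pCoreOf ((isPGroup_pCore 3 G).to_le (inf_le_right.trans b.cv)))⟩
  have := mul_mem_sup (inv_mem (n3 y (FH (pCoreOf_le 3 F hy)))) (OZ_le 3 _ (b.VV0 (b.invQ ht hy)))
  rwa [commutatorElement_def, show (t * y * t⁻¹ * y⁻¹)⁻¹ * (t * y * t⁻¹ * y) = y * y by group] at this

end Bad

theorem XM.core_le (b : XM T M F) : Q[F] ≤ P₀ := by_contra fun n => (b.bad n).false b

end Cfsg.Agent.PLocal.PU
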