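import Cfsg.Agent.PLocal.Ct8
import Cfsg.Agent.PF.P14c

/-! The local `C*(G,T)`-theorem for `p = 3`: `C_G(W_F)` normalizes an exceptional block outside `M` (`XM.cw`), good roots exist
(`MX.rx'`), and `ThA` holds for every prime (`ih_all`, `thA_all`). -/

namespace Cfsg.Agent.PLocal.PU
open Subgroup Cfsg Cfsg.Agent.Loc Cfsg.Agent.PLocal.FF Cfsg.Agent.Classical Matrix
open Cfsg.Agent.BG (AbV)
open scoped commutatorElement MatrixGroups
local notation:max "C[" H "]" => Subgroup.centralizer (SetLike.coe H)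
local notation:max "N[" H "]" => Subgroup.normalizer (SetLike.coe H)
local notation:max "Q[" H "]" => pCoreOf 3 H
local notation:max "W[" H "]" => WE 3 H
local notation:max "V[" H "]" => VV 3 H
local notation:max "Z[" H "]" => ZE 3 H

universe u
variable {G : Type u} [Group G] [Finite G] {B T T' M E F F' H D X A L S : Subgroup G} {s t g h v w x y z : G}
local notation "P₀" => pCore 3 G
local notation "V₀" => OZ 3 (pCore 3 G)
local notation:max "R[" H "]" => normalClosure (SetLike.coe (pCoreOf 3 H))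

theorem exists_ab {P : Subgroup G} [P.Normal] [D.Normal] (hs : Group.IsSolvable D) (h : ¬ D ≤ P) :
    ∃ A ≤ D, A.Normal ∧ ¬ A ≤ P ∧ ⁅A, A⁆ ≤ P := by
  obtain ⟨A, ⟨h1, h2, h3⟩, m⟩ := exists_minimal_of_wellFoundedLT (fun A : Subgroup G => A ≤ D ∧ A.Normal ∧ ¬ A ≤ P) ⟨D, le_rfl, inferInstance, h⟩
  refine ⟨A, h1, h2, h3, by_contra fun n => (Group.IsSolvable.commutator_lt_of_ne_bot (H := A.subgroupOf D) fun e => h3 ?_).not_ge ?_⟩
  · rw [← map_subgroupOf_eq_of_le h1, e, Subgroup.map_bot]; exact bot_le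
  · rw [← map_le_map_iff_of_injective D.subtype_injective, map_commutator, map_subgroupOf_eq_of_le h1]
    exact m ⟨(commutator_le_left _ _).trans h1, inferInstance, n⟩ (commutator_le_left _ _)

theorem XB.memQ (b : XB T F) (ht : Iv F t) (hy : y ∈ P₀) (h : t * y * t⁻¹ * y ∈ V[F]) : y ∈ Q[F] := mem_of_sq (by decide) (isPGroup_pCore 3 G) hy (by
  have := mul_mem (b.comm_Q b.ct (commutator_mem_commutator hy ht.mem)) (VV_le F h)
  rwa [← commutatorElement_inv, commutatorElement_def, show (t * y * t⁻¹ * y⁻¹)⁻¹ * (t * y * t⁻¹ * y) = y * y by group] at this)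

namespace XM
variable (b : XM T M F) [W[F].Normal]
include b

theorem top [D.Normal] (h1 : D ≤ C[W[F]]) (h2 : ¬ D ≤ P₀) : D ⊔ P₀ ⊔ F ⊔ BB 3 T = ⊤ := by_contra fun e => h2 (b.delta h1
  ((le_sup_of_le_left (le_sup_of_le_left le_sup_left)).trans (b.nrm e (le_sup_of_le_left (le_sup_of_le_left le_sup_right)) le_sup_right
    (le_sup_of_le_left le_sup_right) le_normalizer_of_normal)))

theorem ZV : Z[F] ≤ V₀ := le_OZ' ((ZE_le F).trans b.core_le) (le_centralizer_iff.1 (b.cZ' b.QP)) fun _ h => VV_pow h.1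

theorem VV0 : V[F] ≤ V₀ := b.VWZ.trans (sup_le (b.WE_le_V b.ct) b.ZV)

theorem cV (h1 : x ∈ C[W[F]]) (hc : (orderOf x).Coprime 3) : x ∈ C[V₀] :=
  cent_step hc ((pgrp_VV F).to_le (WE_le F)) h1 ((commutator_comm _ _).le.trans ((commutator_mono (zpowers_le.2
    (pResidualOf_le_pResidual 3 ⊤ (mem_pResidualOf (mem_top _) hc))) le_rfl).trans (b.mc.res_comm b.nle
      ((commutator_comm _ _).le.trans (b.comm_V b.ct).le))))

theorem ts (ht : Iv F t) (g : G) : t * (g * t * g⁻¹) ∈ C[W[F]] := fun w hw => by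
  have e := b.invW ht (Normal.conj_mem inferInstance _ hw g⁻¹)
  have e' := b.invW ht (inv_mem hw)
  symm
  calc _ = t * (g * (t * (g⁻¹ * w * g⁻¹⁻¹) * t⁻¹) * g⁻¹) * (g * t * g⁻¹) := by group
    _ = t * w⁻¹ * t⁻¹ * (t * (g * t * g⁻¹)) := by rw [e]; group
    _ = _ := by rw [e', inv_inv]

variable (hn : ¬ C[W[F]] ≤ N[F])
include hn

theorem nV : V[F].Normal := by
  haveI : (pResidualOf 3 C[W[F]]).Normal := normal_of_top_le_normalizer (le_normalizer_of_normal.trans (normalizer_le_normalizer_pResidualOf 3 _))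
  have e := b.top (pResidualOf_le 3 C[W[F]]) fun e => hn ((le_pCore inferInstance (isPGroup_of_pResidualOf_eq_bot
    ((pResidualOf_pResidualOf 3 _).symm.trans (pResidualOf_eq_bot_of_isPGroup ((isPGroup_pCore 3 G).to_le e))))).trans (b.nQ b.ct))
  exact normal_of_top_le_normalizer (e.ge.trans (sup_le (sup_le (sup_le ((pResidualOf_le_iff.2 fun x hx hc => b.cV hx hc).trans
    ((centralizer_anti b.VV0).trans (centralizer_le_normalizer _))) ((b.nQ b.ct).trans (norm_VV F))) (le_normalizer.trans (norm_VV F)))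
      (b.nB.trans (norm_VV F))))

omit hn in
theorem RP : R[F] ≤ P₀ := normalClosure_le_normal b.core_le

theorem ker : C[W[F]] ⊓ commKer V[F] R[F] ≤ P₀ := by
  haveI := b.nV hn
  refine le_pCore inferInstance (b.ct.pgrp fun x hx hc => cent_step hc ((isPGroup_pCore 3 G).to_le b.RP) (cent_step hc (pgrp_VV F)
    (centralizer_anti b.VV0 (b.cV hx.1 hc)) ((commutator_comm _ _).le.trans (le_commKer_iff.1 (zpowers_le.2 hx.2)).2))
    ((commutator_comm _ _).le.trans ((commutator_mono (zpowers_le.2 (pResidualOf_le_pResidual 3 ⊤ (mem_pResidualOf (mem_top _) hc))) le_rfl).trans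
      (b.mc.res_comm b.nle ((commutator_comm _ _).le.trans ((b.comm_Q b.ct).trans le_normalClosure))))))

theorem central (ht : Iv F t) (hc : ∀ g : G, ⁅g, t⁆ ∈ P₀) : False := by
  haveI := b.nV hn
  haveI : Q[F].Normal := ⟨fun y hy g => b.memQ ht (Normal.conj_mem inferInstance _ (b.core_le hy) g) (by
    have := Normal.conj_mem inferInstance _ (mul_mem (comm_inv_mem (b.QP (commutator_mem_commutator (conj_mem_of_mem_normalizer
      (le_normalizer_pCoreOf 3 F ht.mem) hy) (hc g⁻¹)))) (b.invQ ht hy)) g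
    convert this using 1
    simp only [commutatorElement_def]; group)⟩
  have k := b.ker hn
  rw [normalClosure_eq_self] at k
  have nF : ∀ {X : Subgroup G}, ⁅F, X⁆ ≤ P₀ → X ≤ N[F] := fun e => by
    rw [← res_sup b.res (isPGroup_pCore 3 G) (b.nQ b.ct)]
    exact (le_normalizer_of_commutator_le' (commutator_sup_left_le (le_normalizer_of_le le_sup_left) (le_normalizer_of_le le_sup_right)
      (e.trans le_sup_right) ((commutator_le_left _ _).trans le_sup_right))).trans (normalizer_le_normalizer_pResidualOf 3 _)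
  have n1 : ∀ g, g ∈ N[V[F]] := fun g => le_normalizer_of_normal (mem_top g)
  have od : ∀ z ∈ C[W[F]], z * z = 1 → z = 1 := fun z hz h2 => by
    have nQ : z ∈ N[Q[F]] := le_normalizer_of_normal (mem_top z)
    have pm := b.beta nQ h2 (centralizer_anti b.ZV (b.cV hz (cop_of_sq h2)))
    have := b.cinv (nF (commutator_zpowers_right_le (le_normalizer_of_normal (mem_top z)) fun f hf => k
      ⟨Subgroup.mul_mem _ (Normal.conj_mem inferInstance _ hz f) (inv_mem hz), n1 _, fun _ => b.pm_comm nQ pm hf⟩) (mem_zpowers z)) h2 hz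
    exact eq_one_of_cop (cop_of_sq h2) (isPGroup_pCore 3 G) (k ⟨hz, n1 _, fun y hy => by
      rw [commutatorElement_eq_one_iff_mul_comm.2 (this y (pCoreOf_le 3 F hy)).symm]; exact one_mem _⟩)
  have oc : (Nat.card C[W[F]]).Coprime 2 := (Nat.coprime_comm.1 ((Nat.Prime.coprime_iff_not_dvd Nat.prime_two).2 fun d => by
    obtain ⟨z, hz⟩ := exists_prime_orderOf_dvd_card' 2 d
    have := od z z.2 (by rw [← sq, ← hz]; exact congrArg Subtype.val (pow_orderOf_eq_one z))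
    rw [show z = 1 from Subtype.ext this, orderOf_one] at hz; omega))
  set f := QuotientGroup.mk' V[F]
  haveI : (Q[F].map f).Normal := Normal.map inferInstance f (QuotientGroup.mk'_surjective _)
  haveI : (C[W[F]].map f).Normal := Normal.map inferInstance f (QuotientGroup.mk'_surjective _)
  have pB := (b.ct.syl.pg.to_le (BB_le 3 T)).map f
  have st := stableOn_of_abelian_two (p := 3) (H := C[W[F]].map f ⊔ (BB 3 T).map f) (by decide) (two_comm (Solv.coprime_card_sup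
    le_normalizer_of_normal (oc.coprime_dvd_left (card_map_dvd _ _)) (let ⟨k, hk⟩ := pB.exists_card_eq; hk ▸ Nat.Coprime.pow_left k (by norm_num))))
    ((isPGroup_pCoreOf 3 F).map f) le_normalizer_of_normal
  set O := opMod 3 (C[W[F]].map f ⊔ (BB 3 T).map f) C[Q[F].map f]
  have nO : C[W[F]].map f ≤ N[O] := le_sup_left.trans (le_normalizer_opMod le_normalizer le_normalizer_of_normal)
  have l : C[W[F]] ⊓ O.comap f ≤ P₀ := (le_pCoreOf inf_le_left (le_normalizer_inf le_normalizer ((map_le_iff_le_comap.1 nO).trans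
    (le_normalizer_comap f))) fun x => by
      obtain ⟨i, hi⟩ := exists_pow_mem_of_mem_opMod le_normalizer_of_normal x.2.2
      obtain ⟨j, hj⟩ := exists_pow_of_isPGroup (isPGroup_pCore 3 G) (k ⟨pow_mem x.2.1 (3 ^ i), n1 _, fun y hy =>
        commute_mk.1 (by rw [map_pow]; exact (hi _ ⟨y, hy, rfl⟩).symm)⟩)
      exact ⟨i + j, Subtype.ext (by rw [pow_add, pow_mul]; exact hj)⟩).trans (pCoreOf_le_pCore_of_normal _)
  have l2 : BB 3 T ≤ commKer P₀ C[W[F]] := fun g hg => ⟨le_normalizer_of_normal (mem_top g), fun c hc => by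
    have s := st (f g) (mem_sup_right ⟨g, hg, rfl⟩) (by
      rw [← MonoidHom.map_zpowers, ← map_commutator]; exact commutator_le_iff_map_mk.1 (b.qY hg))
    refine l (mem_inf.2 ⟨Subgroup.mul_mem _ (Normal.conj_mem inferInstance _ hc g) (inv_mem hc), ?_⟩)
    rw [mem_comap, map_commutatorElement]
    exact comm_inv_mem (mul_mem (conj_mem_of_mem_normalizer (nO ⟨c, hc, rfl⟩) s) (inv_mem s))⟩
  exact hn (nF (le_commKer_iff.1 (b.cB.ge.trans ((commutator_mono le_rfl l2).trans (commutator_le_right _ _)))).2)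

theorem noncentral : False := by
  haveI := b.nV hn
  obtain ⟨i, hi, ht⟩ := b.exists_iv
  set t := i * i with hti
  have n0 : ∀ g, g ∈ N[P₀] := fun g => le_normalizer_of_normal (mem_top g)
  have NH : N[F] ≤ cK P₀ t := fun g hg => ⟨n0 g, b.core_le (b.comm_t ht hg)⟩
  have HT : cK P₀ t ≠ ⊤ := fun e => b.central hn ht fun g => (e.ge (mem_top g)).2
  have HN := b.nrm HT ((b.nQ b.ct).trans NH) (b.nB.trans NH) (le_normalizer.trans NH) le_normalizer_of_normal
  obtain ⟨N, -, n1, n2, n3⟩ := zs (mem_top t) ht.sq ht.ne fun g _ e => by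
    have b' := b.toXB.conj g
    have hs := ht.cj g
    have c := b.ts ht g
    have eV : V[cj g F] = V[F] := (map_VV (MulAut.conj g).injective F).symm.trans (cj_eq_of_normal g _)
    generalize g * t * g⁻¹ = s at *
    have h2 : t * s * (t * s) = 1 := by rw [mul_assoc, ← mul_assoc s, ← e.eq, mul_assoc t, hs.sq, mul_one, ht.sq]
    have cF := b.cinv (HN ⟨n0 _, by
      rw [commutatorElement_eq_one_iff_mul_comm.2 (by rw [mul_assoc, ← e.eq])]; exact one_mem _⟩) h2 c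
    have eQ : Q[F] = Q[cj g F] := eq_of_le_of_card_ge (fun y hy => b'.memQ hs (b.core_le hy) (by
      have := b.invQ ht hy
      rw [eV, show s * y * s⁻¹ = t⁻¹ * (t * s * y * (t * s)⁻¹) * t by group, conj_eq_of_comm (cF y (pCoreOf_le 3 F hy)).symm]
      rwa [inv_of_sq ht.sq] at this ⊢)) (by rw [← cj_pCoreOf, card_cj])
    have m : t * s ∈ commKer Q[F] P₀ := mul_mem ⟨le_normalizer_pCoreOf 3 F ht.mem, fun y hy => comm_inv_mem (b.comm_Q b.ct
      (commutator_mem_commutator hy ht.mem))⟩ (eQ ▸ ⟨le_normalizer_pCoreOf 3 _ hs.mem, fun y hy => comm_inv_mem (b'.comm_Q b'.ct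
      (commutator_mem_commutator hy hs.mem))⟩)
    have := eq_one_of_cop (cop_of_sq h2) (isPGroup_pCore 3 G) (b.ct.chp (cent_step (cop_of_sq h2) (isPGroup_pCoreOf 3 F)
      (centralizer_anti (pCoreOf_le 3 F) cF) ((commutator_comm _ _).le.trans (le_commKer_iff.1 (zpowers_le.2 m)).2)))
    rw [← inv_of_sq ht.sq, inv_mul_eq_one] at this
    exact this.symm
  haveI := normal_of_top_le_normalizer n1
  have ct : ∀ g, ⁅t, g⁆ ∈ C[W[F]] := fun g => by
    have := b.ts ht g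
    rwa [commutatorElement_def, inv_of_sq ht.sq, mul_assoc, mul_assoc, ← mul_assoc g]
  obtain ⟨A, a1, a2, a3, a4⟩ := exists_ab (P := P₀) (D := N ⊓ C[W[F]]) (PF.Feit_Thompson (Nat.coprime_two_right.1
    (n2.coprime_dvd_left (card_dvd_of_le inf_le_left)))) fun e => HT (top_unique fun g _ => ⟨n0 g, comm_inv_mem (e ⟨n3 g trivial, ct g⟩)⟩)
  set f := QuotientGroup.mk' V[F]
  haveI : (Subgroup.map f P₀).Normal := Normal.map inferInstance f (QuotientGroup.mk'_surjective _)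
  haveI : (OZ 3 (Subgroup.map f P₀)).Normal := normal_of_top_le_normalizer (le_normalizer_of_normal.trans (normalizer_le_normalizer_OZ 3 _))
  obtain ⟨ρ, σ⟩ := exists_setup (ea_OZ 3 (Subgroup.map f P₀))
  set φ := (QuotientGroup.mk' C[OZ 3 (Subgroup.map f P₀)]).comp f with hφ
  have act : ∀ g, Act ρ (f g) (φ g) := fun g => σ.act _
  have kP : ∀ g ∈ P₀, φ g = 1 := fun g hg => ((act g).eq_one_iff σ.inj).2 (le_centralizer_OZ 3 _ ⟨g, hg, rfl⟩)
  have ab : A.map φ ≤ C[A.map φ] := by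
    rintro _ ⟨x, hx, rfl⟩ _ ⟨y, hy, rfl⟩
    exact commutatorElement_eq_one_iff_mul_comm.1 ((map_commutatorElement φ y x).symm.trans (kP _ (a4 (commutator_mem_commutator hy hx))))
  have key := lemE (ρ := ρ) (I := ivS (φ t) (A.map φ) ab) (i := φ i) (map_mul φ i i).symm (by rw [← map_mul, ht.sq, map_one])
    (fun x hx y hy => ab hy.1 x hx.1) (fun x hx => ⟨by
      obtain ⟨y, hy, rfl⟩ := hx.1; exact ⟨_, a2.conj_mem y hy i, by simp⟩, by rw [conj_inv, ← hx.2, hti, map_mul]; group⟩)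
    (fun _ hx => hx.2) (fun u hu => ?_) (fun _ ⟨⟨x, hx, e⟩, _⟩ => e ▸ (n2.coprime_dvd_left (N.orderOf_dvd_natCard (a1 hx).1)).coprime_dvd_left
      (orderOf_map_dvd φ x)) fun _ ⟨⟨x, hx, e⟩, _⟩ => ?_
  · refine HT (top_unique ((b.top (a1.trans inf_le_right) a3).ge.trans (sup_le (sup_le (sup_le (fun a ha => ⟨n0 a, comm_inv_mem
      (b.ker hn ⟨ct a, le_normalizer_of_normal (mem_top _), fun y hy => commute_mk.1 ?_⟩)⟩) ((b.nQ b.ct).trans NH)) (le_normalizer.trans NH)) (b.nB.trans NH))))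
    have m : R[F] ≤ (OZ 3 (Subgroup.map f P₀)).comap f := normalClosure_le_normal fun y hy => le_OZ' (X := Q[F].map f) (map_mono b.core_le)
      (commutator_eq_bot_iff_le_centralizer.1 (commutator_le_iff_map_mk.1 b.QP)) (by
        rintro _ ⟨y, hy, rfl⟩; rw [← map_pow]; exact (QuotientGroup.eq_one_iff _).2 (b.pw hy).1) ⟨y, hy, rfl⟩
    exact (act _).fix.1 (key (φ ⁅t, a⁆) ⟨⟨_, mul_mem (a2.conj_mem a ha t) (inv_mem ha), rfl⟩, by
      rw [← map_inv, ← map_inv, ← map_mul, ← map_mul, conj_comm_inv ht.sq]⟩ (AbV.mk _ _ (m hy)))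
  · obtain ⟨y, hy, e⟩ := OZ_le 3 _ u.val_mem
    have e1 := (act i).dl u
    have e2 : ρ (φ t) (dl ρ (φ i) u) = dl ρ (φ i) u := by rw [← dl_comm (by rw [← map_mul, ← map_mul, hti, mul_assoc]), hu]
    have e3 := (QuotientGroup.eq_one_iff _).2 (b.invQ ht (comm_inv_mem (b.comm_Q b.ct (commutator_mem_commutator hy hi))))
    rw [(act t).fix, e1, ← e, ← map_commutatorElement] at e2
    change f _ = 1 at e3
    rw [map_mul, map_mul, map_mul, e2, map_inv, mul_inv_cancel_right] at e3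
    rw [← dl_eq_zero, ← AbV.val_inj, e1, ← e, ← map_commutatorElement]
    exact eq_one_of_inv (eq_inv_of_mul_eq_one_left e3) (by
      rw [← map_pow]; exact (QuotientGroup.eq_one_iff _).2 (b.pw (comm_inv_mem (b.comm_Q b.ct (commutator_mem_commutator hy hi)))).1)
  · have h0 := (orderOf_pos x).ne'
    have p1 : IsPGroup 3 (zpowers (x ^ ordCompl[3] (orderOf x))) := isPGroup_zpowers_of_pow (k := (orderOf x).factorization 3) (by
      rw [← pow_mul, mul_comm, Nat.ordProj_mul_ordCompl_eq_self, pow_orderOf_eq_one])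
    have l : zpowers (x ^ ordCompl[3] (orderOf x)) ⊔ ⁅A, A⁆ ≤ A := sup_le (zpowers_le.2 (pow_mem hx _)) (commutator_le_left _ _)
    have := kP _ ((le_pCoreOf l (le_normalizer_of_commutator_le' ((commutator_mono l le_rfl).trans le_sup_right))
      (p1.to_sup_of_normal_right ((isPGroup_pCore 3 G).to_le a4))).trans (pCoreOf_le_pCore_of_normal A) (mem_sup_left (mem_zpowers _)))
    rw [map_pow, e] at this
    exact ((Nat.coprime_ordCompl Nat.prime_three h0).symm).coprime_dvd_left (orderOf_dvd_of_pow_eq_one this)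

end XM

theorem XM.cw (b : XM T M F) : C[W[F]] ≤ N[F] := by
  by_cases e : N[W[F]] = ⊤
  · haveI := normal_of_top_le_normalizer e.ge
    exact by_contra b.noncentral
  · exact (centralizer_le_normalizer _).trans (b.nW e)

theorem MC.xf3 (c : MC 3 T M) : XF 3 T M := fun F b n => by
  have k := c.blk b n
  by_cases e : Q[F] = V[F]
  · obtain ⟨e1, e2⟩ := k.comm_W c.ct e
    exact ⟨e1.le.trans ((k.WE_le_V c.ct).trans (OZ_le 3 _)), k.cw_norm c.ct e2⟩
  · have x : XM T M F := ⟨⟨k, c.ct, e⟩, c, n⟩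
    exact ⟨x.core_le, x.cw⟩

variable {p : ℕ} [Fact p.Prime]

theorem PUr.roots (h : PUr p L S M) (hd : NCr L S) : ∃ R X, IsElementaryAbelian p R ∧ R ≤ S ∧ ¬ R ≤ pCoreOf p L ∧
    (∀ s ∈ S, ∃ w ∈ R, ∃ y ∈ pCoreOf p L, w * y = s) ∧ IsElementaryAbelian p X ∧ X ≤ S ∧
    X ≤ ⁅pCoreOf p L, pResidualOf p L⁆ ⊔ VV p L ∧ (∀ A ≤ S, C[X].relIndex A ≤ C[A].relIndex X) ∧
    (∀ s ∈ S ⊓ C[X], ∃ v ∈ VV p L, ∃ y ∈ C[R], v * y = s) := by
  have hd' := hd.nc h.syl.le
  have r := h.pu.nc_r1 hd'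
  have hf := L.subtype_injective
  have m := map_subgroupOf_eq_of_le h.syl.le
  have k : ∀ {W : Subgroup L}, (∀ s ∈ S.subgroupOf L, ∃ w ∈ W, ∃ y ∈ pCore p L, w * y = s) → ¬ W.map L.subtype ≤ pCoreOf p L ∧
      ∀ s ∈ S, ∃ w ∈ W.map L.subtype, ∃ y ∈ pCoreOf p L, w * y = s := fun d =>
    ⟨fun e => r.ne fun s hs => let ⟨_, hw, _, hy, e'⟩ := d s hs; e' ▸ mul_mem ((map_le_map_iff_of_injective hf).1 e hw) hy, fun s hs =>
      let ⟨v, hv, y, hy, e⟩ := d ⟨s, h.syl.le hs⟩ hs; ⟨v, ⟨v, hv, rfl⟩, y, ⟨y, hy, rfl⟩, congrArg Subtype.val e⟩⟩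
  rcases h.pu.dich hd' with ⟨W, b⟩ | b
  · refine ⟨W.map L.subtype, ⊥, ea_map _ b.ea, m ▸ map_mono b.le, (k b.dec).1, (k b.dec).2, ea_of_le b.ea bot_le |> fun e => by
      simpa using ea_map L.subtype e, bot_le, bot_le, fun A _ => by rw [centralizer_bot', relIndex_top_left, relIndex_bot_right], fun s hs => ?_⟩
    obtain ⟨v, hv, y, hy, e⟩ := b.dec' ⟨s, h.syl.le hs.1⟩ hs.1
    exact ⟨v, (map_OZ' hf _).le ⟨v, hv, rfl⟩, y, (mem_cent_map hf).2 hy, congrArg Subtype.val e⟩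
  obtain ⟨_, X, Y, X₂, _, _, H, t⟩ := b.t2 r
  obtain ⟨-, F, _, _, φ, ψ, e, hN⟩ := h.pu.t2 (h.pu.nc_Z hd') (h.pu.nc_J hd') t
  haveI : CharP F p := let ⟨n, hn⟩ := h.pu.syl.pg.index ((pCore p L).subgroupOf _); charP_of_card (e.trans hn)
  haveI := t.nmH
  have cc : ∀ X : Subgroup L, C[X.map L.subtype].comap L.subtype = C[X] := fun X => Subgroup.ext fun x => mem_cent_map hf
  refine ⟨X₂.map L.subtype, X.map L.subtype, ea_map _ t.h.ea2, m ▸ map_mono t.h.le2, (k t.h.dec).1, (k t.h.dec).2, ea_map _ t.h.ea,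
    m ▸ map_mono (t.h.le.trans r.PS), (map_mono (t.XH.trans ((hN.sup_eq (map_res_sl hN.sφ) le_rfl).trans (sup_le_sup_right
      (commutator_mono t.HP' le_rfl) _)))).trans (by rw [Subgroup.map_sup, map_commutator, map_OZ' hf]; rfl), fun A hA => ?_, fun s hs => ?_⟩
  · rw [← map_subgroupOf_eq_of_le (hA.trans h.syl.le), ← relIndex_comap, ← relIndex_comap, cc, cc]
    have l : A.subgroupOf L ≤ S.subgroupOf L := comap_mono hA
    generalize A.subgroupOf L = A at l
    by_cases o : A ≤ C[X]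
    · rw [relIndex_eq_one.2 o]; exact Nat.pos_of_ne_zero (relIndex_ne _ _)
    obtain ⟨a, ha, n⟩ := SetLike.not_le_iff_exists.1 o
    refine (relIndex_le_of_le_right l (relIndex_ne _ _)).trans ((relIndex_le_of_mul t.h.dec1).trans ((relIndex_le_of_le_left
      (r.cP.trans (centralizer_anti t.h.le)) (relIndex_ne _ _)).trans (t.idx.1.ge.trans (t.idx_le.trans ?_))))
    rw [← inf_relIndex_left, ← inf_relIndex_left X C[A]]
    exact relIndex_le_of_le_left (fun x hx => ⟨hx.1, t.h.XZ ⟨hx.1, (t.h.ti a (l ha) x hx.1 (mem_cent_iff.1 hx.2 a ha)).resolve_left n⟩⟩)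
      (relIndex_ne _ _)
  · obtain ⟨v, hv, y, hy, e⟩ := t.h.dec2 ⟨s, h.syl.le hs.1⟩ ⟨hs.1, (mem_cent_map hf).1 hs.2⟩
    exact ⟨v, (map_OZ' hf _).le ⟨v, hv, rfl⟩, y, (mem_cent_map hf).2 hy, congrArg Subtype.val e⟩

theorem MX.rx' {Γ : Type*} [Group Γ] [Finite Γ] {ρ : Representation (ZMod p) Γ (AbV (ea_OZ p (pCore p G)))} {π : G →* Γ}
    (c : MX T M ρ π) : RX p T M := fun L b => by
  obtain ⟨R, X, r1, r2, r3, r6, x1, x2, x3, x4, r4⟩ := b.pu.roots (c.ncr b.nle)
  have ce := c.cent_eq c.x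
  have XP : X ≤ pCore p G := x3.trans (sup_le ((commutator_comm _ _).le.trans (c.cent_V (c.mb b).1 (c.res_nle b) (isPGroup_pCoreOf p L)
    (b.r.PM.trans (c.nE b)) ((pResidualOf_le p L).trans b.r.nP)).2.1) fun v hv => by
      obtain ⟨w, hw, z, hz, rfl⟩ := c.V0 b v hv
      exact mul_mem (OZ_le p _ hw.1) (ce.le (centralizer_anti (c.VB.trans b.r.le) hz.2)))
  obtain ⟨A₀, h₀⟩ := eaMax_nonempty p T
  have h₀' := c.repl h₀
  have h₁ := repl_mem h₀' x1 (x2.trans (BB_le p T)) le_rfl (x4 _ ((le_J h₀').trans (JJ_le_BB p T)))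
  have VX : OZ p (pCore p G) ≤ C[X] := (OZ_le_centralizer p _).trans (centralizer_anti XP)
  have hQ := sup_le XP (inf_le_left.trans (sup_le (OZ_le p _) (inf_le_right.trans ce.le)) : _ ⊓ C[X] ≤ _) (a := X)
    (b := (OZ p (pCore p G) ⊔ (A₀ ⊓ C[OZ p (pCore p G)])) ⊓ C[X])
  have hV : OZ p (pCore p G) ≤ X ⊔ (OZ p (pCore p G) ⊔ (A₀ ⊓ C[OZ p (pCore p G)])) ⊓ C[X] := le_sup_of_le_right (le_inf le_sup_left VX)
  have hX : X ⊔ (OZ p (pCore p G) ⊔ (A₀ ⊓ C[OZ p (pCore p G)])) ⊓ C[X] ≤ C[X] := sup_le (isElementaryAbelian_iff.1 x1).1 inf_le_right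
  generalize X ⊔ (OZ p (pCore p G) ⊔ (A₀ ⊓ C[OZ p (pCore p G)])) ⊓ C[X] = A at h₁ hQ hV hX
  have AB := (le_J h₁).trans (JJ_le_BB p T)
  have k : R ⊓ C[A] ≤ R ⊓ pCoreOf p L := fun x hx => ⟨hx.1, b.r.mem_P (r2 hx.1) fun v hv => by
    obtain ⟨w, hw, z, hz, rfl⟩ := c.V0 b v hv
    rw [mul_assoc, ← hz.2 x (b.r.le (r2 hx.1)), ← mul_assoc, hx.2 w (hV hw.1), mul_assoc]⟩
  have i1 : C[R].relIndex (VV p L) = (pCoreOf p L).relIndex (BB p T) := by
    rw [← b.r.idx, ← b.r.inf_cent r2 r3, inf_relIndex_left]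
  have i2 := relIndex_le_of_mul (fun s hs => r4 s ⟨AB hs, hX hs⟩)
  refine ⟨_, b, repl_mem h₁ r1 (r2.trans (BB_le p T)) le_rfl (i2.trans (i1.le.trans ((relIndex_le_of_mul r6).trans ?_))), fun e => r3 (le_sup_left.trans e),
    fun x hx => ?_⟩
  · rw [← inf_relIndex_left, ← inf_relIndex_left R C[A]]; exact relIndex_le_of_le_left k (relIndex_ne _ _)
  obtain ⟨r, hr, a, ha, rfl⟩ := (mem_sup_of_le_normalizer_right ((le_centralizer_iff.1 inf_le_right).trans (centralizer_le_normalizer _))).1 hx.1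
  have rP := (Subgroup.mul_mem_cancel_right _ (b.Q_le ⟨hQ ha.1, b.r.le (AB ha.1)⟩)).1 hx.2
  refine mul_mem (ce.le fun v hv => ?_) (hQ ha.1)
  obtain ⟨w, hw, d, hd, rfl⟩ := r4 v ⟨c.VB hv, VX hv⟩
  rw [mul_assoc, ← hd r hr, ← mul_assoc, b.r.cV rP w hw, mul_assoc]

theorem ih_all (n : ℕ) : IH.{u} p n := by
  by_cases hp : p = 3
  · subst hp; exact thA_of (fun _ _ _ _ _ m => ⟨m.xf3, fun _ _ x => x.rx'⟩) n
  · exact ih_ne hp n

theorem thA_all : ThA p G := ih_all _ G (Nat.lt_succ_self _)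

end Cfsg.Agent.PLocal.PU
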