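import Cfsg.Agent.PLocal.PU9

/-! Pushing up for families (Glauberman–Niles), global form: `glob` (two characteristic subgroups of an abstract
`p`-group, one normal in every rank-one situation) and the case reduction `master`. -/

set_option autoImplicit false

namespace Cfsg.Agent.PLocal.PU

open Subgroup Cfsg Cfsg.Agent.Loc Cfsg.Agent.PLocal.FF
open Cfsg.Agent.BG (Phi)
open scoped commutatorElement

local notation:max "C[" H "]" => Subgroup.centralizer (SetLike.coe H)
local notation:max "N[" H "]" => Subgroup.normalizer (SetLike.coe H)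

universe u
variable {p : ℕ}

theorem exists_emb {S G : Type*} [Group S] [Group G] {τ : S →* G} (hτ : Function.Injective τ) {n : ℕ} (h0 : n ≠ 0)
    (h : τ.range.index ∣ n) :
    ∃ f : G →* Equiv.Perm (S × Fin n), Function.Injective f ∧ ∀ s x, f (τ s) x = (s * x.1, x.2) := by
  obtain ⟨m, rfl⟩ := h
  have hi : Function.Injective (MonoidHom.inl G (Multiplicative (ZMod m))) := fun a b e => congrArg Prod.fst e
  have h1 : Function.Injective ((MonoidHom.inl G (Multiplicative (ZMod m))).comp τ) := hi.comp hτ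
  obtain ⟨f, hf, h2⟩ := exists_completion ((MonoidHom.inl G (Multiplicative (ZMod m))).comp τ).range
    (n := τ.range.index * m) (by
      have : ((MonoidHom.inl G (Multiplicative (ZMod m))).comp τ).range = τ.range.prod ⊥ := by
        ext ⟨x, y⟩
        simp [mem_prod, Prod.ext_iff, eq_comm (a := y)]
      rw [this, index_prod, index_bot, Nat.card_congr Multiplicative.toAdd, Nat.card_zmod]) h0
    (MonoidHom.ofInjective h1).symm
  refine ⟨f.comp (MonoidHom.inl _ _), hf.comp hi, fun s x => ?_⟩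
  have := h2 (MonoidHom.ofInjective h1 s) x
  rwa [MulEquiv.symm_apply_apply] at this

theorem map_cent {S G : Type*} [Group S] [Group G] {τ : S →* G} (hτ : Function.Injective τ) (T : Subgroup S) :
    C[T].map τ = τ.range ⊓ C[T.map τ] := by
  rw [MonoidHom.range_eq_map, ← map_inf_centralizer_of_injOn (inf_ker_of_injective hτ ⊤) le_rfl le_top, top_inf_eq]

theorem map_cent_top {S G : Type*} [Group S] [Group G] {τ : S →* G} (hτ : Function.Injective τ) :
    C[(⊤ : Subgroup S)].map τ = τ.range ⊓ C[τ.range] := by rw [map_cent hτ, ← MonoidHom.range_eq_map]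

theorem cd_iff_map {S G : Type*} [Group S] [Group G] {τ : S →* G} (hτ : Function.Injective τ) (T : Subgroup S) :
    Nat.card (T.map τ) * Nat.card (τ.range ⊓ C[T.map τ] : Subgroup G) = Nat.card T * Nat.card C[T] := by
  rw [← map_cent hτ, card_map_of_injective hτ, card_map_of_injective hτ]

/-- A rank-one pushing-up situation over the abstract group `S`. -/
structure Wit (p : ℕ) (S : Type u) [Group S] : Type (u + 1) where
  G : Type u
  [grp : Group G]
  [fin : Finite G]
  τ : S →* G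
  inj : Function.Injective τ
  M : Subgroup G
  pu : PU p τ.range M
  hZ : ¬ τ.range ⊓ C[τ.range] ≤ C[(⊤ : Subgroup G)]
  hJ : ¬ thompsonSubgroupAOf τ.range ≤ pCore p G

attribute [instance] Wit.grp Wit.fin

/-- The subgroups of `S` normal in the witness. -/
def Wit.typ {S : Type u} [Group S] (w : Wit p S) : Set (Subgroup S) := {T | (T.map w.τ).Normal}

variable [Fact p.Prime]

theorem glob {S : Type u} [Group S] [Finite S] (hS : IsPGroup p S) (hcd : IsCentralizerLarge (⊤ : Subgroup S))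
    (hZ : ∀ z ∈ C[(⊤ : Subgroup S)], z ^ p = 1) (h0 : S0 p (⊤ : Subgroup S) ≠ ⊥) :
    ∃ X Y : Subgroup S, X ≠ ⊥ ∧ X.Characteristic ∧ Y.Characteristic ∧ X ≤ C[(⊤ : Subgroup S)] ∧
      C[(⊤ : Subgroup S)] ≤ Y ∧ Y ≤ C[Y] ∧ ∀ w : Wit p S, (X.map w.τ).Normal ∨ (Y.map w.τ).Normal := by
  classical
  haveI := Fintype.ofFinite (Set (Subgroup S))
  obtain ⟨n, hn, H⟩ : ∃ n ≠ 0, ∀ w : Wit p S, ∃ w' : Wit p S, w'.typ = w.typ ∧ w'.τ.range.index ∣ n := by
    refine ⟨∏ t : Set (Subgroup S), if h : ∃ w : Wit p S, w.typ = t then h.choose.τ.range.index else 1,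
      Finset.prod_ne_zero_iff.2 fun t _ => ?_, fun w => ?_⟩
    · split_ifs
      exacts [FiniteIndex.index_ne_zero, one_ne_zero]
    · have h : ∃ w' : Wit p S, w'.typ = w.typ := ⟨w, rfl⟩
      exact ⟨h.choose, h.choose_spec, (dvd_of_eq (by rw [dif_pos h])).trans
        (Finset.dvd_prod_of_mem _ (Finset.mem_univ w.typ))⟩
  obtain ⟨σ, hσ, hs⟩ := exists_emb (τ := MonoidHom.id S) Function.injective_id hn (by
    rw [MonoidHom.range_eq_top.2 Function.surjective_id, index_top]; exact one_dvd n)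
  have hp : IsPGroup p σ.range := hS.of_surjective _ σ.rangeRestrict_surjective
  have ht : IsPGroup p (⊤ : Subgroup S) := hS.to_subgroup ⊤
  obtain ⟨X, Y, X0, XZ, ZY, YS, YY, nX, nY, H1⟩ := fam_core (p := p) (S := σ.range)
    (𝓖 := {M | SylIn p σ.range M ∧ R1 p M σ.range (pCoreOf p M) (VV p M) ∧ Ext p M σ.range (pCoreOf p M) (VV p M)})
    ⟨fun M h => h.1, fun M h => h.2.1⟩ (fun M h => h.2.2) (fun M h g hg => by
      have h1 := h.1.conj g
      have h2 := h.2.1.conj g
      have h3 := h.2.2.map (f := (MulAut.conj g).toMonoidHom) (MulAut.conj g).injective hp h.1.le (pCoreOf_le p M)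
      rw [cj_eq_of_mem_normalizer hg] at h1
      rw [cj_eq_of_mem_normalizer hg, cj_VV, cj_pCoreOf] at h2 h3
      exact ⟨h1, h2, h3⟩) hp (fun H hH => by
      obtain ⟨T, rfl⟩ : ∃ T : Subgroup S, T.map σ = H := ⟨_, map_comap_eq_self hH⟩
      have := cd_iff_map hσ ⊤
      rw [← MonoidHom.range_eq_map] at this
      rw [cd_iff_map hσ, this, cd_eq hcd]
      exact cd_le_max T) (by
      rw [← map_cent_top hσ]
      rintro _ ⟨z, hz, rfl⟩
      rw [← map_pow, hZ z hz, map_one]) (by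
      rw [MonoidHom.range_eq_map, ← map_S0 _ ht]
      exact fun e => h0 ((map_eq_bot_iff_of_injective _ hσ).1 e))
  obtain ⟨X, rfl⟩ : ∃ T : Subgroup S, T.map σ = X := ⟨_, map_comap_eq_self (XZ.trans inf_le_left)⟩
  obtain ⟨Y, rfl⟩ : ∃ T : Subgroup S, T.map σ = Y := ⟨_, map_comap_eq_self YS⟩
  rw [← map_cent_top hσ, map_le_map_iff_of_injective hσ] at XZ ZY
  refine ⟨X, Y, fun e => X0 (by rw [e, Subgroup.map_bot]), char_of_completion hn hs nX, char_of_completion hn hs nY,
    XZ, ZY, (cent_map_iff hσ).1 YY, fun w => ?_⟩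
  obtain ⟨w', e, h1⟩ := H w
  change X ∈ w.typ ∨ Y ∈ w.typ
  rw [← e]
  obtain ⟨f, hf, h2⟩ := exists_emb w'.inj hn h1
  have e0 : f.comp w'.τ = σ := MonoidHom.ext fun s => Equiv.ext fun x => (h2 s x).trans (hs s x).symm
  have e1 : pCoreOf p ((⊤ : Subgroup w'.G).map f) = (pCore p w'.G).map f := by
    rw [← pCoreOf_top, pCoreOf_map_of_injective hf]
  have e2 : VV p ((⊤ : Subgroup w'.G).map f) = (OZ p (pCore p w'.G)).map f := by rw [VV, e1, map_OZ' hf]
  have e3 : w'.τ.range.map f = σ.range := by rw [← MonoidHom.range_comp, e0]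
  obtain ⟨-, -, -, -, -, r⟩ := w'.pu.exists_r1 w'.hZ w'.hJ
  have key : ∀ T : Subgroup S, (⊤ : Subgroup w'.G).map f ≤ N[T.map σ] → T ∈ w'.typ := fun T h =>
    normal_of_cj_le fun g => by
      rw [← map_le_map_iff_of_injective hf, map_cj, map_map T, e0, cj_eq_of_mem_normalizer (h ⟨g, trivial, rfl⟩)]
  refine (H1 _ ⟨e3 ▸ w'.pu.syl.map f, ?_, ?_⟩).imp (key X) (key Y)
  · rw [e2, e1, ← e3]; exact r.map hf
  · rw [e2, e1, ← e3]; exact (w'.pu.ext w'.hZ w'.hJ).map hf w'.pu.syl.pg le_top le_top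

theorem Wit.normal {S : Type u} [Group S] [Finite S] (w : Wit p S) (hcd : IsCentralizerLarge (⊤ : Subgroup S))
    (hZ : ∀ z ∈ C[(⊤ : Subgroup S)], z ^ p = 1) {Y U : Subgroup S} (h1 : C[(⊤ : Subgroup S)] ≤ Y)
    (h2 : (Y.map w.τ).Normal) (h3 : IsCentralizerLarge U) (h4 : U ≤ Y) (h5 : ∀ R ≤ Y, IsCentralizerLarge R → R ≤ U) :
    (C[U].map w.τ).Normal := by
  obtain ⟨-, -, -, -, -, r⟩ := w.pu.exists_r1 w.hZ w.hJ
  haveI := r.nmV
  have key : ∀ R ≤ Y.map w.τ, maxCentralizerProduct S ≤ Nat.card R * Nat.card (w.τ.range ⊓ C[R] : Subgroup w.G) →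
      R ≤ U.map w.τ := fun R hR h => by
    obtain ⟨T, rfl⟩ : ∃ T : Subgroup S, T.map w.τ = R := ⟨_, map_comap_eq_self (hR.trans (map_le_range _ _))⟩
    exact map_mono (h5 T ((map_le_map_iff_of_injective w.inj).1 hR) (cd_of_le (cd_iff_map w.inj T ▸ h)))
  have e0 : OZ p (pCore p w.G) ⊓ C[w.τ.range] = C[(⊤ : Subgroup S)].map w.τ := by
    refine le_antisymm (map_cent_top w.inj ▸ inf_le_inf_right _ r.VS) ?_
    rintro _ ⟨z, hz, rfl⟩
    have := (map_cent_top w.inj).le ⟨z, hz, rfl⟩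
    exact ⟨r.mem_V this.1 this.2 (by rw [← map_pow, hZ z hz, map_one]), this.2⟩
  have k1 : OZ p (pCore p w.G) ≤ Y.map w.τ := fun v hv => by
    obtain ⟨S', ho⟩ := r.opp
    obtain ⟨z, hz, z', hz', rfl⟩ := ho.sup v hv
    obtain ⟨x, -, rfl⟩ := ho.ex
    rw [← cj_centralizer, ← cj_eq_of_normal x (OZ p (pCore p w.G)), ← cj_inf, e0] at hz'
    exact mul_mem (map_mono h1 (e0.le hz)) ((cj_eq_of_normal x _).le (cj_mono x (map_mono h1) hz'))
  have k2 : OZ p (pCore p w.G) ≤ U.map w.τ := key _ k1 (by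
    have a1 := card_eq_mul C[w.τ.range] (OZ p (pCore p w.G))
    have a2 := card_eq_mul (pCore p w.G) w.τ.range
    have a3 : Nat.card (pCore p w.G) ≤ Nat.card (w.τ.range ⊓ C[OZ p (pCore p w.G)] : Subgroup w.G) :=
      card_le_of_le (le_inf r.PS r.cV)
    rw [← inf_relIndex_left, r.idx, e0, card_map_of_injective w.inj] at a1
    rw [inf_eq_right.2 r.PS, MonoidHom.range_eq_map, card_map_of_injective w.inj, ← MonoidHom.range_eq_map] at a2
    rw [← cd_eq hcd, a1, a2]
    exact (by ring : _ = _ * _ * Nat.card (pCore p w.G)).le.trans (Nat.mul_le_mul_left _ a3))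
  have e1 : w.τ.range ⊓ C[U.map w.τ] = pCore p w.G ⊓ C[U.map w.τ] :=
    le_antisymm (le_inf (r.le_P inf_le_left (inf_le_right.trans (centralizer_anti k2))) inf_le_right)
      (inf_le_inf_right _ r.PS)
  haveI : (U.map w.τ).Normal := normal_of_cj_le fun g => key _ ((cj_mono g (map_mono h4)).trans
    (cj_eq_of_normal g _).le) (by
      rw [← cd_eq h3, ← cd_iff_map w.inj, card_cj, e1, ← card_cj g (_ ⊓ _), cj_inf, cj_eq_of_normal, cj_centralizer]
      exact Nat.mul_le_mul_left _ (card_le_of_le (inf_le_inf_right _ r.PS)))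
  rw [map_cent w.inj, e1]
  infer_instance

section inv
variable {S T : Type*} [Group S] [Group T] [Finite S] [Finite T]

theorem max_eq_of_le {H R : Subgroup S} (h : R ≤ H) (hR : IsCentrallyLarge R) :
    maxCentralProduct H = maxCentralProduct S := by
  refine le_antisymm ?_ ?_
  · obtain ⟨Q, hQ⟩ := exists_cl H
    rw [← cl_iff_map.1 hQ, ← card_center_eq]
    exact cl_le_max _
  · have := cl_le_max (R.subgroupOf H)
    rwa [card_center_eq, ← card_map_subtype, ← card_map_subtype (_ ⊓ _), map_center_of_injective H.subtype_injective,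
      map_subgroupOf_eq_of_le h, ← card_center_eq, hR] at this

theorem max_le_of_equiv (e : S ≃* T) : maxCentralProduct S ≤ maxCentralProduct T := by
  obtain ⟨Q, hQ⟩ := exists_cl S
  have := cl_le_max (Q.map e.toMonoidHom)
  rwa [card_center_eq, ← map_center_of_injective e.injective, card_map_of_injective e.injective,
    card_map_of_injective e.injective, ← card_center_eq, hQ] at this

theorem cl_map (e : S ≃* T) {R : Subgroup S} (h : IsCentrallyLarge R) : IsCentrallyLarge (R.map e.toMonoidHom) := by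
  unfold IsCentrallyLarge at h ⊢
  rw [card_center_eq, ← map_center_of_injective e.injective, card_map_of_injective e.injective,
    card_map_of_injective e.injective, ← card_center_eq, h]
  exact le_antisymm (max_le_of_equiv e) (max_le_of_equiv e.symm)

theorem cd_map (e : S ≃* S) {R : Subgroup S} (h : IsCentralizerLarge R) : IsCentralizerLarge (R.map e.toMonoidHom) := by
  have := cd_iff_map (τ := e.toMonoidHom) e.injective R
  rw [MonoidHom.range_eq_top.2 e.surjective, top_inf_eq, cd_eq h] at this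
  exact this

omit [Finite S] [Finite T] in
theorem map_symm_map (e : S ≃* T) (R : Subgroup S) : (R.map e.toMonoidHom).map e.symm.toMonoidHom = R := by
  rw [map_map]; convert map_id R; ext; simp

theorem mcl_map (e : S ≃* T) {R : Subgroup S} (h : IsMinimalCentrallyLarge R) :
    IsMinimalCentrallyLarge (R.map e.toMonoidHom) := ⟨cl_map e h.1, fun R' h1 h2 => by
  rw [← h.2 _ ((map_mono h1).trans (map_symm_map e R).le) (cl_map e.symm h2)]
  exact (map_symm_map e.symm R').symm⟩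

theorem mclJ_map (e : S ≃* T) : (minimalCentrallyLargeJoin S).map e.toMonoidHom = minimalCentrallyLargeJoin T :=
  le_antisymm (map_le_iff_le_comap.2 (sSup_le fun R hR => map_le_iff_le_comap.1 (le_sSup (mcl_map e hR))))
    (sSup_le fun R hR => (map_symm_map e.symm R).ge.trans (map_mono (le_sSup (mcl_map e.symm hR))))

omit [Finite S] [Finite T] [Fact p.Prime] in
theorem card_oz_map (e : S ≃* T) (Q : Subgroup S) :
    Nat.card (omegaOneCenter p (Q.map e.toMonoidHom)) = Nat.card (omegaOneCenter p Q) :=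
  (congrArg (fun X : Subgroup T => Nat.card X) (map_OZ' e.injective Q)).symm.trans (card_map_of_injective e.injective)

theorem mz_eq (e : S ≃* T) : maxOmegaCenterOfMinimalCL p S = maxOmegaCenterOfMinimalCL p T :=
  congrArg sSup (Set.ext fun _ => ⟨fun ⟨_, h1, h2⟩ => ⟨_, mcl_map e h1, (card_oz_map e _).trans h2⟩,
    fun ⟨_, h1, h2⟩ => ⟨_, mcl_map e.symm h1, (card_oz_map e.symm _).trans h2⟩⟩)

theorem phiJ_map_le (hS : IsPGroup p S) (e : S ≃* T) :
    (frattiniOfMinimalCLJoin p S).map e.toMonoidHom ≤ frattiniOfMinimalCLJoin p T :=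
  map_le_iff_le_comap.2 (iSup_le fun ⟨Q, h1, h2⟩ => map_le_iff_le_comap.1 ((map_Phi _ (hS.to_subgroup Q)).le.trans
    (le_iSup_of_le (f := fun Q : {Q : Subgroup T // IsMinimalCentrallyLarge Q ∧
      Nat.card (omegaOneCenter p Q) = maxOmegaCenterOfMinimalCL p T} => (frattini Q.1).map Q.1.subtype)
      ⟨_, mcl_map e h1, (card_oz_map e _).trans (h2.trans (mz_eq e))⟩ le_rfl)))

theorem phiJ_map (hS : IsPGroup p S) (e : S ≃* T) :
    (frattiniOfMinimalCLJoin p S).map e.toMonoidHom = frattiniOfMinimalCLJoin p T :=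
  le_antisymm (phiJ_map_le hS e)
    ((map_symm_map e.symm _).ge.trans (map_mono (phiJ_map_le (hS.of_equiv e) e.symm)))

end inv

theorem char_subgroupOf {S : Type*} [Group S] {H K : Subgroup S} [h : H.Characteristic] (hK : K = ⊤) :
    (H.subgroupOf K).Characteristic := by
  subst hK
  refine characteristic_iff_comap_le.2 fun φ x hx => ?_
  exact characteristic_iff_comap_le.1 h ((topEquiv.symm.trans φ).trans topEquiv) (x := x.1) hx

theorem map_eq_map_ofInjective {S G : Type*} [Group S] [Group G] {τ : S →* G} (hτ : Function.Injective τ)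
    (T : Subgroup S) : T.map τ = (T.map (MonoidHom.ofInjective hτ).toMonoidHom).map τ.range.subtype := by
  rw [map_map]; rfl

/-- The conclusion of the Glauberman–Niles type theorems. -/
def Res (p : ℕ) {S : Type u} [Group S] (S₁ S₂ : Subgroup S) : Prop :=
  S₁ ≠ ⊥ ∧ S₂ ≠ ⊥ ∧ S₁.Characteristic ∧ S₂.Characteristic ∧ S₁ ≤ center S ∧
    S₂ ≤ C[thompsonSubgroupA S ⊓ C[thompsonSubgroupA S]] ∧
    (S₂.subgroupOf C[thompsonSubgroupA S ⊓ C[thompsonSubgroupA S]]).Characteristic ∧
    ∀ (G : Type u) [Group G] [Finite G] (τ : S →* G) (M : Subgroup G), Function.Injective τ → PU p τ.range M →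
      (S₁.map τ).Normal ∨ (S₂.map τ).Normal

variable {S : Type u} [Group S] [Finite S]

omit [Finite S] [Fact p.Prime] in
theorem map_ZJ_range {G : Type*} [Group G] {τ : S →* G} (hτ : Function.Injective τ) :
    (thompsonSubgroupA S ⊓ C[thompsonSubgroupA S]).map τ = centerThompsonAOf τ.range := by
  rw [MonoidHom.range_eq_map, ← map_ZJA (inf_ker_of_injective hτ ⊤), centerThompsonAOf, JA_top]

theorem res_of_top (hJ : C[thompsonSubgroupA S ⊓ C[thompsonSubgroupA S]] = ⊤) {S₁ S₂ : Subgroup S} (h1 : S₁ ≠ ⊥)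
    (h2 : S₂ ≠ ⊥) [c1 : S₁.Characteristic] [c2 : S₂.Characteristic] (h3 : S₁ ≤ C[(⊤ : Subgroup S)])
    (h : ∀ w : Wit p S, (S₁.map w.τ).Normal ∨ (S₂.map w.τ).Normal) : Res p S₁ S₂ := by
  refine ⟨h1, h2, c1, c2, fun x hx => mem_center_iff.2 fun g => h3 hx g trivial, hJ.ge.trans' le_top,
    char_subgroupOf hJ, fun G _ _ τ M hτ hM => ?_⟩
  by_cases hZ : τ.range ⊓ C[τ.range] ≤ C[(⊤ : Subgroup G)]
  · exact .inl (normal_of_le_cent ((map_mono h3).trans ((map_cent_top hτ).le.trans hZ)))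
  refine h ⟨G, τ, hτ, M, hM, hZ, ((hM.cases' ?_).resolve_left hZ).1⟩
  rw [← map_ZJ_range hτ, MonoidHom.range_eq_map, cent_map_iff hτ, hJ]

theorem master [Nontrivial S] (hS : IsPGroup p S) :
    (∃ S₁ S₂ : Subgroup S, Res p S₁ S₂ ∧
      maxCentralProduct S₂ = maxCentralProduct C[thompsonSubgroupA S ⊓ C[thompsonSubgroupA S]]) ∨
    (¬ IsMulCommutative S ∧ thompsonSubgroupA S = ⊤ ∧ IsElementaryAbelian p (center S) ∧ S0 p (⊤ : Subgroup S) = ⊥ ∧
      ∀ X : Subgroup S, IsMinimalCentrallyLarge X ↔ X ∈ maxAbelianSubgroups S) := by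
  haveI := JA_char S
  have ht : IsPGroup p (⊤ : Subgroup S) := hS.to_subgroup ⊤
  have hn : ∀ X : Subgroup S, X.Normal → X ≠ ⊥ → X ⊓ C[(⊤ : Subgroup S)] ≠ ⊥ := fun X _ h =>
    Loc.inf_centralizer_ne_bot ht (hS.to_subgroup X) (normalizer_eq_top X).ge h
  have hZ0 : C[(⊤ : Subgroup S)] ≠ ⊥ := by simpa using hn ⊤ inferInstance top_ne_bot
  by_cases hJ : ¬ C[thompsonSubgroupA S ⊓ C[thompsonSubgroupA S]] = ⊤
  · refine .inl ⟨⁅thompsonSubgroupA S ⊓ C[thompsonSubgroupA S], ⊤⁆ ⊓ C[(⊤ : Subgroup S)], _,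
      ⟨hn _ inferInstance fun e => hJ (top_le_iff.1 (commutator_eq_bot_iff'.1 e)), fun e => hZ0 (le_bot_iff.1
        (e.le.trans' (centralizer_anti le_top))), inferInstance, inferInstance,
        fun x hx => mem_center_iff.2 fun g => hx.2 g trivial, le_rfl, by rw [subgroupOf_self]; infer_instance,
        fun G _ _ τ M hτ hM => ?_⟩, rfl⟩
    rw [map_inf _ _ _ hτ, map_commutator, map_cent_top hτ, map_cent hτ, map_ZJ_range hτ, ← MonoidHom.range_eq_map]
    rcases hM.cases with h | h | ⟨h, r⟩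
    exacts [.inl (normal_of_le_cent (inf_le_right.trans h)), .inr h, .inl (normal_of_le_cent (r.ZJ_comm_normal h))]
  rw [not_not] at hJ
  have hm : ∀ {H R : Subgroup S}, R ≤ H → IsCentrallyLarge R →
      maxCentralProduct H = maxCentralProduct C[thompsonSubgroupA S ⊓ C[thompsonSubgroupA S]] := fun h1 h2 =>
    (max_eq_of_le h1 h2).trans (max_eq_of_le (hJ.ge.trans' le_top) h2).symm
  obtain ⟨Q, hQ⟩ := exists_mcl S
  by_cases hab : IsMulCommutative S
  · refine .inl ⟨_, ⊤, res_of_top hJ hZ0 top_ne_bot le_rfl fun w => absurd (fun x hx => w.pu.chp fun y hy => ?_) w.pu.ne,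
      hm le_top hQ.1⟩
    obtain ⟨a, rfl⟩ := hx
    obtain ⟨b, rfl⟩ := w.pu.PS hy
    rw [← map_mul, ← map_mul, hab.is_comm.comm]
  by_cases hZ : ¬ ∀ z ∈ C[(⊤ : Subgroup S)], z ^ p = 1
  · haveI : (powerClosure p 1 C[(⊤ : Subgroup S)]).Characteristic := characteristic_iff_map_eq.2 fun α => by
      rw [Gen2.pc_map, characteristic_iff_map_eq.1 inferInstance α]
    refine .inl ⟨powerClosure p 1 C[(⊤ : Subgroup S)], ⊤, res_of_top hJ (fun e => hZ fun z hz => by
      simpa using Gen2.pc_le_iff.1 e.le z hz) top_ne_bot (Gen2.pc_le _) fun w => .inl ?_, hm le_top hQ.1⟩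
    obtain ⟨-, -, -, -, -, r⟩ := w.pu.exists_r1 w.hZ w.hJ
    rw [Gen2.pc_map, map_cent_top w.inj]
    exact r.pow_normal w.hJ
  rw [not_not] at hZ
  by_cases hc : ⁅Q, Q⁆ ≠ ⊥
  · haveI := mcl_comm_char hQ
    haveI : (minimalCentrallyLargeJoin S).Characteristic := characteristic_iff_map_eq.2 mclJ_map
    refine .inl ⟨⁅Q, Q⁆ ⊓ C[(⊤ : Subgroup S)], minimalCentrallyLargeJoin S, res_of_top hJ (hn _ inferInstance hc)
      (fun e => hc (le_bot_iff.1 (e.le.trans' ((commutator_le_left_of_le_normalizer le_normalizer).trans (le_sSup hQ)))))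
      inf_le_right fun w => ?_, hm le_rfl (cl_minimalCentrallyLargeJoin S)⟩
    obtain ⟨-, -, -, -, -, r⟩ := w.pu.exists_r1 w.hZ w.hJ
    rw [map_inf _ _ _ w.inj, map_cent_top w.inj, map_eq_map_ofInjective w.inj (minimalCentrallyLargeJoin S), mclJ_map,
      map_eq_map_ofInjective w.inj ⁅Q, Q⁆, map_commutator Q, inf_comm]
    exact (r.mcl_normal w.hJ (mcl_map _ hQ)).imp_left normal_of_le_cent
  have hM := mcl_iff_maxAbelian hQ (commutator_eq_bot_iff'.1 (not_not.1 hc))
  have e : minimalCentrallyLargeJoin S = thompsonSubgroupA S := congrArg sSup (Set.ext hM)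
  have h1 := (cl_iff.1 (e ▸ cl_minimalCentrallyLargeJoin S)).1
  have h2 : thompsonSubgroupA S = ⊤ := top_le_iff.1 (hJ.ge.trans (centralizer_center_thompson_le h1 le_rfl))
  rw [h2] at h1
  by_cases h0 : S0 p (⊤ : Subgroup S) = ⊥
  · exact .inr ⟨hab, h2, ⟨inferInstance, fun z hz => hZ z fun g _ => mem_center_iff.1 hz g⟩, h0, hM⟩
  obtain ⟨X, Y, X0, _, _, XZ, ZY, YY, H⟩ := glob hS h1 hZ h0
  obtain ⟨U, ⟨hU, UY⟩, hmax⟩ := WellFounded.has_min (wellFounded_gt (α := Subgroup S))
    {U | IsCentralizerLarge U ∧ U ≤ Y} ⟨_, cd_centralizer h1, ZY⟩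
  have h5 : ∀ R ≤ Y, IsCentralizerLarge R → R ≤ U := fun R h3 h4 => by_contra fun h5 =>
    hmax (U ⊔ R) ⟨cd_sup hU h4, sup_le UY h3⟩ (left_lt_sup.2 h5)
  haveI : U.Characteristic := characteristic_iff_map_le.2 fun α =>
    h5 _ ((map_mono UY).trans (characteristic_iff_map_le.1 inferInstance α)) (cd_map α hU)
  refine .inl ⟨X, C[U], res_of_top hJ X0 (fun e => hZ0 (le_bot_iff.1 (e.le.trans' (centralizer_anti le_top)))) XZ
    fun w => (H w).imp_right fun h => w.normal h1 hZ ZY h hU UY h5, hm le_rfl (cl_iff.2 ⟨cd_centralizer hU, ?_⟩)⟩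
  rw [cd_centralizer_centralizer hU]
  exact (UY.trans YY).trans (centralizer_anti UY)

open scoped Pointwise in
theorem exc_lattice (hJ : thompsonSubgroupA S = ⊤)
    (hM : ∀ X : Subgroup S, IsMinimalCentrallyLarge X ↔ X ∈ maxAbelianSubgroups S) :
    ∀ A ∈ maxAbelianSubgroups S, ∀ B ∈ maxAbelianSubgroups S, ∀ Q : Subgroup S,
      Nat.card A ^ 2 = Nat.card S * Nat.card (center S) ∧
      Nat.card Q * Nat.card (center Q) ≤ Nat.card S * Nat.card (center S) ∧
      ((A ⊔ B : Subgroup S) : Set S) = (A : Set S) * (B : Set S) ∧ A ⊔ B = C[A ⊓ B] := fun A hA B hB Q => by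
  have e : minimalCentrallyLargeJoin S = ⊤ := (congrArg sSup (Set.ext hM)).trans hJ
  have h1 : Nat.card S * Nat.card (center S) = maxCentralProduct S := by
    have := cd_eq (cl_iff.1 (e ▸ cl_minimalCentrallyLargeJoin S)).1
    rwa [Subgroup.card_top, coe_top, centralizer_univ, ← maxCentralProduct_eq] at this
  have k : ∀ A ∈ maxAbelianSubgroups S, IsCentralizerLarge A ∧ C[A] = A := fun A hA =>
    ⟨(cl_iff.1 ((hM A).2 hA).1).1, le_antisymm (cl_iff.1 ((hM A).2 hA).1).2 (le_centralizer_self hA.1)⟩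
  refine ⟨?_, h1 ▸ cl_le_max Q, cd_coe_sup (k A hA).1 (k B hB).1, ?_⟩
  · rw [h1, maxCentralProduct_eq, ← cd_eq (k A hA).1, (k A hA).2, sq]
  · rw [cd_centralizer_inf (k A hA).1 (k B hB).1, (k A hA).2, (k B hB).2]

theorem exc_phi [Nontrivial S] (hS : IsPGroup p S) (h : S0 p (⊤ : Subgroup S) = ⊥) :
    IsElementaryAbelian p (frattini S) ∧ (p = 2 → frattini S ≤ center S) ∧
      (p = 3 → frattini S ≤ Subgroup.upperCentralSeries S 2) ∧ (3 < p → frattini S ≤ center S ∧ Monoid.exponent S = p) := by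
  have k : ∀ X : Subgroup S, ⁅X, ⊤⁆ = ⊥ → X ≤ center S := fun X h x hx =>
    mem_center_iff.2 fun g => commutator_eq_bot_iff_le_centralizer.1 h hx g trivial
  have k2 := (BG.trivg_Phi (hS.to_subgroup (frattini S))).1
  rw [S0, BG.Phi_top] at h
  split_ifs at h with h2 h3 <;> rw [sup_eq_bot_iff] at h
  · exact ⟨k2 h.2, fun _ => k _ h.1, by omega, by omega⟩
  · refine ⟨k2 h.2, by omega, fun _ x hx => Subgroup.mem_upperCentralSeries_succ_iff.2 fun y => ?_, by omega⟩
    rw [Subgroup.upperCentralSeries_one]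
    exact k _ h.1 (commutator_mem_commutator hx (mem_top y))
  · have h4 : ∀ s : S, s ^ p = 1 := fun s => by simpa using Gen2.pc_le_iff.1 h.2.le s trivial
    refine ⟨⟨⟨⟨fun a b => Subtype.ext (mem_center_iff.1 (k _ h.1 b.2) a)⟩⟩, fun a _ => h4 a⟩, by omega, by omega,
      fun _ => ⟨k _ h.1, ?_⟩⟩
    exact ((Fact.out : p.Prime).eq_one_or_self_of_dvd _ (Monoid.exponent_dvd_of_forall_pow_eq_one h4)).resolve_left
      Monoid.one_lt_exponent.ne'

omit [Finite S] in
theorem Res.sit {S₁ S₂ : Subgroup S} (h : Res p S₁ S₂) (G : Type u) [Group G] [Finite G] (P : Subgroup G) (e : S ≃* P)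
    (hP : IsPushingUpSituation p P) :
    (S₁.map (P.subtype.comp e.toMonoidHom)).Normal ∨ (S₂.map (P.subtype.comp e.toMonoidHom)).Normal := by
  obtain ⟨M, hM⟩ := pu_of_sit hP
  refine h.2.2.2.2.2.2.2 G _ M (P.subtype_injective.comp e.injective) ?_
  rwa [MonoidHom.range_comp, MonoidHom.range_eq_top.2 e.surjective, ← MonoidHom.range_eq_map, range_subtype]

theorem res_phi [Nontrivial S] (hS : IsPGroup p S) (hJ : thompsonSubgroupA S = ⊤) (h : frattiniOfMinimalCLJoin p S ≠ ⊥) :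
    Res p C[(⊤ : Subgroup S)] (frattiniOfMinimalCLJoin p S) := by
  haveI : (frattiniOfMinimalCLJoin p S).Characteristic := characteristic_iff_map_eq.2 (phiJ_map hS)
  refine res_of_top (by rw [hJ]; exact top_le_iff.1 (le_centralizer_iff.1 inf_le_right)) ?_ h le_rfl fun w => .inr ?_
  · simpa using Loc.center_ne_bot (hS.to_subgroup ⊤) top_ne_bot
  · obtain ⟨-, -, -, -, -, r⟩ := w.pu.exists_r1 w.hZ w.hJ
    rw [map_eq_map_ofInjective w.inj, phiJ_map hS]
    exact r.phi_normal w.pu.syl.pg w.hJ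

end Cfsg.Agent.PLocal.PU
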