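import Cfsg.Agent.PLocal.BB1
import Cfsg.Agent.PLocal.FF9

/-! Glauberman's theorem on subgroups `T ≤ Z(S)` normalized by `N(J(S))` for odd `p`: if `T` is not normal in a group
of characteristic `p`, some element acts on `T` as a Singer cycle on `[T, g]` (`Sing`, `sing_of_JA`). -/

set_option autoImplicit false

namespace Cfsg.Agent.PLocal

open Subgroup Cfsg Cfsg.Agent.Loc Cfsg.Agent.PLocal.FF Cfsg.Agent.Classical
open Cfsg.Agent.BG (AbV)
open scoped commutatorElement MatrixGroups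

local notation:max "C[" H "]" => Subgroup.centralizer (SetLike.coe H)
local notation:max "N[" H "]" => Subgroup.normalizer (SetLike.coe H)

/-- The map `a` acts on `T` nontrivially, with order prime to `p`, transitively on `(T / C_T(a))^#`. -/
structure Sing {Ω : Type*} [Group Ω] (p : ℕ) (T : Subgroup Ω) (a : Ω → Ω) : Prop where
  ne : ∃ t ∈ T, a t ≠ t
  ord : ∃ n : ℕ, n.Coprime p ∧ ∀ t ∈ T, a^[n] t = t
  tr : ∀ s ∈ T, ∀ t ∈ T, a s ≠ s → a t ≠ t → ∃ k : ℕ, a (a^[k] s * t⁻¹) = a^[k] s * t⁻¹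

variable {p : ℕ} [hp : Fact p.Prime] {G : Type*} [Group G] [Finite G]

theorem FF.Line.torus {V : Type*} [AddCommGroup V] [Module (ZMod p) V] [Finite V] {ρ : Representation (ZMod p) G V}
    {L A : Subgroup G} {Λ : Set (Subgroup G)} (h : Line ρ L Λ) (h2 : p ≠ 2) (hf : Function.Injective ρ) (hA : A ∈ Λ) :
    ∃ g ∈ L, ∃ n m : ℕ, n.Coprime p ∧ g ^ n = 1 ∧ cj g A = A ∧ g ^ m ∈ C[L] ∧ g ^ m * g ^ m = 1 ∧
      (∀ v, ρ (g ^ m) v = v → v ∈ fx ρ L) ∧
      ∀ u ∈ fx ρ A, ∀ v ∈ fx ρ A, u ∉ fx ρ L → v ∉ fx ρ L → ∃ k : ℕ, ρ (g ^ k) u - v ∈ fx ρ L := by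
  obtain ⟨B, hB, hne⟩ := h.other A
  obtain ⟨F, _, _, φ, ψ, -, hN, hA', -⟩ := h.sl2 hf hA hB hne
  haveI := hN.charP
  obtain ⟨c, hc⟩ := IsCyclic.exists_monoid_generator (α := Fˣ)
  obtain ⟨g, hg⟩ := hN.bij.2 (dSL c)
  obtain ⟨m, hm⟩ := hc (-1)
  have e : ∀ k : ℕ, φ (g ^ k) = dSL (c ^ k) := fun k => by rw [map_pow, hg]; exact (map_pow (dSLHom F) c k).symm
  have em : φ (g ^ m) = -1 := by
    rw [e, show c ^ m = -1 from hm]; ext i j; fin_cases i <;> fin_cases j <;> simp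
  refine ⟨g, g.2, Nat.card Fˣ, m, ?_, ?_, h.eq_of_le (h.conj A hA g g.2) hA ?_, fun l hl => ?_, ?_, fun v hv => ?_,
    fun u hu v hv hu' hv' => ?_⟩
  · obtain ⟨k, hk⟩ := FiniteField.card F p
    rw [Nat.card_units, Nat.card_eq_fintype_card, hk.2]
    exact ((Nat.coprime_self_sub_left (Nat.one_le_pow _ _ hp.out.pos)).2 (Nat.coprime_one_left _)).coprime_dvd_right
      (dvd_pow_self p k.2.ne')
  · exact congrArg Subtype.val (hN.bij.1 (a₁ := g ^ _) (a₂ := 1) (by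
      rw [e, pow_card_eq_one', map_one]; exact map_one (dSLHom F)))
  · rw [fx_cj]
    rintro _ ⟨v, hv, rfl⟩
    rw [SetLike.mem_coe, hA'] at hv
    rw [hA', hN.act, hg]
    simp [Matrix.mulVec, dotProduct, Fin.sum_univ_two, hv]
  · exact congrArg Subtype.val (hN.bij.1 (a₁ := ⟨l, hl⟩ * g ^ m) (a₂ := g ^ m * ⟨l, hl⟩) (by simp [em]))
  · exact congrArg Subtype.val (hN.bij.1 (a₁ := g ^ m * g ^ m) (a₂ := 1) (by simp [em]))
  · have := hN.act (g ^ m) v
    rw [em, coe_pow, hv, show (-1 : SL(2, F)).1 = -1 from rfl, Matrix.neg_mulVec, Matrix.one_mulVec,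
      eq_neg_iff_add_eq_zero, ← two_smul F] at this
    exact (hN.ker v).1 ((smul_eq_zero.1 this).resolve_left (two_ne_zero_of_charP h2))
  · rw [hA'] at hu hv
    have z : ∀ w, ψ w 1 = 0 → w ∉ fx ρ L → ψ w 0 ≠ 0 := fun w h1 h0 e => h0 ((hN.ker w).1 (by
      ext i; fin_cases i <;> simp [h1, e]))
    obtain ⟨k, hk⟩ := hc (Units.mk0 (ψ v 0 / ψ u 0) (div_ne_zero (z v hv hv') (z u hu hu')))
    refine ⟨k, (hN.ker _).1 ?_⟩
    have := hN.act (g ^ k) u
    rw [e, coe_pow, show c ^ k = _ from hk] at this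
    rw [map_sub, this]
    ext i; fin_cases i <;> simp [Matrix.mulVec, dotProduct, Fin.sum_univ_two, hu, hv, z u hu hu']

theorem conj_iterate {G : Type*} [Group G] (g t : G) (k : ℕ) :
    (fun x => g * x * g⁻¹)^[k] t = g ^ k * t * (g ^ k)⁻¹ := by
  induction k with
  | zero => simp
  | succ k ih => rw [Function.iterate_succ_apply', ih, pow_succ']; group

theorem sing_of_umax (h2 : p ≠ 2) (hG : C[pCore p G] ≤ pCore p G) {S M T : Subgroup G} (hS : SylIn p S ⊤)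
    (um : UMax S ⊤ M) (hT : T ≤ S ⊓ C[S]) (hM : M = N[T]) (hJ : N[thompsonSubgroupAOf S] ≤ M) :
    ∃ g ∈ N[T], Sing p T fun x => g * x * g⁻¹ := by
  set Q := pCore p G
  have hQS : Q ≤ S := (pCoreOf_top p G).ge.trans hS.pCoreOf_le
  have hS' : Transfer.IsSylowIn p S ⊤ := hS.coe_toSylowTop ▸ Transfer.isSylowIn_top hS.toSylowTop
  have hTZ : T ≤ Q ⊓ C[Q] := fun t ht => have := centralizer_le hQS (hT ht).2; ⟨hG this, this⟩
  have hZ : ∀ g, ∀ t ∈ Q ⊓ C[Q], g * t * g⁻¹ ∈ Q ⊓ C[Q] := fun g t ht => Normal.conj_mem inferInstance t ht g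
  have cZ : ∀ s ∈ Q ⊓ C[Q], ∀ t ∈ Q ⊓ C[Q], Commute s t := fun s hs t ht => ht.2 s hs.1
  set V := omegaOneCenter p Q
  have hV : IsElementaryAbelian p V := isElementaryAbelian_omegaOne_center p _
  have hQC : Q ≤ C[V] := le_centralizer_omegaOne_center p _
  have hCS : C[V] ≤ S ⊔ C[Q ⊓ C[Q]] := cent_omega_le (isPGroup_pCore p G).to_inf_left (BG.center_abelian _) hS
  have hTM : C[T] ≤ M := hM ▸ centralizer_le_normalizer _
  have hCM : C[V] ≤ M := hCS.trans (sup_le um.le ((centralizer_le hTZ).trans hTM))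
  haveI := umax_inf_normal um hS hCM
  have hCZ : C[V] ≤ C[Q ⊓ C[Q]] := fun c hc => by
    obtain ⟨s, hs, d, hd, rfl⟩ := (mem_sup_of_normal_right).1 (hCS hc)
    have : s ∈ C[V] := (mul_mem_cancel_right (centralizer_le (omegaOne_le p _) hd)).1 hc
    exact mul_mem (le_centralizer_iff.1 inf_le_right (le_pCore inferInstance hS.pg.to_inf_left ⟨hs, this⟩)) hd
  have hJn : ¬ ⊤ ≤ N[thompsonSubgroupAOf S] := fun e => um.lt.not_ge (e.trans hJ)
  obtain ⟨ρ, hs⟩ := exists_setup hV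
  set π := QuotientGroup.mk' C[V]
  have hF := hs.ffsA um hS hQC hCM fun e => hJn (by
    rw [← JA_eq_of_le inf_le_left (le_inf (JA_le S) e)]; exact le_normalizer_of_normal)
  have hP := hs.pm um hS hQC hCM
  have act : ∀ g k, π g = π k → ∀ t ∈ Q ⊓ C[Q], g * t * g⁻¹ = k * t * k⁻¹ := fun g k e t ht => by
    have := hCZ (QuotientGroup.eq.1 e) t ht
    calc g * t * g⁻¹ = g * (t * (g⁻¹ * k)) * k⁻¹ := by group
      _ = _ := by rw [this]; group
  have hK : ∀ g, ∀ t ∈ T, ⁅g, t⁆ ∈ V := fun g t ht => by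
    obtain ⟨u, hu, hu', hq⟩ := JA_quad hS' hJn
    rw [pCoreOf_top] at hu' hq
    have a : ⊤ ≤ C[zpowers (t ^ p)] := by_contra fun c => not_quad_of_pow hS' um.le (fun H h1 h2 => um.max H h1 h2.lt_top)
      um.lt.ne (um.max _ (le_centralizer_iff.1 (zpowers_le.2 (pow_mem (hT ht).2 p))) (lt_top_iff_ne_top.2 fun e => c e.ge))
      (zpowers_le.2 (pow_mem (hTZ ht).1 p)) (zpowers_le.2 (subset_closure ⟨t, hT ht, rfl⟩)) hu hu' hq
    have b := a (mem_top g) _ (mem_zpowers _)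
    refine mem_omegaOne (by
      rw [commutatorElement_def]; exact mul_mem (hZ g t (hTZ ht)) (inv_mem (hTZ ht))) ?_
    rw [commutatorElement_def, (cZ _ (hZ g t (hTZ ht)) _ (inv_mem (hTZ ht))).mul_pow, conj_pow, ← b]; group
  obtain ⟨B, hB⟩ := hF.ex
  have hL := hF.line B hB
  obtain ⟨g', hgL, n, m, hn, gn, gB, zc, z2, zf, tr⟩ := hL.torus h2 hs.inj (hF.mem hB)
  obtain ⟨g, rfl⟩ := hs.surj g'
  have gT : g ∈ N[T] := by
    have : π g ∈ M.map π := hF.norm_star_le hP (by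
      rw [PU.star_eq hB]
      exact normalizer_inf_normalizer_le_normalizer_sup _ _ ⟨mem_normalizer_iff_cj.2 gB,
        centralizer_le_normalizer _ (le_centralizer_iff.1 PU.RS_le_cent hgL)⟩)
    have : g ∈ (M.map π).comap π := this
    rwa [hs.comap_map, sup_eq_left.2 hCM, hM] at this
  set z := g ^ m
  have zT : ∀ t ∈ T, z * t * z⁻¹ ∈ T := fun t ht => (mem_normalizer_iff.1 (pow_mem gT m) t).1 ht
  -- elements of `T` fixed by `z`
  have fixL : ∀ t ∈ T, z * t * z⁻¹ = t → ∀ l, π l ∈ LL ρ (S.map π) B → ∀ l', π l' ∈ LL ρ (S.map π) B →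
      l' * ⁅l, t⁆ * l'⁻¹ = ⁅l, t⁆ := fun t ht e l hl l' hl' => by
    have a := zf (AbV.mk hV _ (hK l t ht)) (AbV.ext (by
      rw [← map_pow, hs.act, AbV.val_mk, commutatorElement_def]
      have := act (l * z) (z * l) (by rw [map_mul, map_mul, map_pow]; exact zc _ hl) t (hTZ ht)
      calc z * (l * t * l⁻¹ * t⁻¹) * z⁻¹ = (z * l * t * (z * l)⁻¹) * (z * t * z⁻¹)⁻¹ := by group
        _ = l * (z * t * z⁻¹) * l⁻¹ * (z * t * z⁻¹)⁻¹ := by rw [← this]; group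
        _ = _ := by rw [e]))
    exact (hs.act l' _).symm.trans (congrArg AbV.val (a _ hl'))
  have fixg : ∀ t ∈ T, z * t * z⁻¹ = t → g * t * g⁻¹ = t := fun t ht e => by
    have a := fixL t ht e g hgL g hgL
    have b : ∀ k : ℕ, g ^ k * t * (g ^ k)⁻¹ = ⁅g, t⁆ ^ k * t := fun k => by
      induction k with
      | zero => simp
      | succ k ih =>
        calc g ^ (k + 1) * t * (g ^ (k + 1))⁻¹ = g * (g ^ k * t * (g ^ k)⁻¹) * g⁻¹ := by group
          _ = (g * ⁅g, t⁆ * g⁻¹) ^ k * (⁅g, t⁆ * t) := by rw [ih, conj_pow, commutatorElement_def]; group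
          _ = _ := by rw [a, pow_succ, mul_assoc]
    have c := b n
    rw [act (g ^ n) 1 (by rw [map_pow, gn, map_one]) t (hTZ ht)] at c
    have d : ⁅g, t⁆ ^ n = 1 := by simpa using c
    have := (pow_gcd_eq_one (a := ⁅g, t⁆)).2 ⟨d, hV.2 _ (hK g t ht)⟩
    rw [hn, pow_one, commutatorElement_def, mul_inv_eq_one] at this
    exact this
  have fixz : ∀ t, g * t * g⁻¹ = t → z * t * z⁻¹ = t := fun t e => by
    rw [← conj_iterate]; exact Function.iterate_fixed e m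
  refine ⟨g, gT, by_contra fun c => ?_, ⟨n, hn, fun t ht => ?_⟩, fun s hs' t ht es et => ?_⟩
  · push Not at c
    refine hF.nle B hB (hL.sSup_eq.ge.trans (sSup_le fun E hE e he => ?_))
    obtain ⟨l', hl', rfl⟩ := hL.exists_conj (hF.mem hB) hE
    obtain ⟨b', hb', rfl⟩ := he
    obtain ⟨l, rfl⟩ := hs.surj l'
    obtain ⟨b, hb, rfl⟩ := hB.2 hb'
    refine ⟨l * b * l⁻¹, hTM fun t ht => ?_, by simp⟩
    have a := fixL t ht (fixz t (c t ht)) l⁻¹ (by rw [map_inv]; exact inv_mem hl') b (hF.le hB hb')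
    have := (hT ht).2 b hb
    calc t * (l * b * l⁻¹) = l * (⁅l⁻¹, t⁆ * (t * b)) * l⁻¹ := by rw [commutatorElement_def]; group
      _ = l * (b * ⁅l⁻¹, t⁆ * b⁻¹ * (b * t)) * l⁻¹ := by rw [a, this]
      _ = _ := by rw [commutatorElement_def]; group
  · rw [conj_iterate, act (g ^ n) 1 (by rw [map_pow, gn, map_one]) t (hTZ ht)]; simp
  · have zz : ∀ t ∈ T, z * (z * t * z⁻¹) * z⁻¹ = t := fun t ht => by
      have := act (z * z) 1 (by rw [map_mul, map_pow, z2, map_one]) t (hTZ ht)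
      simpa [mul_assoc] using this
    have fa : ∀ t (ht : t ∈ T), AbV.mk hV _ (hK z t ht) ∈ fx ρ B := fun t ht b' hb' => by
      obtain ⟨b, hb, rfl⟩ := hB.2 hb'
      refine AbV.ext ((hs.act b _).trans ?_)
      rw [AbV.val_mk, mul_inv_eq_iff_eq_mul]
      exact (hT (by rw [commutatorElement_def]; exact mul_mem (zT t ht) (inv_mem ht))).2 b hb
    have fl : ∀ t (ht : t ∈ T), AbV.mk hV _ (hK z t ht) ∈ fx ρ (LL ρ (S.map π) B) → g * t * g⁻¹ = t := fun t ht e => by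
      refine fixg t ht ?_
      have a : z * ⁅z, t⁆ * z⁻¹ = ⁅z, t⁆ := (hs.act z _).symm.trans (congrArg AbV.val (e _ (by
        rw [map_pow]; exact pow_mem hgL m)))
      have b : ⁅z, t⁆ ^ 2 = 1 := by
        rw [sq]; nth_rewrite 1 [← a]
        rw [commutatorElement_def]
        calc z * (z * t * z⁻¹ * t⁻¹) * z⁻¹ * (z * t * z⁻¹ * t⁻¹) = z * (z * t * z⁻¹) * z⁻¹ * t⁻¹ := by group
          _ = 1 := by rw [zz t ht, mul_inv_cancel]
      have := (pow_gcd_eq_one (a := ⁅z, t⁆)).2 ⟨b, hV.2 _ (hK z t ht)⟩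
      rwa [(Nat.coprime_primes Nat.prime_two hp.out).2 h2.symm, pow_one, commutatorElement_def, mul_inv_eq_one] at this
    obtain ⟨k, hk⟩ := tr _ (fa s hs') _ (fa t ht) (fun e => es (fl s hs' e)) fun e => et (fl t ht e)
    have gk : g ^ k * s * (g ^ k)⁻¹ ∈ T := (mem_normalizer_iff.1 (pow_mem gT k) s).1 hs'
    refine ⟨k, ?_⟩
    rw [conj_iterate]
    refine fl _ (mul_mem gk (inv_mem ht)) ?_
    convert hk using 1
    refine AbV.ext ?_
    rw [AbV.val_sub, ← map_pow, hs.act, AbV.val_mk, AbV.val_mk, AbV.val_mk]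
    have c1 := cZ _ (inv_mem (hTZ gk)) _ (inv_mem (hTZ (zT t ht)))
    have c2 := cZ _ (hTZ ht) _ (inv_mem (hTZ (zT t ht)))
    have c3 := cZ _ (hTZ ht) _ (inv_mem (hTZ gk))
    have c4 : g ^ k * z = z * g ^ k := (Commute.pow_pow_self g k m).eq
    have e1 : g ^ k * ⁅z, s⁆ * (g ^ k)⁻¹ = z * (g ^ k * s * (g ^ k)⁻¹) * z⁻¹ * (g ^ k * s * (g ^ k)⁻¹)⁻¹ := by
      rw [commutatorElement_def]
      calc g ^ k * (z * s * z⁻¹ * s⁻¹) * (g ^ k)⁻¹ = (g ^ k * z) * s * (g ^ k * z)⁻¹ * (g ^ k * s * (g ^ k)⁻¹)⁻¹ := by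
            group
        _ = _ := by rw [c4]; group
    rw [e1]
    generalize g ^ k * s * (g ^ k)⁻¹ = w at c1 c3 ⊢
    simp only [commutatorElement_def]
    calc z * (w * t⁻¹) * z⁻¹ * (w * t⁻¹)⁻¹ = z * w * z⁻¹ * ((z * t * z⁻¹)⁻¹ * (t * w⁻¹)) := by group
      _ = z * w * z⁻¹ * (w⁻¹ * (t * (z * t * z⁻¹)⁻¹)) := by rw [c3.eq, ← mul_assoc _ w⁻¹, ← c1.eq, mul_assoc w⁻¹, c2.eq]
      _ = _ := by group

theorem sing_of_JA (h2 : p ≠ 2) (hG : C[pCore p G] ≤ pCore p G) {S T : Subgroup G} (hS : SylIn p S ⊤)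
    (hT : T ≤ S ⊓ C[S]) (hJ : N[thompsonSubgroupAOf S] ≤ N[T]) (hn : ¬ T.Normal) :
    ∃ g ∈ N[T], Sing p T fun x => g * x * g⁻¹ := by
  obtain ⟨H, ⟨h1, h3⟩, hm⟩ := (wellFounded_lt (α := Subgroup G)).has_min {H | S ≤ H ∧ ¬ H ≤ N[T]}
    ⟨⊤, le_top, fun e => hn (normal_of_top_le_normalizer e)⟩
  have hSN : S ≤ N[T] := (le_centralizer_iff.1 (hT.trans inf_le_right)).trans (centralizer_le_normalizer _)
  have hTH : T ≤ H := hT.trans (inf_le_left.trans h1)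
  have hQ : pCore p G ≤ S := (pCoreOf_top p G).ge.trans hS.pCoreOf_le
  have hQ' : (pCore p G).subgroupOf H ≤ pCore p H :=
    le_pCore inferInstance ((isPGroup_pCore p G).comap_subtype)
  have um : UMax S H (N[T] ⊓ H) := ⟨le_inf hSN h1, lt_of_le_of_ne inf_le_right fun e => h3 (inf_eq_right.1 e),
    fun X a b => le_inf (by_contra fun c => hm X ⟨a, c⟩ b) b.le⟩
  obtain ⟨g, hg, a1, a2, a3⟩ := sing_of_umax (G := H) (T := T.subgroupOf H) h2 (fun x hx => hQ' (hG fun y hy =>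
      congrArg Subtype.val (hx ⟨y, h1 (hQ hy)⟩ (hQ' hy)))) (hS.mono h1 le_top).subgroupOf_top
    (PU.umax_subgroupOf um) (fun x hx => ⟨(hT hx).1, fun y hy => Subtype.ext ((hT hx).2 y hy)⟩)
    (by rw [inf_subgroupOf_right, subgroupOf_normalizer_eq hTH]) (fun x hx => by
      rw [inf_subgroupOf_right]
      have := le_normalizer_map H.subtype ⟨x, hx, rfl⟩
      rw [map_JA (inf_ker_of_injective H.subtype_injective _), map_subgroupOf_eq_of_le h1] at this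
      exact hJ this)
  rw [← subgroupOf_normalizer_eq hTH] at hg
  refine ⟨g, hg, ?_, ?_, fun s hs t ht es et => ?_⟩
  · obtain ⟨t, ht, e⟩ := a1
    exact ⟨t, ht, fun c => e (Subtype.ext c)⟩
  · obtain ⟨n, hn, e⟩ := a2
    refine ⟨n, hn, fun t ht => ?_⟩
    have := congrArg Subtype.val (e ⟨t, hTH ht⟩ ht)
    rw [conj_iterate] at this ⊢
    exact this
  · obtain ⟨k, e⟩ := a3 ⟨s, hTH hs⟩ hs ⟨t, hTH ht⟩ ht (fun c => es (congrArg Subtype.val c))
      fun c => et (congrArg Subtype.val c)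
    refine ⟨k, ?_⟩
    have := congrArg Subtype.val e
    rw [conj_iterate] at this ⊢
    exact this

end Cfsg.Agent.PLocal
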